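import Mathlib
import Cfsg.Agent.Helper10.O7920Defs

set_option autoImplicit false

namespace Cfsg.Agent.Helper37.O7920CASE144

open Subgroup Cfsg.Agent.Helper10.O7920
open scoped Pointwise

-- piece CASE144
theorem case144 {G : Type*} [Group G] [Finite G] (hG : Nat.card G = 7920)
    (h144 : Nat.card (Sylow 11 G) = 144) (N : Subgroup G) [N.Normal] (hN : N ≠ ⊤)
    (h11 : 11 ∣ Nat.card N) (P : Sylow 11 G) :
    (P : Subgroup G) ≤ N ∧
      N ⊓ normalizer ((P : Subgroup G) : Set G) ≤ centralizer ((P : Subgroup G) : Set G) ∧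
      11 < Nat.card N := by
  haveI : Fact (Nat.Prime 11) := ⟨by norm_num⟩
  have hS : ∀ Q : Sylow 11 G, Nat.card (Q : Subgroup G) = 11 := fun Q => sylow11_card hG Q
  have hP := hS P
  -- 1. `P ≤ N`
  have hPN : (P : Subgroup G) ≤ N := by
    obtain ⟨x0, hx0⟩ := exists_prime_orderOf_dvd_card' (G := ↥N) 11 h11
    have hxo : orderOf (x0 : G) = 11 := by rw [Subgroup.orderOf_coe]; exact hx0
    obtain ⟨P₀, hP₀⟩ := Cfsg.Agent.Helper9.OrdTools.exists_sylow_of_orderOf hS hxo
    have hP₀N : (P₀ : Subgroup G) ≤ N := by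
      rw [← hP₀]
      exact (Subgroup.zpowers_le).mpr x0.2
    obtain ⟨g, hg⟩ := MulAction.exists_smul_eq G P₀ P
    intro y hy
    have h1 : (P : Subgroup G) = MulAut.conj g • (P₀ : Subgroup G) := by
      rw [← hg]
      exact Sylow.pointwise_smul_def
    rw [h1, Subgroup.mem_pointwise_smul_iff_inv_smul_mem] at hy
    have h2 : g⁻¹ * y * g ∈ N := by
      have h3 : (MulAut.conj g)⁻¹ • y = g⁻¹ * y * g := by simp [MulAut.smul_def]
      rw [← h3]
      exact hP₀N hy
    have h4 := (inferInstance : N.Normal).conj_mem _ h2 g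
    have h5 : g * (g⁻¹ * y * g) * g⁻¹ = y := by group
    rwa [h5] at h4
  -- `|N_G(P)| = 55`
  have hNP : Nat.card (normalizer ((P : Subgroup G) : Set G)) = 55 := by
    have := card_normalizer_mul_n11 hG P
    rw [h144] at this
    omega
  have hPle : (P : Subgroup G) ≤ N ⊓ normalizer ((P : Subgroup G) : Set G) :=
    le_inf hPN Subgroup.le_normalizer
  refine ⟨hPN, ?_, ?_⟩
  · -- 2.
    have hd1 : Nat.card ↥(N ⊓ normalizer ((P : Subgroup G) : Set G)) ∣ 55 := by
      rw [← hNP]
      exact Subgroup.card_dvd_of_le inf_le_right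
    have hd2 : 11 ∣ Nat.card ↥(N ⊓ normalizer ((P : Subgroup G) : Set G)) := by
      have h0 := Subgroup.card_dvd_of_le hPle
      rwa [hP] at h0
    have hcases : Nat.card ↥(N ⊓ normalizer ((P : Subgroup G) : Set G)) = 11 ∨
        Nat.card ↥(N ⊓ normalizer ((P : Subgroup G) : Set G)) = 55 := by
      have key : ∀ d ∈ Nat.divisors 55, 11 ∣ d → d = 11 ∨ d = 55 := by decide
      exact key _ (Nat.mem_divisors.mpr ⟨hd1, by norm_num⟩) hd2
    rcases hcases with h | h
    · have heq : (P : Subgroup G) = N ⊓ normalizer ((P : Subgroup G) : Set G) :=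
        Subgroup.eq_of_le_of_card_ge hPle (by rw [h, hP])
      rw [← heq]
      exact Cfsg.Agent.Helper9.OrdTools.le_centralizer_of_prime P hP
    · exfalso
      have heq : N ⊓ normalizer ((P : Subgroup G) : Set G) = normalizer ((P : Subgroup G) : Set G) :=
        Subgroup.eq_of_le_of_card_ge inf_le_right (by rw [h, hNP])
      have hle : normalizer ((P : Subgroup G) : Set G) ≤ N := by
        rw [← heq]
        exact inf_le_left
      have hF : normalizer ((P : Subgroup G) : Set G) ⊔ N = ⊤ := Sylow.normalizer_sup_eq_top' P hPN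
      rw [sup_of_le_right hle] at hF
      exact hN hF
  · -- 3.
    have hle : 11 ≤ Nat.card N := Nat.le_of_dvd Nat.card_pos h11
    rcases Nat.lt_or_ge 11 (Nat.card N) with h | h
    · exact h
    · exfalso
      have hc : Nat.card N = 11 := le_antisymm h hle
      have heq : (P : Subgroup G) = N := Subgroup.eq_of_le_of_card_ge hPN (by rw [hc, hP])
      have hnorm : (P : Subgroup G).Normal := heq ▸ (inferInstance : N.Normal)
      have htop : normalizer ((P : Subgroup G) : Set G) = ⊤ := Subgroup.normalizer_eq_top_iff.mpr hnorm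
      rw [htop, Subgroup.card_top, hG] at hNP
      omega

end Cfsg.Agent.Helper37.O7920CASE144
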