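import Mathlib

set_option autoImplicit false

namespace Cfsg.Agent.Helper37.O7920K1B

open Subgroup

/-- The conjugation action of a subgroup of the normaliser of `S` on the non-identity elements
of `S`. -/
@[reducible] def conjAct (G : Type*) [Group G] (S R : Subgroup G)
    (hRS : R ≤ normalizer (S : Set G)) : MulAction ↥R {s : ↥S // s ≠ 1} where
  smul x s := ⟨⟨(x : G) * (s : G) * (x : G)⁻¹,
      (Subgroup.mem_normalizer_iff.mp (hRS x.2) (s : G)).mp s.1.2⟩, by
    intro h
    apply s.2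
    apply Subtype.ext
    have h1 : (x : G) * (s : G) * (x : G)⁻¹ = 1 := congrArg Subtype.val h
    have h2 : ((s : ↥S) : G) = (x : G)⁻¹ * ((x : G) * (s : G) * (x : G)⁻¹) * (x : G) := by group
    rw [h2, h1]
    simp⟩
  one_smul s := by
    apply Subtype.ext
    apply Subtype.ext
    show ((1 : ↥R) : G) * (s : G) * ((1 : ↥R) : G)⁻¹ = (s : G)
    simp
  mul_smul x y s := by
    apply Subtype.ext
    apply Subtype.ext
    show ((x * y : ↥R) : G) * (s : G) * ((x * y : ↥R) : G)⁻¹
      = (x : G) * ((y : G) * (s : G) * (y : G)⁻¹) * (x : G)⁻¹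
    rw [Subgroup.coe_mul]
    group

-- piece K1B
theorem free_conj_dvd {G : Type*} [Group G] [Finite G] (S R : Subgroup G)
    (hRS : R ≤ normalizer (S : Set G))
    (hfree : ∀ x ∈ R, ∀ s ∈ S, x * s = s * x → x = 1 ∨ s = 1) :
    Nat.card R ∣ Nat.card S - 1 := by
  classical
  letI : MulAction ↥R {s : ↥S // s ≠ 1} := conjAct G S R hRS
  have hstab : ∀ s : {s : ↥S // s ≠ 1}, MulAction.stabilizer ↥R s = ⊥ := by
    intro s
    rw [Subgroup.eq_bot_iff_forall]
    intro x hx
    have h1 : (x : G) * ((s : ↥S) : G) * (x : G)⁻¹ = ((s : ↥S) : G) :=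
      congrArg (fun t : {s : ↥S // s ≠ 1} => ((t : ↥S) : G)) hx
    have h2 : (x : G) * ((s : ↥S) : G) = ((s : ↥S) : G) * (x : G) := by
      calc (x : G) * ((s : ↥S) : G) = ((x : G) * ((s : ↥S) : G) * (x : G)⁻¹) * (x : G) := by group
        _ = ((s : ↥S) : G) * (x : G) := by rw [h1]
    rcases hfree (x : G) x.2 ((s : ↥S) : G) s.1.2 h2 with h | h
    · exact Subtype.ext h
    · exact absurd (Subtype.ext h) s.2
  have hequiv := MulAction.selfEquivOrbitsQuotientProd hstab
  have hcard : Nat.card {s : ↥S // s ≠ 1} = Nat.card S - 1 := by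
    haveI : Fintype ↥S := Fintype.ofFinite _
    rw [Nat.card_eq_fintype_card, Fintype.card_subtype, Finset.filter_ne',
      Finset.card_erase_of_mem (Finset.mem_univ _), Finset.card_univ, Nat.card_eq_fintype_card]
  rw [← hcard, Nat.card_congr hequiv, Nat.card_prod]
  exact dvd_mul_left _ _

end Cfsg.Agent.Helper37.O7920K1B
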