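import Cfsg.Agent.Helper16.D8Core
import Cfsg.Agent.Helper51.S3IN

set_option autoImplicit false

namespace Cfsg.Agent.Helper37

open Cfsg Cfsg.Agent.Helper16 DihedralGroup
open scoped ComplexConjugate

/-- number of conjugators bringing `m` into the set `P` -/
def d8N (P : WM → Prop) [DecidablePred P] (m : WM) : ℕ :=
  (Finset.univ.filter (fun j : WM => P (j⁻¹ * m * j))).card

/-- the function `[wCls m ≠ 0] v (wCls m)` -/
def d8θ (v : Fin 5 → ℤ) (m : WM) : ℤ := if wCls m = 0 then 0 else v (wCls m)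

abbrev d8P36a : WM → Prop := fun m => m.s = false
abbrev d8P18a : WM → Prop := fun m => m.s = false ∧ m.n.2 ^ 3 = 1
abbrev d8P12a : WM → Prop := fun m => m.s = false ∧ (m.n.2 = 1 ∨ m.n.2 = sr 0)
abbrev d8P18b : WM → Prop := fun m => m.n.1 ^ 3 = 1 ∧ m.n.2 ^ 3 = 1
abbrev d8P12b : WM → Prop := fun m => m.n.1 = m.n.2
abbrev d8P36b : WM → Prop := fun m => (m.n.1 ^ 3 = 1 ↔ m.n.2 ^ 3 = 1)
abbrev d8PM : WM → Prop := fun m => m.s = false ∧ m.n.1 ^ 3 = 1 ∧ m.n.2 ^ 3 = 1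
abbrev d8PT : WM → Prop := fun m => (m.n.1 = 1 ∨ m.n.1 = sr 0) ∧ (m.n.2 = 1 ∨ m.n.2 = sr 0)
abbrev d8PC6b : WM → Prop := fun m => m.n.1 = m.n.2 ∧ m.n.1 ^ 3 = 1
abbrev d8PC6a : WM → Prop := fun m => m.s = false ∧ (m.n.1 = 1 ∨ m.n.1 = sr 0) ∧ m.n.2 ^ 3 = 1

set_option maxRecDepth 1000000 in
theorem d8_idA1 : ∀ m : WM, 72 * d8θ vA1 m =
    4 * (d8N d8P18a m : ℤ) - 6 * (d8N d8P12a m : ℤ) + 2 * (d8N d8P36a m : ℤ) := by decide +kernel

set_option maxRecDepth 1000000 in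
theorem d8_idB1 : ∀ m : WM, 72 * d8θ vB1 m =
    4 * (d8N d8P18b m : ℤ) - 6 * (d8N d8P12b m : ℤ) + 2 * (d8N d8P36b m : ℤ) := by decide +kernel

set_option maxRecDepth 1000000 in
theorem d8_idW1 : ∀ m : WM, 72 * d8θ vW1 m =
    72 + 4 * (d8N d8P18a m : ℤ) - 8 * (d8N d8PM m : ℤ) - 9 * (d8N d8PT m : ℤ)
      + 12 * (d8N d8PC6b m : ℤ) := by decide +kernel

set_option maxRecDepth 1000000 in
theorem d8_idW2 : ∀ m : WM, 72 * d8θ vW2 m =
    72 + 4 * (d8N d8P18b m : ℤ) - 8 * (d8N d8PM m : ℤ) - 9 * (d8N d8PT m : ℤ)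
      + 12 * (d8N d8PC6a m : ℤ) := by decide +kernel

theorem d8_card_WM : Fintype.card WM = 72 := by decide

/-- a subgroup of the model from a decidable predicate -/
def d8Sub (P : WM → Prop) (h1 : P 1) (hm : ∀ a b : WM, P a → P b → P (a * b))
    (hi : ∀ a : WM, P a → P a⁻¹) : Subgroup WM where
  carrier := {m | P m}
  mul_mem' := fun {a b} ha hb => hm a b ha hb
  one_mem' := h1
  inv_mem' := fun {a} ha => hi a ha

/-- For a class function `Y` of the model: `∑ N_P(m) Y(m) = 72 ∑_{P m} Y(m)`. -/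
theorem d8_conj_sum (Y : WM → ℂ) (hcl : ∀ c m : WM, Y (c * m * c⁻¹) = Y m)
    (P : WM → Prop) [DecidablePred P] :
    ∑ m : WM, (d8N P m : ℂ) * Y m = 72 * ∑ m : WM, (if P m then Y m else 0) := by
  have h1 : ∀ m : WM, (d8N P m : ℂ) * Y m
      = ∑ j : WM, (if P (j⁻¹ * m * j) then Y (j⁻¹ * m * j) else 0) := by
    intro m
    unfold d8N
    rw [Finset.card_filter, Nat.cast_sum, Finset.sum_mul]
    refine Finset.sum_congr rfl (fun j _ => ?_)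
    have hY : Y (j⁻¹ * m * j) = Y m := by
      have := hcl j⁻¹ m
      rwa [inv_inv] at this
    by_cases hP : P (j⁻¹ * m * j)
    · rw [if_pos hP, if_pos hP, hY]
      simp
    · rw [if_neg hP, if_neg hP]
      simp
  rw [Finset.sum_congr rfl (fun m _ => h1 m), Finset.sum_comm]
  have h2 : ∀ j : WM, ∑ m : WM, (if P (j⁻¹ * m * j) then Y (j⁻¹ * m * j) else 0)
      = ∑ m : WM, (if P m then Y m else 0) := by
    intro j
    refine Fintype.sum_equiv (MulAut.conj j⁻¹).toEquiv _ _ (fun m => ?_)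
    have e : (MulAut.conj j⁻¹).toEquiv m = j⁻¹ * m * j := by
      show j⁻¹ * m * j⁻¹⁻¹ = j⁻¹ * m * j
      rw [inv_inv]
    rw [e]
  rw [Finset.sum_congr rfl (fun j _ => h2 j), Finset.sum_const, Finset.card_univ, d8_card_WM,
    nsmul_eq_mul]
  norm_num

/-- one term of the decomposition -/
theorem d8_term {Y : WM → ℂ} (hY : IsCharacter WM Y) (P : WM → Prop) [DecidablePred P]
    (h1 : P 1) (hm : ∀ a b : WM, P a → P b → P (a * b)) (hi : ∀ a : WM, P a → P a⁻¹)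
    (h : ℕ) (hcard : (Finset.univ.filter P).card = h) :
    ∃ n : ℕ, ∑ m : WM, (d8N P m : ℂ) * Y m = 72 * ((h : ℂ) * n) := by
  obtain ⟨n, hn⟩ := Cfsg.Agent.Helper51.s3in_char_sum hY (d8Sub P h1 hm hi) P (fun m => Iff.rfl)
  refine ⟨n, ?_⟩
  rw [d8_conj_sum Y (fun c m => Cfsg.Agent.Helper79.isCharacter_conj_eq hY m c) P, hn, hcard]

set_option maxRecDepth 1000000 in
theorem d8_sub36a : d8P36a 1 ∧ (∀ a b : WM, d8P36a a → d8P36a b → d8P36a (a * b)) ∧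
    (∀ a : WM, d8P36a a → d8P36a a⁻¹) ∧ (Finset.univ.filter d8P36a).card = 36 := by
  decide +kernel

set_option maxRecDepth 1000000 in
theorem d8_sub18a : d8P18a 1 ∧ (∀ a b : WM, d8P18a a → d8P18a b → d8P18a (a * b)) ∧
    (∀ a : WM, d8P18a a → d8P18a a⁻¹) ∧ (Finset.univ.filter d8P18a).card = 18 := by
  decide +kernel

set_option maxRecDepth 1000000 in
theorem d8_sub12a : d8P12a 1 ∧ (∀ a b : WM, d8P12a a → d8P12a b → d8P12a (a * b)) ∧
    (∀ a : WM, d8P12a a → d8P12a a⁻¹) ∧ (Finset.univ.filter d8P12a).card = 12 := by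
  decide +kernel

set_option maxRecDepth 1000000 in
theorem d8_sub18b : d8P18b 1 ∧ (∀ a b : WM, d8P18b a → d8P18b b → d8P18b (a * b)) ∧
    (∀ a : WM, d8P18b a → d8P18b a⁻¹) ∧ (Finset.univ.filter d8P18b).card = 18 := by
  decide +kernel

set_option maxRecDepth 1000000 in
theorem d8_sub12b : d8P12b 1 ∧ (∀ a b : WM, d8P12b a → d8P12b b → d8P12b (a * b)) ∧
    (∀ a : WM, d8P12b a → d8P12b a⁻¹) ∧ (Finset.univ.filter d8P12b).card = 12 := by
  decide +kernel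

set_option maxRecDepth 1000000 in
theorem d8_sub36b : d8P36b 1 ∧ (∀ a b : WM, d8P36b a → d8P36b b → d8P36b (a * b)) ∧
    (∀ a : WM, d8P36b a → d8P36b a⁻¹) ∧ (Finset.univ.filter d8P36b).card = 36 := by
  decide +kernel

set_option maxRecDepth 1000000 in
theorem d8_subM : d8PM 1 ∧ (∀ a b : WM, d8PM a → d8PM b → d8PM (a * b)) ∧
    (∀ a : WM, d8PM a → d8PM a⁻¹) ∧ (Finset.univ.filter d8PM).card = 9 := by
  decide +kernel

set_option maxRecDepth 1000000 in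
theorem d8_subT : d8PT 1 ∧ (∀ a b : WM, d8PT a → d8PT b → d8PT (a * b)) ∧
    (∀ a : WM, d8PT a → d8PT a⁻¹) ∧ (Finset.univ.filter d8PT).card = 8 := by
  decide +kernel

set_option maxRecDepth 1000000 in
theorem d8_subC6b : d8PC6b 1 ∧ (∀ a b : WM, d8PC6b a → d8PC6b b → d8PC6b (a * b)) ∧
    (∀ a : WM, d8PC6b a → d8PC6b a⁻¹) ∧ (Finset.univ.filter d8PC6b).card = 6 := by
  decide +kernel

set_option maxRecDepth 1000000 in
theorem d8_subC6a : d8PC6a 1 ∧ (∀ a b : WM, d8PC6a a → d8PC6a b → d8PC6a (a * b)) ∧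
    (∀ a : WM, d8PC6a a → d8PC6a a⁻¹) ∧ (Finset.univ.filter d8PC6a).card = 6 := by
  decide +kernel

/-- the sum in terms of `d8θ` -/
theorem d8_sum_theta (v : Fin 5 → ℤ) (Y : WM → ℂ) :
    ∑ m : WM, (if wCls m = 0 then 0 else (v (wCls m) : ℂ)) * Y m
      = ∑ m : WM, ((d8θ v m : ℤ) : ℂ) * Y m := by
  refine Finset.sum_congr rfl (fun m _ => ?_)
  unfold d8θ
  by_cases h : wCls m = 0
  · rw [if_pos h, if_pos h]
    simp
  · rw [if_neg h, if_neg h]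

/-- PIECE IN of CALL S3716. -/
theorem d8_sum_int {G : Type*} [Group G] [Finite G] (φ : WM →* G) {X : G → ℂ}
    (hX : IsCharacter G X) (v : Fin 5 → ℤ) (hv : v = vW1 ∨ v = vW2 ∨ v = vA1 ∨ v = vB1) :
    ∃ k : ℤ, ∑ m : WM, (if wCls m = 0 then 0 else (v (wCls m) : ℂ)) * X (φ m) = 72 * (k : ℂ) := by
  obtain ⟨Y, hYdef⟩ : ∃ Y : WM → ℂ, Y = fun m => X (φ m) := ⟨_, rfl⟩
  have hY : IsCharacter WM Y := by
    rw [hYdef]; exact Cfsg.Agent.Helper79.isCharacter_comp hX φ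
  have hYm : ∀ m : WM, X (φ m) = Y m := fun m => by rw [hYdef]
  simp only [hYm]
  rw [d8_sum_theta]
  obtain ⟨n36a, h36a⟩ := d8_term hY d8P36a d8_sub36a.1 d8_sub36a.2.1 d8_sub36a.2.2.1 36 d8_sub36a.2.2.2
  obtain ⟨n18a, h18a⟩ := d8_term hY d8P18a d8_sub18a.1 d8_sub18a.2.1 d8_sub18a.2.2.1 18 d8_sub18a.2.2.2
  obtain ⟨n12a, h12a⟩ := d8_term hY d8P12a d8_sub12a.1 d8_sub12a.2.1 d8_sub12a.2.2.1 12 d8_sub12a.2.2.2
  obtain ⟨n36b, h36b⟩ := d8_term hY d8P36b d8_sub36b.1 d8_sub36b.2.1 d8_sub36b.2.2.1 36 d8_sub36b.2.2.2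
  obtain ⟨n18b, h18b⟩ := d8_term hY d8P18b d8_sub18b.1 d8_sub18b.2.1 d8_sub18b.2.2.1 18 d8_sub18b.2.2.2
  obtain ⟨n12b, h12b⟩ := d8_term hY d8P12b d8_sub12b.1 d8_sub12b.2.1 d8_sub12b.2.2.1 12 d8_sub12b.2.2.2
  obtain ⟨nM, hM⟩ := d8_term hY d8PM d8_subM.1 d8_subM.2.1 d8_subM.2.2.1 9 d8_subM.2.2.2
  obtain ⟨nT, hT⟩ := d8_term hY d8PT d8_subT.1 d8_subT.2.1 d8_subT.2.2.1 8 d8_subT.2.2.2
  obtain ⟨nC6b, hC6b⟩ := d8_term hY d8PC6b d8_subC6b.1 d8_subC6b.2.1 d8_subC6b.2.2.1 6 d8_subC6b.2.2.2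
  obtain ⟨nC6a, hC6a⟩ := d8_term hY d8PC6a d8_subC6a.1 d8_subC6a.2.1 d8_subC6a.2.2.1 6 d8_subC6a.2.2.2
  -- the sum over the whole model
  obtain ⟨nW, hW⟩ : ∃ n : ℕ, ∑ m : WM, Y m = 72 * (n : ℂ) := by
    obtain ⟨n, hn⟩ := Cfsg.Agent.Helper51.s3in_char_sum hY ⊤ (fun _ => True) (fun m => by simp)
    refine ⟨n, ?_⟩
    have hc : ((Finset.univ.filter (fun _ : WM => True)).card : ℂ) = 72 := by
      have : (Finset.univ.filter (fun _ : WM => True)).card = 72 := by decide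
      rw [this]; norm_num
    rw [hc] at hn
    simpa using hn
  rcases hv with rfl | rfl | rfl | rfl
  · -- `vW1`
    refine ⟨(nW : ℤ) + n18a - nM - nT + nC6b, ?_⟩
    have key : ∀ m : WM, (72 : ℂ) * ((d8θ vW1 m : ℤ) : ℂ) =
        72 + 4 * (d8N d8P18a m : ℂ) - 8 * (d8N d8PM m : ℂ) - 9 * (d8N d8PT m : ℂ)
          + 12 * (d8N d8PC6b m : ℂ) := by
      intro m
      exact_mod_cast d8_idW1 m
    have hsum : (72 : ℂ) * ∑ m : WM, ((d8θ vW1 m : ℤ) : ℂ) * Y m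
        = 72 * ∑ m : WM, Y m + 4 * ∑ m : WM, (d8N d8P18a m : ℂ) * Y m
          - 8 * ∑ m : WM, (d8N d8PM m : ℂ) * Y m - 9 * ∑ m : WM, (d8N d8PT m : ℂ) * Y m
          + 12 * ∑ m : WM, (d8N d8PC6b m : ℂ) * Y m := by
      simp only [Finset.mul_sum, ← Finset.sum_add_distrib, ← Finset.sum_sub_distrib]
      refine Finset.sum_congr rfl (fun m _ => ?_)
      linear_combination (Y m) * key m
    rw [hW, h18a, hM, hT, hC6b] at hsum
    push_cast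
    linear_combination (1 / 72 : ℂ) * hsum
  · -- `vW2`
    refine ⟨(nW : ℤ) + n18b - nM - nT + nC6a, ?_⟩
    have key : ∀ m : WM, (72 : ℂ) * ((d8θ vW2 m : ℤ) : ℂ) =
        72 + 4 * (d8N d8P18b m : ℂ) - 8 * (d8N d8PM m : ℂ) - 9 * (d8N d8PT m : ℂ)
          + 12 * (d8N d8PC6a m : ℂ) := by
      intro m
      exact_mod_cast d8_idW2 m
    have hsum : (72 : ℂ) * ∑ m : WM, ((d8θ vW2 m : ℤ) : ℂ) * Y m
        = 72 * ∑ m : WM, Y m + 4 * ∑ m : WM, (d8N d8P18b m : ℂ) * Y m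
          - 8 * ∑ m : WM, (d8N d8PM m : ℂ) * Y m - 9 * ∑ m : WM, (d8N d8PT m : ℂ) * Y m
          + 12 * ∑ m : WM, (d8N d8PC6a m : ℂ) * Y m := by
      simp only [Finset.mul_sum, ← Finset.sum_add_distrib, ← Finset.sum_sub_distrib]
      refine Finset.sum_congr rfl (fun m _ => ?_)
      linear_combination (Y m) * key m
    rw [hW, h18b, hM, hT, hC6a] at hsum
    push_cast
    linear_combination (1 / 72 : ℂ) * hsum
  · -- `vA1`
    refine ⟨(n18a : ℤ) - n12a + n36a, ?_⟩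
    have key : ∀ m : WM, (72 : ℂ) * ((d8θ vA1 m : ℤ) : ℂ) =
        4 * (d8N d8P18a m : ℂ) - 6 * (d8N d8P12a m : ℂ) + 2 * (d8N d8P36a m : ℂ) := by
      intro m
      exact_mod_cast d8_idA1 m
    have hsum : (72 : ℂ) * ∑ m : WM, ((d8θ vA1 m : ℤ) : ℂ) * Y m
        = 4 * ∑ m : WM, (d8N d8P18a m : ℂ) * Y m
          - 6 * ∑ m : WM, (d8N d8P12a m : ℂ) * Y m + 2 * ∑ m : WM, (d8N d8P36a m : ℂ) * Y m := by
      simp only [Finset.mul_sum, ← Finset.sum_add_distrib, ← Finset.sum_sub_distrib]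
      refine Finset.sum_congr rfl (fun m _ => ?_)
      linear_combination (Y m) * key m
    rw [h18a, h12a, h36a] at hsum
    push_cast
    linear_combination (1 / 72 : ℂ) * hsum
  · -- `vB1`
    refine ⟨(n18b : ℤ) - n12b + n36b, ?_⟩
    have key : ∀ m : WM, (72 : ℂ) * ((d8θ vB1 m : ℤ) : ℂ) =
        4 * (d8N d8P18b m : ℂ) - 6 * (d8N d8P12b m : ℂ) + 2 * (d8N d8P36b m : ℂ) := by
      intro m
      exact_mod_cast d8_idB1 m
    have hsum : (72 : ℂ) * ∑ m : WM, ((d8θ vB1 m : ℤ) : ℂ) * Y m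
        = 4 * ∑ m : WM, (d8N d8P18b m : ℂ) * Y m
          - 6 * ∑ m : WM, (d8N d8P12b m : ℂ) * Y m + 2 * ∑ m : WM, (d8N d8P36b m : ℂ) * Y m := by
      simp only [Finset.mul_sum, ← Finset.sum_add_distrib, ← Finset.sum_sub_distrib]
      refine Finset.sum_congr rfl (fun m _ => ?_)
      linear_combination (Y m) * key m
    rw [h18b, h12b, h36b] at hsum
    push_cast
    linear_combination (1 / 72 : ℂ) * hsum

end Cfsg.Agent.Helper37
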