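import Cfsg.Agent.Helper37.D8IN

set_option autoImplicit false

namespace Cfsg.Agent.Helper37

open Cfsg Cfsg.Agent.Helper16 DihedralGroup
open scoped ComplexConjugate

/-- the kind of value a character of `WM` (coming from the configuration) takes at `m` -/
def d8val (m : WM) : Fin 7 :=
  if m = 1 then 0 else if m = wS1 then 1 else if m = wTau then 2
  else if wCls m = 1 ∨ wCls m = 2 then 3 else if wCls m = 3 then 4
  else if wCls m = 4 then 5 else 6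

abbrev d8PC3a : WM → Prop := fun m => m.s = false ∧ m.n.1 = 1 ∧ m.n.2 ^ 3 = 1
abbrev d8PC3b : WM → Prop := fun m => m.s = false ∧ m.n.1 = m.n.2 ∧ m.n.1 ^ 3 = 1
abbrev d8PC2a : WM → Prop := fun m => m = 1 ∨ m = wS1
abbrev d8PC2b : WM → Prop := fun m => m = 1 ∨ m = wTau

set_option maxRecDepth 1000000 in
theorem d8_subC3a : d8PC3a 1 ∧ (∀ a b : WM, d8PC3a a → d8PC3a b → d8PC3a (a * b)) ∧
    (∀ a : WM, d8PC3a a → d8PC3a a⁻¹) ∧ (Finset.univ.filter d8PC3a).card = 3 := by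
  decide +kernel

set_option maxRecDepth 1000000 in
theorem d8_subC3b : d8PC3b 1 ∧ (∀ a b : WM, d8PC3b a → d8PC3b b → d8PC3b (a * b)) ∧
    (∀ a : WM, d8PC3b a → d8PC3b a⁻¹) ∧ (Finset.univ.filter d8PC3b).card = 3 := by
  decide +kernel

set_option maxRecDepth 1000000 in
theorem d8_subC2a : d8PC2a 1 ∧ (∀ a b : WM, d8PC2a a → d8PC2a b → d8PC2a (a * b)) ∧
    (∀ a : WM, d8PC2a a → d8PC2a a⁻¹) ∧ (Finset.univ.filter d8PC2a).card = 2 := by
  decide +kernel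

set_option maxRecDepth 1000000 in
theorem d8_subC2b : d8PC2b 1 ∧ (∀ a b : WM, d8PC2b a → d8PC2b b → d8PC2b (a * b)) ∧
    (∀ a : WM, d8PC2b a → d8PC2b a⁻¹) ∧ (Finset.univ.filter d8PC2b).card = 2 := by
  decide +kernel

set_option maxRecDepth 1000000 in
theorem d8_cntM : ∀ i : Fin 7, (Finset.univ.filter (fun m => d8PM m ∧ d8val m = i)).card
    = (![1, 0, 0, 8, 0, 0, 0] : Fin 7 → ℕ) i := by
  decide +kernel

set_option maxRecDepth 1000000 in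
theorem d8_cntC6a : ∀ i : Fin 7, (Finset.univ.filter (fun m => d8PC6a m ∧ d8val m = i)).card
    = (![1, 1, 0, 2, 2, 0, 0] : Fin 7 → ℕ) i := by
  decide +kernel

set_option maxRecDepth 1000000 in
theorem d8_cntC3a : ∀ i : Fin 7, (Finset.univ.filter (fun m => d8PC3a m ∧ d8val m = i)).card
    = (![1, 0, 0, 2, 0, 0, 0] : Fin 7 → ℕ) i := by
  decide +kernel

set_option maxRecDepth 1000000 in
theorem d8_cntC2a : ∀ i : Fin 7, (Finset.univ.filter (fun m => d8PC2a m ∧ d8val m = i)).card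
    = (![1, 1, 0, 0, 0, 0, 0] : Fin 7 → ℕ) i := by
  decide +kernel

set_option maxRecDepth 1000000 in
theorem d8_cntC6b : ∀ i : Fin 7, (Finset.univ.filter (fun m => d8PC6b m ∧ d8val m = i)).card
    = (![1, 0, 1, 2, 0, 2, 0] : Fin 7 → ℕ) i := by
  decide +kernel

set_option maxRecDepth 1000000 in
theorem d8_cntC3b : ∀ i : Fin 7, (Finset.univ.filter (fun m => d8PC3b m ∧ d8val m = i)).card
    = (![1, 0, 0, 2, 0, 0, 0] : Fin 7 → ℕ) i := by
  decide +kernel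

set_option maxRecDepth 1000000 in
theorem d8_cntC2b : ∀ i : Fin 7, (Finset.univ.filter (fun m => d8PC2b m ∧ d8val m = i)).card
    = (![1, 0, 1, 0, 0, 0, 0] : Fin 7 → ℕ) i := by
  decide +kernel

/-- sum of a function of `d8val` over a subset -/
theorem d8_sum_val (P : WM → Prop) [DecidablePred P] (w : Fin 7 → ℂ) :
    ∑ m : WM, (if P m then w (d8val m) else 0)
      = ∑ i : Fin 7, ((Finset.univ.filter (fun m => P m ∧ d8val m = i)).card : ℂ) * w i := by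
  have h : ∀ m : WM, (if P m then w (d8val m) else 0)
      = ∑ i : Fin 7, (if P m ∧ d8val m = i then w i else 0) := by
    intro m
    by_cases hP : P m
    · simp [hP]
    · simp [hP]
  rw [Finset.sum_congr rfl (fun m _ => h m), Finset.sum_comm]
  refine Finset.sum_congr rfl (fun i _ => ?_)
  rw [← Finset.sum_filter, Finset.sum_const, nsmul_eq_mul]

/-- the subgroup sum, evaluated -/
theorem d8_eval {Y : WM → ℂ} (hY : IsCharacter WM Y) (w : Fin 7 → ℂ)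
    (hw : ∀ m : WM, d8val m ≠ 6 → Y m = w (d8val m))
    (P : WM → Prop) [DecidablePred P] (c : Fin 7 → ℕ) (h : ℕ)
    (hP : P 1 ∧ (∀ a b : WM, P a → P b → P (a * b)) ∧ (∀ a : WM, P a → P a⁻¹) ∧
      (Finset.univ.filter P).card = h)
    (hc : ∀ i : Fin 7, (Finset.univ.filter (fun m => P m ∧ d8val m = i)).card = c i)
    (hc6 : c 6 = 0) :
    ∃ n : ℕ, ∑ i : Fin 7, (c i : ℂ) * w i = (h : ℂ) * n := by
  obtain ⟨n, hn⟩ := Cfsg.Agent.Helper51.s3in_char_sum hY (d8Sub P hP.1 hP.2.1 hP.2.2.1) P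
    (fun m => Iff.rfl)
  refine ⟨n, ?_⟩
  rw [hP.2.2.2] at hn
  rw [← hn]
  have h6 : ∀ m : WM, P m → d8val m ≠ 6 := by
    intro m hm h6
    have h0 := hc 6
    rw [hc6, Finset.card_eq_zero, Finset.filter_eq_empty_iff] at h0
    exact h0 (Finset.mem_univ m) ⟨hm, h6⟩
  have e : ∀ m : WM, (if P m then Y m else 0) = (if P m then w (d8val m) else 0) := by
    intro m
    by_cases hm : P m
    · rw [if_pos hm, if_pos hm, hw m (h6 m hm)]
    · rw [if_neg hm, if_neg hm]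
  rw [Finset.sum_congr rfl (fun m _ => e m), d8_sum_val]
  refine Finset.sum_congr rfl (fun i _ => ?_)
  rw [hc i]

/-- PIECE CONG of CALL S3716. -/
theorem d8_cong {G : Type*} [Group G] [Finite G] (φ : WM →* G) {X : G → ℂ} (hX : IsCharacter G X)
    (d k₁ k₃ x c₃ c₄ : ℤ) (hd : X 1 = (d : ℂ)) (h1 : X (φ wS1) = (k₁ : ℂ))
    (h3 : X (φ wTau) = (k₃ : ℂ))
    (hx : ∀ m : WM, wCls m = 1 ∨ wCls m = 2 → X (φ m) = (x : ℂ))
    (hc3 : ∀ m : WM, wCls m = 3 → X (φ m) = (c₃ : ℂ))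
    (hc4 : ∀ m : WM, wCls m = 4 → X (φ m) = (c₄ : ℂ)) :
    (9 : ℤ) ∣ d - x ∧ (3 : ℤ) ∣ (k₁ - d) - (c₃ - x) ∧ (3 : ℤ) ∣ (k₃ - d) - (c₄ - x) := by
  obtain ⟨Y, hYdef⟩ : ∃ Y : WM → ℂ, Y = fun m => X (φ m) := ⟨_, rfl⟩
  have hY : IsCharacter WM Y := by
    rw [hYdef]; exact Cfsg.Agent.Helper79.isCharacter_comp hX φ
  obtain ⟨w, hwdef⟩ : ∃ w : Fin 7 → ℂ, w = ![(d : ℂ), k₁, k₃, x, c₃, c₄, 0] := ⟨_, rfl⟩
  have hw : ∀ m : WM, d8val m ≠ 6 → Y m = w (d8val m) := by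
    intro m hm
    rw [hYdef, hwdef]
    show X (φ m) = _
    unfold d8val at hm ⊢
    by_cases e1 : m = 1
    · rw [if_pos e1]; subst e1; rw [map_one, hd]; rfl
    rw [if_neg e1] at hm ⊢
    by_cases e2 : m = wS1
    · rw [if_pos e2]; subst e2; rw [h1]; rfl
    rw [if_neg e2] at hm ⊢
    by_cases e3 : m = wTau
    · rw [if_pos e3]; subst e3; rw [h3]; rfl
    rw [if_neg e3] at hm ⊢
    by_cases e4 : wCls m = 1 ∨ wCls m = 2
    · rw [if_pos e4, hx m e4]; rfl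
    rw [if_neg e4] at hm ⊢
    by_cases e5 : wCls m = 3
    · rw [if_pos e5, hc3 m e5]; rfl
    rw [if_neg e5] at hm ⊢
    by_cases e6 : wCls m = 4
    · rw [if_pos e6, hc4 m e6]; rfl
    rw [if_neg e6] at hm
    exact absurd rfl hm
  obtain ⟨n9, e9⟩ := d8_eval hY w hw d8PM _ 9 d8_subM d8_cntM rfl
  obtain ⟨n6a, e6a⟩ := d8_eval hY w hw d8PC6a _ 6 d8_subC6a d8_cntC6a rfl
  obtain ⟨n3a, e3a⟩ := d8_eval hY w hw d8PC3a _ 3 d8_subC3a d8_cntC3a rfl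
  obtain ⟨n2a, e2a⟩ := d8_eval hY w hw d8PC2a _ 2 d8_subC2a d8_cntC2a rfl
  obtain ⟨n6b, e6b⟩ := d8_eval hY w hw d8PC6b _ 6 d8_subC6b d8_cntC6b rfl
  obtain ⟨n3b, e3b⟩ := d8_eval hY w hw d8PC3b _ 3 d8_subC3b d8_cntC3b rfl
  obtain ⟨n2b, e2b⟩ := d8_eval hY w hw d8PC2b _ 2 d8_subC2b d8_cntC2b rfl
  rw [hwdef] at e9 e6a e3a e2a e6b e3b e2b
  simp [Fin.sum_univ_succ] at e9 e6a e3a e2a e6b e3b e2b
  have f9 : d + 8 * x = 9 * (n9 : ℤ) := by
    have g : ((d + 8 * x : ℤ) : ℂ) = ((9 * (n9 : ℤ) : ℤ) : ℂ) := by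
      push_cast; linear_combination e9
    exact_mod_cast g
  have f6a : d + k₁ + 2 * x + 2 * c₃ = 6 * (n6a : ℤ) := by
    have g : ((d + k₁ + 2 * x + 2 * c₃ : ℤ) : ℂ) = ((6 * (n6a : ℤ) : ℤ) : ℂ) := by
      push_cast; linear_combination e6a
    exact_mod_cast g
  have f3a : d + 2 * x = 3 * (n3a : ℤ) := by
    have g : ((d + 2 * x : ℤ) : ℂ) = ((3 * (n3a : ℤ) : ℤ) : ℂ) := by
      push_cast; linear_combination e3a
    exact_mod_cast g
  have f2a : d + k₁ = 2 * (n2a : ℤ) := by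
    have g : ((d + k₁ : ℤ) : ℂ) = ((2 * (n2a : ℤ) : ℤ) : ℂ) := by
      push_cast; linear_combination e2a
    exact_mod_cast g
  have f6b : d + k₃ + 2 * x + 2 * c₄ = 6 * (n6b : ℤ) := by
    have g : ((d + k₃ + 2 * x + 2 * c₄ : ℤ) : ℂ) = ((6 * (n6b : ℤ) : ℤ) : ℂ) := by
      push_cast; linear_combination e6b
    exact_mod_cast g
  have f3b : d + 2 * x = 3 * (n3b : ℤ) := by
    have g : ((d + 2 * x : ℤ) : ℂ) = ((3 * (n3b : ℤ) : ℤ) : ℂ) := by
      push_cast; linear_combination e3b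
    exact_mod_cast g
  have f2b : d + k₃ = 2 * (n2b : ℤ) := by
    have g : ((d + k₃ : ℤ) : ℂ) = ((2 * (n2b : ℤ) : ℤ) : ℂ) := by
      push_cast; linear_combination e2b
    exact_mod_cast g
  refine ⟨⟨(n9 : ℤ) - x, by omega⟩, ⟨(n2a : ℤ) - n6a + n3a - d, by omega⟩,
    ⟨(n2b : ℤ) - n6b + n3b - d, by omega⟩⟩

end Cfsg.Agent.Helper37
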