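-- helper37 library: piece FU of helper16's CALL S3701 (no fusion of φ hV3 with φ hV1, φ hV2).
import Mathlib
import Cfsg.Agent.Helper16.H3Core

set_option autoImplicit false

open Cfsg Cfsg.Agent.Helper16 DihedralGroup

namespace Cfsg.Agent.Helper37

set_option maxRecDepth 1000000 in
theorem h3_card_comm_t1_v1 :
    (Finset.univ.filter (fun m : HM => m * hT1 = hT1 * m ∧ m * hV1 = hV1 * m)).card = 6 := by
  decide +kernel

set_option maxRecDepth 1000000 in
theorem h3_card_comm_t2_v2 :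
    (Finset.univ.filter (fun m : HM => m * hT2 = hT2 * m ∧ m * hV2 = hV2 * m)).card = 6 := by
  decide +kernel

set_option maxRecDepth 1000000 in
theorem h3_v3_not_conj_v1 : ∀ k : HM, k * hV3 * k⁻¹ ≠ hV1 := by decide +kernel

set_option maxRecDepth 1000000 in
theorem h3_v3_not_conj_v2 : ∀ k : HM, k * hV3 * k⁻¹ ≠ hV2 := by decide +kernel

/-- `9` does not divide `|C_G(φ v)|` if `v` commutes with an element `t` of order 3 of `HM`
whose centralizer in `C_HM(v)` has fewer than 9 elements. -/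
theorem h3_not9 {G : Type*} [Group G] [Finite G] {φ : HM →* G} (h : H3Cfg φ)
    (v t : HM) (ht3 : t ^ 3 = 1) (ht : t ^ 2 ≠ 1) (htv : t * v = v * t)
    (hcard : (Finset.univ.filter (fun m : HM => m * t = t * m ∧ m * v = v * m)).card < 9) :
    ¬ 9 ∣ Nat.card (Subgroup.centralizer ({φ v} : Set G)) := by
  classical
  have : Fact (Nat.Prime 3) := ⟨by norm_num⟩
  intro h9
  have hxC : φ t ∈ Subgroup.centralizer ({φ v} : Set G) := by
    rw [Subgroup.mem_centralizer_iff]
    intro y hy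
    rw [Set.mem_singleton_iff] at hy
    rw [hy, ← map_mul, ← map_mul, htv]
  obtain ⟨x', hx'⟩ : ∃ x' : ↥(Subgroup.centralizer ({φ v} : Set G)), (x' : G) = φ t :=
    ⟨⟨φ t, hxC⟩, rfl⟩
  have hx'3 : x' ^ 3 = 1 := by
    apply Subtype.ext
    rw [Subgroup.coe_pow, hx', ← map_pow, ht3, map_one]
    rfl
  have hx'1 : x' ≠ 1 := by
    intro h1
    apply ht
    have h2 : φ t = 1 := by rw [← hx', h1]; rfl
    have h3 : t = 1 := h.inj (by rw [h2, map_one])
    rw [h3, one_pow]
  have hord : orderOf x' = 3 := orderOf_eq_prime hx'3 hx'1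
  have hz : Nat.card (Subgroup.zpowers x') = 3 ^ 1 := by
    rw [Nat.card_zpowers, hord]
    norm_num
  obtain ⟨K, hK, hxK⟩ := Sylow.exists_subgroup_card_pow_prime_le 3
    (show 3 ^ 2 ∣ Nat.card ↥(Subgroup.centralizer ({φ v} : Set G)) by norm_num; exact h9)
    (Subgroup.zpowers x') hz (by norm_num)
  have hcomm := IsPGroup.commutative_of_card_eq_prime_sq (p := 3) hK
  have hxK' : x' ∈ K := hxK (Subgroup.mem_zpowers x')
  have hmem : ∀ q ∈ K, ∃ m : HM, (m * t = t * m ∧ m * v = v * m) ∧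
      φ m = ((q : ↥(Subgroup.centralizer ({φ v} : Set G))) : G) := by
    intro q hq
    have h1 : q * x' = x' * q := by
      have := hcomm ⟨q, hq⟩ ⟨x', hxK'⟩
      exact congrArg Subtype.val this
    have h2 : (q : G) * φ t = φ t * (q : G) := by
      have := congrArg Subtype.val h1
      simpa [hx'] using this
    obtain ⟨m, hm⟩ := h.ti t ht (q : G) (by
      have h3 : (q : G) * φ t * (q : G)⁻¹ = φ t := by rw [h2]; group
      rw [h3]
      exact ⟨t, rfl⟩)
    refine ⟨m, ⟨?_, ?_⟩, hm⟩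
    · apply h.inj
      rw [map_mul, map_mul, hm, h2]
    · apply h.inj
      have h3 := Subgroup.mem_centralizer_iff.mp q.2 (φ v) (Set.mem_singleton _)
      rw [map_mul, map_mul, hm, h3]
  have h3 : Nat.card K ≤
      (Finset.univ.filter (fun m : HM => m * t = t * m ∧ m * v = v * m)).card := by
    have h4 : (fun q : ↥(Subgroup.centralizer ({φ v} : Set G)) => (q : G)) ''
        (K : Set ↥(Subgroup.centralizer ({φ v} : Set G))) ⊆
        ((Finset.univ.filter (fun m : HM => m * t = t * m ∧ m * v = v * m)).image φ :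
          Finset G) := by
      rintro _ ⟨q, hq, rfl⟩
      obtain ⟨m, hm1, hm⟩ := hmem q hq
      simp only [Finset.coe_image, Set.mem_image, Finset.mem_coe, Finset.mem_filter,
        Finset.mem_univ, true_and]
      exact ⟨m, hm1, hm⟩
    have h5 : Nat.card K = (K : Set ↥(Subgroup.centralizer ({φ v} : Set G))).ncard :=
      (Nat.card_coe_set_eq _)
    rw [h5, ← Set.ncard_image_of_injective _ Subtype.val_injective]
    calc _ ≤ (((Finset.univ.filter (fun m : HM => m * t = t * m ∧ m * v = v * m)).image φ :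
            Finset G) : Set G).ncard := Set.ncard_le_ncard h4 (Finset.finite_toSet _)
      _ = ((Finset.univ.filter (fun m : HM => m * t = t * m ∧ m * v = v * m)).image φ).card :=
          Set.ncard_coe_finset _
      _ ≤ _ := Finset.card_image_le
  rw [hK] at h3
  norm_num at h3
  omega

theorem h3_not_isConj_aux {G : Type*} [Group G] [Finite G] {φ : HM →* G} (h : H3Cfg φ)
    (v t : HM) (ht3 : t ^ 3 = 1) (ht : t ^ 2 ≠ 1) (htv : t * v = v * t)
    (hcard : (Finset.univ.filter (fun m : HM => m * t = t * m ∧ m * v = v * m)).card < 9)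
    (hnc : ∀ k : HM, k * hV3 * k⁻¹ ≠ v) : ¬ IsConj (φ hV3) (φ v) := by
  have : Fact (Nat.Prime 3) := ⟨by norm_num⟩
  intro hconj
  obtain ⟨g, hg⟩ := isConj_iff.mp hconj
  have hn9 := h3_not9 h v t ht3 ht htv hcard
  have hxC : φ t ∈ Subgroup.centralizer ({φ v} : Set G) := by
    rw [Subgroup.mem_centralizer_iff]
    intro y hy
    rw [Set.mem_singleton_iff] at hy
    rw [hy, ← map_mul, ← map_mul, htv]
  have hsC : g * φ hT3 * g⁻¹ ∈ Subgroup.centralizer ({φ v} : Set G) := by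
    rw [Subgroup.mem_centralizer_iff]
    intro y hy
    rw [Set.mem_singleton_iff] at hy
    rw [hy, ← hg]
    have h1 : φ hV3 * φ hT3 = φ hT3 * φ hV3 := by
      rw [← map_mul, ← map_mul]
      congr 1
    calc g * φ hV3 * g⁻¹ * (g * φ hT3 * g⁻¹) = g * (φ hV3 * φ hT3) * g⁻¹ := by group
      _ = g * (φ hT3 * φ hV3) * g⁻¹ := by rw [h1]
      _ = g * φ hT3 * g⁻¹ * (g * φ hV3 * g⁻¹) := by group
  obtain ⟨x', hx'⟩ : ∃ x' : ↥(Subgroup.centralizer ({φ v} : Set G)), (x' : G) = φ t :=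
    ⟨⟨φ t, hxC⟩, rfl⟩
  obtain ⟨s', hs'⟩ : ∃ s' : ↥(Subgroup.centralizer ({φ v} : Set G)),
      (s' : G) = g * φ hT3 * g⁻¹ := ⟨⟨_, hsC⟩, rfl⟩
  have hx'3 : x' ^ 3 = 1 := by
    apply Subtype.ext
    rw [Subgroup.coe_pow, hx', ← map_pow, ht3, map_one]
    rfl
  have hx'1 : x' ≠ 1 := by
    intro h1
    apply ht
    have h2 : φ t = 1 := by rw [← hx', h1]; rfl
    have h3 : t = 1 := h.inj (by rw [h2, map_one])
    rw [h3, one_pow]
  have hord : orderOf x' = 3 := orderOf_eq_prime hx'3 hx'1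
  have hzc : Nat.card (Subgroup.zpowers x') = 3 := by
    rw [Nat.card_zpowers, hord]
  have hs'3 : s' ^ 3 = 1 := by
    apply Subtype.ext
    rw [Subgroup.coe_pow, hs', conj_pow, ← map_pow]
    have : hT3 ^ 3 = 1 := by decide
    rw [this, map_one]
    simp
  have hzx : IsPGroup 3 (Subgroup.zpowers x') := by
    rintro ⟨y, hy⟩
    refine ⟨1, ?_⟩
    obtain ⟨i, rfl⟩ := Subgroup.mem_zpowers_iff.mp hy
    apply Subtype.ext
    simp only [pow_one, Subgroup.coe_pow, Subgroup.coe_one]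
    rw [← zpow_natCast, ← zpow_mul, mul_comm, zpow_mul, zpow_natCast, hx'3, one_zpow]
  have hzs : IsPGroup 3 (Subgroup.zpowers s') := by
    rintro ⟨y, hy⟩
    refine ⟨1, ?_⟩
    obtain ⟨i, rfl⟩ := Subgroup.mem_zpowers_iff.mp hy
    apply Subtype.ext
    simp only [pow_one, Subgroup.coe_pow, Subgroup.coe_one]
    rw [← zpow_natCast, ← zpow_mul, mul_comm, zpow_mul, zpow_natCast, hs'3, one_zpow]
  obtain ⟨Q', hQ'⟩ := hzx.exists_le_sylow
  obtain ⟨R, hR⟩ := hzs.exists_le_sylow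
  have hQcard : Nat.card (Q' : Subgroup ↥(Subgroup.centralizer ({φ v} : Set G))) = 3 := by
    obtain ⟨n, hn⟩ := IsPGroup.iff_card.mp Q'.isPGroup'
    have h1 : Nat.card (Subgroup.zpowers x') ∣
        Nat.card (Q' : Subgroup ↥(Subgroup.centralizer ({φ v} : Set G))) :=
      Subgroup.card_dvd_of_le hQ'
    have h2 : Nat.card (Q' : Subgroup ↥(Subgroup.centralizer ({φ v} : Set G))) ∣
        Nat.card ↥(Subgroup.centralizer ({φ v} : Set G)) := Subgroup.card_subgroup_dvd_card _
    rw [hn] at h1 h2 ⊢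
    rw [hzc] at h1
    have hn1 : n ≠ 0 := by
      rintro rfl
      norm_num at h1
    have hn2 : n < 2 := by
      by_contra hcon
      replace hcon : 2 ≤ n := Nat.le_of_not_lt hcon
      apply hn9
      exact (pow_dvd_pow 3 hcon).trans h2 |> fun hh => by norm_num at hh; exact hh
    have : n = 1 := by omega
    rw [this]
    norm_num
  have hQeq : Subgroup.zpowers x' = (Q' : Subgroup ↥(Subgroup.centralizer ({φ v} : Set G))) :=
    Subgroup.eq_of_le_of_card_ge hQ' (by rw [hQcard, hzc])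
  obtain ⟨c, hc⟩ := MulAction.exists_smul_eq
    ↥(Subgroup.centralizer ({φ v} : Set G)) Q' R
  have hsR : s' ∈ (R : Subgroup ↥(Subgroup.centralizer ({φ v} : Set G))) :=
    hR (Subgroup.mem_zpowers s')
  have hcs : c⁻¹ * s' * c ∈ (Q' : Subgroup ↥(Subgroup.centralizer ({φ v} : Set G))) := by
    rw [← hc] at hsR
    rw [Sylow.coe_subgroup_smul, Subgroup.mem_pointwise_smul_iff_inv_smul_mem] at hsR
    simpa [MulAut.smul_def] using hsR
  rw [← hQeq] at hcs
  obtain ⟨i, hi⟩ := Subgroup.mem_zpowers_iff.mp hcs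
  have hm' : ((c : G)⁻¹ * g) * φ hT3 * ((c : G)⁻¹ * g)⁻¹ = φ (t ^ i) := by
    have h1 := congrArg Subtype.val hi
    simp only [Subgroup.coe_zpow, Subgroup.coe_mul, Subgroup.coe_inv, hx', hs'] at h1
    rw [map_zpow, h1]
    group
  obtain ⟨k, hk⟩ := h.ti hT3 (by decide) ((c : G)⁻¹ * g) (by rw [hm']; exact ⟨_, rfl⟩)
  have hcτ : φ v * (c : G) = (c : G) * φ v :=
    Subgroup.mem_centralizer_iff.mp c.2 (φ v) (Set.mem_singleton _)
  have h2 : φ (k * hV3 * k⁻¹) = φ v := by
    rw [map_mul, map_mul, map_inv, hk]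
    calc (c : G)⁻¹ * g * φ hV3 * ((c : G)⁻¹ * g)⁻¹
        = (c : G)⁻¹ * (g * φ hV3 * g⁻¹) * (c : G) := by group
      _ = (c : G)⁻¹ * (φ v * (c : G)) := by rw [hg, mul_assoc]
      _ = φ v := by rw [hcτ]; group
  exact hnc k (h.inj h2)

theorem h3_not_isConj {G : Type*} [Group G] [Finite G] {φ : HM →* G} (h : H3Cfg φ) :
    ¬ IsConj (φ hV3) (φ hV1) ∧ ¬ IsConj (φ hV3) (φ hV2) := by
  constructor
  · exact h3_not_isConj_aux h hV1 hT1 (by decide) (by decide) (by decide)
      (by rw [h3_card_comm_t1_v1]; norm_num) h3_v3_not_conj_v1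
  · exact h3_not_isConj_aux h hV2 hT2 (by decide) (by decide) (by decide)
      (by rw [h3_card_comm_t2_v2]; norm_num) h3_v3_not_conj_v2

end Cfsg.Agent.Helper37
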