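import Cfsg.Agent.Helper16.H3Core
import Cfsg.Agent.Helper51.S3IN

set_option autoImplicit false

namespace Cfsg.Agent.Helper37

open Cfsg Cfsg.Agent.Helper16 DihedralGroup
open scoped ComplexConjugate

/-- number of conjugators bringing `m` into the set `P` -/
def h3N (P : HM → Prop) [DecidablePred P] (m : HM) : ℕ :=
  (Finset.univ.filter (fun j : HM => P (j⁻¹ * m * j))).card

/-- the normal subgroup of index two -/
abbrev h3PA : HM → Prop := fun m => nmSg m.n = 1
/-- the image of `S₃ × S₃` -/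
abbrev h3PB : HM → Prop := fun m => m.k = 0

set_option maxRecDepth 1000000 in
theorem h3_id : ∀ m : HM, (108 : ℤ) * (if hE m then 1 else 0) =
    72 * (if h3PA m then 1 else 0) - (h3N h3PB m : ℤ) + 36 := by decide +kernel

theorem h3_card_HM : Fintype.card HM = 108 := by decide

/-- a subgroup of the model from a decidable predicate -/
def h3Sub (P : HM → Prop) (h1 : P 1) (hm : ∀ a b : HM, P a → P b → P (a * b))
    (hi : ∀ a : HM, P a → P a⁻¹) : Subgroup HM where
  carrier := {m | P m}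
  mul_mem' := fun {a b} ha hb => hm a b ha hb
  one_mem' := h1
  inv_mem' := fun {a} ha => hi a ha

/-- For a class function `Y` of the model: `∑ N_P(m) Y(m) = 108 ∑_{P m} Y(m)`. -/
theorem h3_conj_sum (Y : HM → ℂ) (hcl : ∀ c m : HM, Y (c * m * c⁻¹) = Y m)
    (P : HM → Prop) [DecidablePred P] :
    ∑ m : HM, (h3N P m : ℂ) * Y m = 108 * ∑ m : HM, (if P m then Y m else 0) := by
  have h1 : ∀ m : HM, (h3N P m : ℂ) * Y m
      = ∑ j : HM, (if P (j⁻¹ * m * j) then Y (j⁻¹ * m * j) else 0) := by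
    intro m
    unfold h3N
    rw [Finset.card_filter, Nat.cast_sum, Finset.sum_mul]
    refine Finset.sum_congr rfl (fun j _ => ?_)
    have hY : Y (j⁻¹ * m * j) = Y m := by
      have := hcl j⁻¹ m
      rwa [inv_inv] at this
    by_cases hP : P (j⁻¹ * m * j)
    · rw [if_pos hP, if_pos hP, hY]
      simp
    · rw [if_neg hP, if_neg hP]
      simp
  rw [Finset.sum_congr rfl (fun m _ => h1 m), Finset.sum_comm]
  have h2 : ∀ j : HM, ∑ m : HM, (if P (j⁻¹ * m * j) then Y (j⁻¹ * m * j) else 0)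
      = ∑ m : HM, (if P m then Y m else 0) := by
    intro j
    refine Fintype.sum_equiv (MulAut.conj j⁻¹).toEquiv _ _ (fun m => ?_)
    have e : (MulAut.conj j⁻¹).toEquiv m = j⁻¹ * m * j := by
      show j⁻¹ * m * j⁻¹⁻¹ = j⁻¹ * m * j
      rw [inv_inv]
    rw [e]
  rw [Finset.sum_congr rfl (fun j _ => h2 j), Finset.sum_const, Finset.card_univ, h3_card_HM,
    nsmul_eq_mul]
  norm_num

/-- the sum of a character over a subgroup given by a predicate -/
theorem h3_sub_sum {Y : HM → ℂ} (hY : IsCharacter HM Y) (P : HM → Prop) [DecidablePred P]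
    (h1 : P 1) (hm : ∀ a b : HM, P a → P b → P (a * b)) (hi : ∀ a : HM, P a → P a⁻¹)
    (h : ℕ) (hcard : (Finset.univ.filter P).card = h) :
    ∃ n : ℕ, ∑ m : HM, (if P m then Y m else 0) = (h : ℂ) * n := by
  obtain ⟨n, hn⟩ := Cfsg.Agent.Helper51.s3in_char_sum hY (h3Sub P h1 hm hi) P (fun m => Iff.rfl)
  exact ⟨n, by rw [hn, hcard]⟩

set_option maxRecDepth 1000000 in
theorem h3_subA : h3PA 1 ∧ (∀ a b : HM, h3PA a → h3PA b → h3PA (a * b)) ∧
    (∀ a : HM, h3PA a → h3PA a⁻¹) ∧ (Finset.univ.filter h3PA).card = 54 := by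
  decide +kernel

set_option maxRecDepth 1000000 in
theorem h3_subB : h3PB 1 ∧ (∀ a b : HM, h3PB a → h3PB b → h3PB (a * b)) ∧
    (∀ a : HM, h3PB a → h3PB a⁻¹) ∧ (Finset.univ.filter h3PB).card = 36 := by
  decide +kernel

/-- PIECE IN of CALL S3701. -/
theorem h3_sum_int {G : Type*} [Group G] [Finite G] (φ : HM →* G) {X : G → ℂ}
    (hX : IsCharacter G X) :
    ∃ k : ℤ, ∑ m : HM, (if hE m then X (φ m) else 0) = 36 * (k : ℂ) := by
  obtain ⟨Y, hYdef⟩ : ∃ Y : HM → ℂ, Y = fun m => X (φ m) := ⟨_, rfl⟩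
  have hY : IsCharacter HM Y := by
    rw [hYdef]; exact Cfsg.Agent.Helper79.isCharacter_comp hX φ
  have hYm : ∀ m : HM, X (φ m) = Y m := fun m => by rw [hYdef]
  simp only [hYm]
  obtain ⟨nA, hA⟩ := h3_sub_sum hY h3PA h3_subA.1 h3_subA.2.1 h3_subA.2.2.1 54 h3_subA.2.2.2
  obtain ⟨nB, hB⟩ := h3_sub_sum hY h3PB h3_subB.1 h3_subB.2.1 h3_subB.2.2.1 36 h3_subB.2.2.2
  obtain ⟨nH, hH⟩ : ∃ n : ℕ, ∑ m : HM, Y m = 108 * (n : ℂ) := by
    obtain ⟨n, hn⟩ := Cfsg.Agent.Helper51.s3in_char_sum hY ⊤ (fun _ => True) (fun m => by simp)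
    refine ⟨n, ?_⟩
    have hc : ((Finset.univ.filter (fun _ : HM => True)).card : ℂ) = 108 := by
      have : (Finset.univ.filter (fun _ : HM => True)).card = 108 := by decide
      rw [this]; norm_num
    rw [hc] at hn
    simpa using hn
  have hconj := h3_conj_sum Y (fun c m => Cfsg.Agent.Helper79.isCharacter_conj_eq hY m c) h3PB
  refine ⟨(nA : ℤ) - nB + nH, ?_⟩
  have key : ∀ m : HM, (108 : ℂ) * (if hE m then Y m else 0) =
      72 * (if h3PA m then Y m else 0) - (h3N h3PB m : ℂ) * Y m + 36 * Y m := by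
    intro m
    have h0 := h3_id m
    have h1 : ((108 : ℤ) * (if hE m then 1 else 0) : ℂ) =
        72 * (if h3PA m then 1 else 0) - (h3N h3PB m : ℂ) + 36 := by exact_mod_cast h0
    by_cases hEm : hE m <;> by_cases hAm : h3PA m
    · simp only [if_pos hEm, if_pos hAm] at h1 ⊢
      linear_combination (Y m) * h1
    · simp only [if_pos hEm, if_neg hAm] at h1 ⊢
      linear_combination (Y m) * h1
    · simp only [if_neg hEm, if_pos hAm] at h1 ⊢
      linear_combination (Y m) * h1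
    · simp only [if_neg hEm, if_neg hAm] at h1 ⊢
      linear_combination (Y m) * h1
  have hsum : (108 : ℂ) * ∑ m : HM, (if hE m then Y m else 0)
      = 72 * ∑ m : HM, (if h3PA m then Y m else 0) - ∑ m : HM, (h3N h3PB m : ℂ) * Y m
        + 36 * ∑ m : HM, Y m := by
    simp only [Finset.mul_sum, ← Finset.sum_add_distrib, ← Finset.sum_sub_distrib]
    exact Finset.sum_congr rfl (fun m _ => key m)
  rw [hA, hconj, hB, hH] at hsum
  push_cast
  linear_combination (1 / 108 : ℂ) * hsum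

end Cfsg.Agent.Helper37
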