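-- helper37 library: piece SC of helper16's CALL S3701 (counting side of the class-multiplication
-- formula for the class function cfI of a general TI configuration, two involutions u, w).
import Mathlib
import Cfsg.Agent.Helper16.TICore

set_option autoImplicit false

open Cfsg Cfsg.Agent.Helper16
open scoped ComplexConjugate

namespace Cfsg.Agent.Helper37

theorem ti_sq_of_isConj {G : Type*} [Group G] {u v : G} (hu : u ^ 2 = 1) (h : IsConj u v) :
    v ^ 2 = 1 := by
  obtain ⟨x, rfl⟩ := isConj_iff.mp h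
  rw [conj_pow, hu]
  simp

theorem ti_isConj_conj {G : Type*} [Group G] (u v x : G) :
    IsConj u (x * v * x⁻¹) ↔ IsConj u v := by
  constructor
  · intro hh
    exact hh.trans (isConj_iff.mpr ⟨x⁻¹, by group⟩)
  · intro hh
    exact hh.trans (isConj_iff.mpr ⟨x, rfl⟩)

theorem ti_card_subtype_sum {α : Type*} [Fintype α] (P : α → Prop) [DecidablePred P] :
    (Nat.card {a // P a} : ℂ) = ∑ a, if P a then (1 : ℂ) else 0 := by
  rw [Nat.card_eq_fintype_card, Fintype.card_subtype, Finset.card_filter]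
  push_cast
  rfl

open Classical in
/-- Sum over the conjugates `x * u * x⁻¹`, counted with multiplicity `|C_G(u)|`. -/
theorem ti_class_sum {G : Type*} [Group G] [Fintype G] (u : G) (K : G → ℂ) :
    ∑ x : G, K (x * u * x⁻¹) = (Nat.card (Subgroup.centralizer ({u} : Set G)) : ℂ) *
      ∑ v : G, (if IsConj u v then K v else 0) := by
  classical
  have h1 : ∀ x : G, K (x * u * x⁻¹) = ∑ v : G, (if x * u * x⁻¹ = v then K v else 0) := by
    intro x
    rw [Finset.sum_ite_eq]
    simp
  rw [Finset.sum_congr rfl (fun x _ => h1 x), Finset.sum_comm, Finset.mul_sum]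
  refine Finset.sum_congr rfl fun v _ => ?_
  by_cases hv : IsConj u v
  · rw [if_pos hv]
    obtain ⟨x₀, hx₀⟩ := isConj_iff.mp hv
    rw [← Equiv.sum_comp (Equiv.mulLeft x₀)]
    have h2 : ∀ x : G, ((Equiv.mulLeft x₀ x) * u * (Equiv.mulLeft x₀ x)⁻¹ = v) ↔
        x ∈ Subgroup.centralizer ({u} : Set G) := by
      intro x
      rw [Subgroup.mem_centralizer_singleton_iff]
      simp only [Equiv.coe_mulLeft]
      rw [← hx₀]
      constructor
      · intro hh
        have h3 : x * u * x⁻¹ = u := by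
          have h4 : x * u * x⁻¹ = x₀⁻¹ * (x₀ * x * u * (x₀ * x)⁻¹) * x₀ := by group
          rw [h4, hh]
          group
        calc x * u = x * u * x⁻¹ * x := by group
          _ = u * x := by rw [h3]
      · intro hh
        have h3 : x * u * x⁻¹ = u := by rw [hh]; group
        calc x₀ * x * u * (x₀ * x)⁻¹ = x₀ * (x * u * x⁻¹) * x₀⁻¹ := by group
          _ = x₀ * u * x₀⁻¹ := by rw [h3]
    simp only [h2]
    rw [Finset.sum_ite, Finset.sum_const, Finset.sum_const_zero, add_zero, nsmul_eq_mul]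
    congr 1
    rw [Nat.card_eq_fintype_card, Fintype.card_subtype]
  · rw [if_neg hv, mul_zero]
    apply Finset.sum_eq_zero
    intro x _
    rw [if_neg]
    intro hx
    exact hv (isConj_iff.mpr ⟨x, hx⟩)

theorem ti_star_count {M G : Type*} [Group M] [Fintype M] [Group G] [Fintype G] {φ : M →* G}
    {E : M → Prop} [DecidablePred E] (h : TICfg φ E) (c : ℂ)
    (hTS : ∀ f : G → ℂ, IsClassFunction G f → classInner (cfI φ E c) f =
      c / (Fintype.card M : ℂ) * ∑ m : M, (if E m then conj (f (φ m)) else 0))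
    (u w : G) (hu : u ^ 2 = 1) (hw : w ^ 2 = 1) :
    ∑ x : G, ∑ y : G, cfI φ E c (x * u * x⁻¹ * (y * w * y⁻¹)) =
      (Nat.card G : ℂ) * c / (Fintype.card M : ℂ) *
        (Nat.card (Subgroup.centralizer ({u} : Set G)) : ℂ) *
        (Nat.card (Subgroup.centralizer ({w} : Set G)) : ℂ) *
        (Nat.card {p : M × M // IsConj u (φ p.1) ∧ IsConj w (φ p.2) ∧ E (p.1 * p.2)} : ℂ) := by
  classical
  obtain ⟨cu, hcu⟩ : ∃ cu : ℂ, cu = (Nat.card (Subgroup.centralizer ({u} : Set G)) : ℂ) :=
    ⟨_, rfl⟩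
  obtain ⟨cw, hcw⟩ : ∃ cw : ℂ, cw = (Nat.card (Subgroup.centralizer ({w} : Set G)) : ℂ) :=
    ⟨_, rfl⟩
  rw [← hcu, ← hcw]
  have hA : ∑ x : G, ∑ y : G, cfI φ E c (x * u * x⁻¹ * (y * w * y⁻¹))
      = cu * cw * ∑ v : G, ∑ z : G,
          (if IsConj u v ∧ IsConj w z then cfI φ E c (v * z) else 0) := by
    have h1 : ∀ x : G, ∑ y : G, cfI φ E c (x * u * x⁻¹ * (y * w * y⁻¹))
        = cw * ∑ z : G, (if IsConj w z then cfI φ E c (x * u * x⁻¹ * z) else 0) := by
      intro x
      rw [hcw]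
      exact ti_class_sum w (fun z => cfI φ E c (x * u * x⁻¹ * z))
    rw [Finset.sum_congr rfl (fun x _ => h1 x), ← Finset.mul_sum]
    have h2 := ti_class_sum u (fun v => ∑ z : G, (if IsConj w z then cfI φ E c (v * z) else 0))
    rw [h2, ← hcu, mul_comm cu cw, mul_assoc]
    congr 2
    refine Finset.sum_congr rfl fun v _ => ?_
    by_cases hv : IsConj u v
    · rw [if_pos hv]
      refine Finset.sum_congr rfl fun z _ => ?_
      exact if_congr ⟨fun hz => ⟨hv, hz⟩, fun hh => hh.2⟩ rfl rfl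
    · rw [if_neg hv]
      symm
      apply Finset.sum_eq_zero
      intro z _
      rw [if_neg (fun hh => hv hh.1)]
  obtain ⟨F, hF⟩ : ∃ F : G → ℂ, F = fun g =>
      ∑ v : G, (if IsConj u v ∧ IsConj w (v⁻¹ * g) then (1 : ℂ) else 0) := ⟨_, rfl⟩
  have hFconj : ∀ g, conj (F g) = F g := by
    intro g
    rw [hF]
    simp only [map_sum]
    refine Finset.sum_congr rfl fun v _ => ?_
    split_ifs <;> simp
  have hFclass : IsClassFunction G F := by
    intro g x
    rw [hF]
    simp only
    rw [← Equiv.sum_comp (MulAut.conj x).toEquiv]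
    refine Finset.sum_congr rfl fun v _ => ?_
    have e1 : IsConj u ((MulAut.conj x).toEquiv v) ↔ IsConj u v := ti_isConj_conj u v x
    have e2 : IsConj w (((MulAut.conj x).toEquiv v)⁻¹ * (x * g * x⁻¹)) ↔ IsConj w (v⁻¹ * g) := by
      have h3 : ((MulAut.conj x).toEquiv v)⁻¹ * (x * g * x⁻¹) = x * (v⁻¹ * g) * x⁻¹ := by
        show (x * v * x⁻¹)⁻¹ * (x * g * x⁻¹) = _
        group
      rw [h3]
      exact ti_isConj_conj w (v⁻¹ * g) x
    simp only [e1, e2]
  have hB : ∑ v : G, ∑ z : G, (if IsConj u v ∧ IsConj w z then cfI φ E c (v * z) else 0)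
      = ∑ g : G, cfI φ E c g * F g := by
    have h1 : ∀ v : G, ∑ z : G, (if IsConj u v ∧ IsConj w z then cfI φ E c (v * z) else 0)
        = ∑ g : G, (if IsConj u v ∧ IsConj w (v⁻¹ * g) then cfI φ E c g else 0) := by
      intro v
      rw [← Equiv.sum_comp (Equiv.mulLeft v⁻¹)
        (fun z => if IsConj u v ∧ IsConj w z then cfI φ E c (v * z) else 0)]
      refine Finset.sum_congr rfl fun g _ => ?_
      simp only [Equiv.coe_mulLeft, mul_inv_cancel_left]
    rw [Finset.sum_congr rfl (fun v _ => h1 v), Finset.sum_comm]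
    refine Finset.sum_congr rfl fun g _ => ?_
    rw [hF]
    simp only
    rw [Finset.mul_sum]
    refine Finset.sum_congr rfl fun v _ => ?_
    split_ifs <;> simp
  have hC : ∑ g : G, cfI φ E c g * F g = (Nat.card G : ℂ) * c / (Fintype.card M : ℂ) *
      ∑ m : M, (if E m then F (φ m) else 0) := by
    have h1 := hTS F hFclass
    unfold classInner at h1
    simp only [hFconj] at h1
    have hne : (Nat.card G : ℂ) ≠ 0 := by
      rw [Nat.card_eq_fintype_card]
      exact_mod_cast Fintype.card_ne_zero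
    calc ∑ g : G, cfI φ E c g * F g
        = (Nat.card G : ℂ) * ((Nat.card G : ℂ)⁻¹ * ∑ g : G, cfI φ E c g * F g) := by
          rw [← mul_assoc, mul_inv_cancel₀ hne, one_mul]
      _ = _ := by rw [h1]; ring
  have hD : ∑ m : M, (if E m then F (φ m) else 0)
      = (Nat.card {p : M × M // IsConj u (φ p.1) ∧ IsConj w (φ p.2) ∧ E (p.1 * p.2)} : ℂ) := by
    have h1 : ∀ m : M, (if E m then F (φ m) else 0) = ∑ n₁ : M,
        (if E m ∧ IsConj u (φ n₁) ∧ IsConj w (φ (n₁⁻¹ * m)) then (1 : ℂ) else 0) := by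
      intro m
      by_cases hm' : E m
      · rw [if_pos hm']
        have e : ∀ n₁ : M, (if E m ∧ IsConj u (φ n₁) ∧ IsConj w (φ (n₁⁻¹ * m))
            then (1 : ℂ) else 0)
            = (if IsConj u (φ n₁) ∧ IsConj w (φ (n₁⁻¹ * m)) then (1 : ℂ) else 0) :=
          fun n₁ => if_congr ⟨fun hh => hh.2, fun hh => ⟨hm', hh⟩⟩ rfl rfl
        rw [Finset.sum_congr rfl (fun n₁ _ => e n₁), hF]
        symm
        apply Fintype.sum_of_injective φ h.inj
        · intro v hv
          rw [if_neg]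
          rintro ⟨h1, h2⟩
          apply hv
          have hv2 : v ^ 2 = 1 := ti_sq_of_isConj hu h1
          have hw2 : (v⁻¹ * φ m) ^ 2 = 1 := ti_sq_of_isConj hw h2
          exact (h.mem_range_of_mul hv2 hw2 hm'
            (by group : v * (v⁻¹ * φ m) = φ m)).1
        · intro n₁
          simp only [map_mul, map_inv]
      · rw [if_neg hm']
        symm
        apply Finset.sum_eq_zero
        intro n₁ _
        rw [if_neg (fun hh => hm' hh.1)]
    have e := ti_card_subtype_sum (fun p : M × M => IsConj u (φ p.1) ∧ IsConj w (φ p.2) ∧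
      E (p.1 * p.2))
    refine Eq.trans ?_ e.symm
    rw [Finset.sum_congr rfl (fun m _ => h1 m)]
    conv_rhs => rw [Fintype.sum_prod_type]
    conv_lhs => rw [Finset.sum_comm]
    refine Finset.sum_congr rfl fun n₁ _ => ?_
    rw [← Equiv.sum_comp (Equiv.mulLeft n₁)]
    refine Finset.sum_congr rfl fun n₂ _ => ?_
    simp only [Equiv.coe_mulLeft, inv_mul_cancel_left]
    exact if_congr ⟨fun ⟨a, b, c⟩ => ⟨b, c, a⟩, fun ⟨b, c, a⟩ => ⟨a, b, c⟩⟩ rfl rfl
  rw [hA, hB, hC, hD]
  ring

end Cfsg.Agent.Helper37
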