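-- helper37 library: piece TS of helper16's CALL S3701 (general TI-sum formula for cfI).
import Mathlib
import Cfsg.Agent.Helper16.TICore

set_option autoImplicit false

open Cfsg Cfsg.Agent.Helper16
open scoped ComplexConjugate

namespace Cfsg.Agent.Helper37

theorem ti_fiber_card {M G : Type*} [Group M] [Fintype M] [Group G] [Fintype G] [DecidableEq G]
    {φ : M →* G} {E : M → Prop} [DecidablePred E] (h : TICfg φ E) (x₀ : G) (m₀ : M)
    (hm₀ : E m₀) :
    (((Finset.univ : Finset G) ×ˢ Finset.univ.filter (fun m : M => E m)).filter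
      (fun p : G × M => p.1 * φ p.2 * p.1⁻¹ = x₀ * φ m₀ * x₀⁻¹)).card = Fintype.card M := by
  rw [← Finset.card_univ (α := M)]
  symm
  refine Finset.card_bij (fun k _ => (x₀ * φ k, k⁻¹ * m₀ * k)) ?_ ?_ ?_
  · intro k _
    simp only [Finset.mem_filter, Finset.mem_product, Finset.mem_univ, true_and]
    refine ⟨h.conj k m₀ hm₀, ?_⟩
    simp only [map_mul, map_inv]
    group
  · intro k _ k' _ hkk
    have h1 := congrArg Prod.fst hkk
    simp only [mul_right_inj] at h1
    exact h.inj h1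
  · intro p hp
    simp only [Finset.mem_filter, Finset.mem_product, Finset.mem_univ, true_and] at hp
    obtain ⟨hpE, hpeq⟩ := hp
    have h1 : (x₀⁻¹ * p.1) * φ p.2 * (x₀⁻¹ * p.1)⁻¹ = φ m₀ := by
      have h2 : (x₀⁻¹ * p.1) * φ p.2 * (x₀⁻¹ * p.1)⁻¹ = x₀⁻¹ * (p.1 * φ p.2 * p.1⁻¹) * x₀ := by
        group
      rw [h2, hpeq]
      group
    obtain ⟨k, hk⟩ := h.ti p.2 hpE (x₀⁻¹ * p.1) (by rw [h1]; exact ⟨m₀, rfl⟩)
    refine ⟨k, Finset.mem_univ _, ?_⟩
    have hp1 : p.1 = x₀ * φ k := by rw [hk]; group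
    have hp2 : p.2 = k⁻¹ * m₀ * k := by
      apply h.inj
      rw [← hk] at h1
      rw [map_mul, map_mul, map_inv, ← h1]
      group
    exact Prod.ext hp1.symm hp2.symm

theorem ti_cfI_inner {M G : Type*} [Group M] [Fintype M] [Group G] [Fintype G] {φ : M →* G}
    {E : M → Prop} [DecidablePred E] (h : TICfg φ E) (c : ℂ) (f : G → ℂ)
    (hf : IsClassFunction G f) :
    classInner (cfI φ E c) f =
      c / (Fintype.card M : ℂ) * ∑ m : M, (if E m then conj (f (φ m)) else 0) := by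
  classical
  rw [← Finset.sum_filter]
  obtain ⟨S, hS⟩ : ∃ S : Finset M, S = Finset.univ.filter (fun m : M => E m) := ⟨_, rfl⟩
  rw [← hS]
  obtain ⟨F, hF⟩ : ∃ F : G → ℂ, F = fun g => conj (f g) := ⟨_, rfl⟩
  have hFc : ∀ g x : G, F (x * g * x⁻¹) = F g := by
    intro g x
    rw [hF]
    simp only
    rw [hf g x]
  have hA : ∑ p ∈ (Finset.univ : Finset G) ×ˢ S, F (p.1 * φ p.2 * p.1⁻¹)
      = (Fintype.card G : ℂ) * ∑ m ∈ S, F (φ m) := by
    rw [Finset.sum_product]
    simp only [hFc]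
    rw [Finset.sum_const, Finset.card_univ, nsmul_eq_mul]
  have hB : c * ∑ p ∈ (Finset.univ : Finset G) ×ˢ S, F (p.1 * φ p.2 * p.1⁻¹)
      = (Fintype.card M : ℂ) * ∑ g : G, cfI φ E c g * F g := by
    rw [Finset.sum_comp F (fun p : G × M => p.1 * φ p.2 * p.1⁻¹)]
    have himg : ∀ b ∈ ((Finset.univ : Finset G) ×ˢ S).image
        (fun p : G × M => p.1 * φ p.2 * p.1⁻¹),
        c * ((((Finset.univ : Finset G) ×ˢ S).filter
          (fun p : G × M => p.1 * φ p.2 * p.1⁻¹ = b)).card • F b)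
            = (Fintype.card M : ℂ) * (cfI φ E c b * F b) := by
      intro b hb
      obtain ⟨p₀, hp₀, rfl⟩ := Finset.mem_image.mp hb
      have hp₀E : E p₀.2 := by
        have h1 := (Finset.mem_product.mp hp₀).2
        rw [hS] at h1
        exact (Finset.mem_filter.mp h1).2
      have hc := ti_fiber_card h p₀.1 p₀.2 hp₀E
      rw [hS, hc]
      have h3 : cfI φ E c (p₀.1 * φ p₀.2 * p₀.1⁻¹) = c := cfI_pos ⟨p₀.1⁻¹, p₀.2, hp₀E, by group⟩
      rw [h3, nsmul_eq_mul]
      ring
    rw [Finset.mul_sum, Finset.sum_congr rfl himg, ← Finset.mul_sum]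
    congr 1
    apply Finset.sum_subset (Finset.subset_univ _)
    intro g _ hg
    have h0 : cfI φ E c g = 0 := by
      apply cfI_neg
      rintro ⟨x, m, hm, hx⟩
      apply hg
      rw [Finset.mem_image]
      refine ⟨(x⁻¹, m), ?_, ?_⟩
      · rw [hS]
        simp [hm]
      · simp only
        rw [← hx]
        group
    rw [h0, zero_mul]
  unfold classInner
  have hcard : (Nat.card G : ℂ) = (Fintype.card G : ℂ) := by rw [Nat.card_eq_fintype_card]
  have hne : (Fintype.card G : ℂ) ≠ 0 := by exact_mod_cast Fintype.card_ne_zero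
  have hneM : (Fintype.card M : ℂ) ≠ 0 := by exact_mod_cast Fintype.card_ne_zero
  have key : ∑ g : G, cfI φ E c g * conj (f g)
      = (Fintype.card G : ℂ) * c / (Fintype.card M : ℂ) * ∑ m ∈ S, conj (f (φ m)) := by
    have h1 : c * ((Fintype.card G : ℂ) * ∑ m ∈ S, F (φ m))
        = (Fintype.card M : ℂ) * ∑ g : G, cfI φ E c g * F g := by rw [← hA, hB]
    rw [hF] at h1
    simp only at h1
    field_simp
    linear_combination -h1
  rw [key, hcard]
  field_simp

end Cfsg.Agent.Helper37
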