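import Mathlib
set_option autoImplicit false
universe u
namespace Cfsg.Agent.Helper37

/-- the fibres of `g ↦ g τ g⁻¹` are cosets of the centraliser -/
theorem bra_fiber {G : Type u} [Group G] [Finite G] (τ b : G) (hb : ∃ g : G, g * τ * g⁻¹ = b) :
    Nat.card {g : G // g * τ * g⁻¹ = b} = Nat.card (Subgroup.centralizer ({τ} : Set G)) := by
  obtain ⟨g₀, hg₀⟩ := hb
  refine Nat.card_congr ⟨fun g => ⟨g₀⁻¹ * g.1, ?_⟩, fun c => ⟨g₀ * c.1, ?_⟩, ?_, ?_⟩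
  · rw [Subgroup.mem_centralizer_iff]
    intro h hh
    rw [Set.mem_singleton_iff] at hh
    subst hh
    have h1 : g.1 * h * g.1⁻¹ = g₀ * h * g₀⁻¹ := g.2.trans hg₀.symm
    calc h * (g₀⁻¹ * g.1) = g₀⁻¹ * (g₀ * h * g₀⁻¹) * g.1 := by group
      _ = g₀⁻¹ * (g.1 * h * g.1⁻¹) * g.1 := by rw [h1]
      _ = g₀⁻¹ * g.1 * h := by group
  · have h1 : τ * c.1 = c.1 * τ := (Subgroup.mem_centralizer_iff.mp c.2) τ rfl
    calc g₀ * c.1 * τ * (g₀ * c.1)⁻¹ = g₀ * (c.1 * τ) * c.1⁻¹ * g₀⁻¹ := by group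
      _ = g₀ * (τ * c.1) * c.1⁻¹ * g₀⁻¹ := by rw [h1]
      _ = g₀ * τ * g₀⁻¹ := by group
      _ = b := hg₀
  · intro g
    apply Subtype.ext
    simp
  · intro c
    apply Subtype.ext
    simp

/-- counting pairs `(g, h)` with `g τ g⁻¹ * h τ h⁻¹ = y` via pairs of conjugates -/
theorem bra_pairs_count {G : Type u} [Group G] [Finite G] (τ y : G) :
    Nat.card {gh : G × G // gh.1 * τ * gh.1⁻¹ * (gh.2 * τ * gh.2⁻¹) = y}
      = Nat.card (Subgroup.centralizer ({τ} : Set G)) ^ 2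
        * Nat.card {b : G // (∃ g : G, g * τ * g⁻¹ = b) ∧ (∃ h : G, h * τ * h⁻¹ = b⁻¹ * y)} := by
  classical
  haveI : Fintype {b : G // (∃ g : G, g * τ * g⁻¹ = b) ∧ (∃ h : G, h * τ * h⁻¹ = b⁻¹ * y)} :=
    Fintype.ofFinite _
  have e : {gh : G × G // gh.1 * τ * gh.1⁻¹ * (gh.2 * τ * gh.2⁻¹) = y} ≃
      Σ b : {b : G // (∃ g : G, g * τ * g⁻¹ = b) ∧ (∃ h : G, h * τ * h⁻¹ = b⁻¹ * y)},
        {g : G // g * τ * g⁻¹ = b.1} × {h : G // h * τ * h⁻¹ = b.1⁻¹ * y} := by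
    refine ⟨fun gh => ⟨⟨gh.1.1 * τ * gh.1.1⁻¹, ⟨gh.1.1, rfl⟩, ⟨gh.1.2, ?_⟩⟩,
        ⟨gh.1.1, rfl⟩, ⟨gh.1.2, ?_⟩⟩,
      fun x => ⟨(x.2.1.1, x.2.2.1), ?_⟩, ?_, ?_⟩
    · rw [eq_inv_mul_iff_mul_eq]; exact gh.2
    · rw [eq_inv_mul_iff_mul_eq]; exact gh.2
    · show x.2.1.1 * τ * x.2.1.1⁻¹ * (x.2.2.1 * τ * x.2.2.1⁻¹) = y
      rw [x.2.1.2, x.2.2.2]; group
    · intro gh
      rfl
    · rintro ⟨⟨b, hb⟩, ⟨g, hg⟩, ⟨h, hh⟩⟩
      have hg' : g * τ * g⁻¹ = b := hg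
      revert hb hg hh
      subst hg'
      intro hb hg hh
      rfl
  rw [Nat.card_congr e, Nat.card_sigma]
  have h1 : ∀ b : {b : G // (∃ g : G, g * τ * g⁻¹ = b) ∧ (∃ h : G, h * τ * h⁻¹ = b⁻¹ * y)},
      Nat.card ({g : G // g * τ * g⁻¹ = b.1} × {h : G // h * τ * h⁻¹ = b.1⁻¹ * y})
        = Nat.card (Subgroup.centralizer ({τ} : Set G)) ^ 2 := by
    intro b
    rw [Nat.card_prod, bra_fiber τ b.1 b.2.1, bra_fiber τ (b.1⁻¹ * y) b.2.2, sq]
  rw [Finset.sum_congr rfl (fun b _ => h1 b), Finset.sum_const, Finset.card_univ,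
    Nat.card_eq_fintype_card (α := {b : G // (∃ g : G, g * τ * g⁻¹ = b) ∧
      (∃ h : G, h * τ * h⁻¹ = b⁻¹ * y)}), smul_eq_mul, mul_comm]

/-- basic facts on an involution -/
theorem bra_inv_facts {G : Type u} [Group G] (τ : G) (hτ : orderOf τ = 2) :
    τ * τ = 1 ∧ τ⁻¹ = τ ∧ τ ≠ 1 := by
  have h1 : τ * τ = 1 := by
    have := pow_orderOf_eq_one τ
    rwa [hτ, pow_two] at this
  refine ⟨h1, inv_eq_of_mul_eq_one_left h1, ?_⟩
  rintro rfl
  simp at hτ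

theorem bra_conj_order {G : Type u} [Group G] (τ g : G) (hτ : orderOf τ = 2) :
    orderOf (g * τ * g⁻¹) = 2 := by
  obtain ⟨h1, -, h3⟩ := bra_inv_facts τ hτ
  haveI : Fact (Nat.Prime 2) := ⟨Nat.prime_two⟩
  apply orderOf_eq_prime
  · rw [pow_two]
    calc g * τ * g⁻¹ * (g * τ * g⁻¹) = g * (τ * τ) * g⁻¹ := by group
      _ = 1 := by rw [h1]; group
  · intro h
    apply h3
    calc τ = g⁻¹ * (g * τ * g⁻¹) * g := by group
      _ = 1 := by rw [h]; group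

/-- in a Sylow subgroup of odd prime order, `x * x = 1` forces `x = 1` -/
theorem bra_sq_one {G : Type u} [Group G] {p : ℕ} [Fact p.Prime] (hodd : p ≠ 2)
    (P : Sylow p G) (hP : Nat.card (P : Subgroup G) = p) (x : G) (hx : x ∈ (P : Subgroup G))
    (hxx : x * x = 1) : x = 1 := by
  have hp := (Fact.out : p.Prime)
  have h1 : x ^ p = 1 := by
    have h2 : (⟨x, hx⟩ : (P : Subgroup G)) ^ Nat.card (P : Subgroup G) = 1 := pow_card_eq_one'
    rw [hP] at h2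
    have := congrArg Subtype.val h2
    simpa using this
  have hodd' : Odd p := hp.odd_of_ne_two hodd
  obtain ⟨k, hk⟩ := hodd'
  rw [hk, pow_succ, pow_mul, pow_two, hxx, one_pow, one_mul] at h1
  exact h1

/-- every element of a Sylow subgroup of odd prime order is a square -/
theorem bra_sqrt {G : Type u} [Group G] {p : ℕ} [Fact p.Prime] (hodd : p ≠ 2)
    (P : Sylow p G) (hP : Nat.card (P : Subgroup G) = p) (x : G) (hx : x ∈ (P : Subgroup G)) :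
    ∃ y : G, y ∈ (P : Subgroup G) ∧ y * y = x := by
  have hp := (Fact.out : p.Prime)
  have h1 : x ^ p = 1 := by
    have h2 : (⟨x, hx⟩ : (P : Subgroup G)) ^ Nat.card (P : Subgroup G) = 1 := pow_card_eq_one'
    rw [hP] at h2
    have := congrArg Subtype.val h2
    simpa using this
  have hodd' : Odd p := hp.odd_of_ne_two hodd
  obtain ⟨k, hk⟩ := hodd'
  refine ⟨x ^ (k + 1), Subgroup.pow_mem _ hx _, ?_⟩
  rw [← pow_add]
  have : k + 1 + (k + 1) = p + 1 := by omega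
  rw [this, pow_succ, h1, one_mul]

/-- every element of a Sylow subgroup of prime order is a power of any nontrivial element -/
theorem bra_zpow {G : Type u} [Group G] {p : ℕ} [Fact p.Prime]
    (P : Sylow p G) (hP : Nat.card (P : Subgroup G) = p) (z : G) (hz : z ∈ (P : Subgroup G))
    (hz1 : z ≠ 1) (x : G) (hx : x ∈ (P : Subgroup G)) : ∃ k : ℤ, z ^ k = x := by
  have h1 : (⟨z, hz⟩ : (P : Subgroup G)) ≠ 1 := by
    intro h
    exact hz1 (congrArg Subtype.val h)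
  have h2 : (⟨x, hx⟩ : (P : Subgroup G)) ∈ Subgroup.zpowers (⟨z, hz⟩ : (P : Subgroup G)) :=
    mem_zpowers_of_prime_card hP h1
  obtain ⟨k, hk⟩ := Subgroup.mem_zpowers_iff.mp h2
  refine ⟨k, ?_⟩
  have := congrArg Subtype.val hk
  simpa using this

/-- a Sylow subgroup of prime order is commutative -/
theorem bra_comm {G : Type u} [Group G] {p : ℕ} [Fact p.Prime]
    (P : Sylow p G) (hP : Nat.card (P : Subgroup G) = p) (x y : G) (hx : x ∈ (P : Subgroup G))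
    (hy : y ∈ (P : Subgroup G)) : x * y = y * x := by
  by_cases hx1 : x = 1
  · rw [hx1]; simp
  obtain ⟨k, hk⟩ := bra_zpow P hP x hx hx1 y hy
  rw [← hk]
  exact (Commute.zpow_right (Commute.refl x) k).eq

/-- if `τ` inverts `P` then `y τ y⁻¹ = y y τ` for `y ∈ P` -/
theorem bra_conj_sq {G : Type u} [Group G] (P : Subgroup G) (τ : G)
    (hinv : ∀ x : G, x ∈ P → τ * x * τ⁻¹ = x⁻¹) (y : G) (hy : y ∈ P) :
    y * τ * y⁻¹ = y * y * τ := by
  have h1 := hinv y⁻¹ (P.inv_mem hy)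
  rw [inv_inv] at h1
  calc y * τ * y⁻¹ = y * (τ * y⁻¹ * τ⁻¹) * τ := by group
    _ = y * y * τ := by rw [h1]

/-- if `τ` inverts `P` (odd prime order) then every `x τ`, `x ∈ P`, is conjugate to `τ` -/
theorem bra_coset_conj {G : Type u} [Group G] {p : ℕ} [Fact p.Prime] (hodd : p ≠ 2)
    (P : Sylow p G) (hP : Nat.card (P : Subgroup G) = p) (τ : G)
    (hinv : ∀ x : G, x ∈ (P : Subgroup G) → τ * x * τ⁻¹ = x⁻¹) (x : G)
    (hx : x ∈ (P : Subgroup G)) : ∃ g : G, g ∈ (P : Subgroup G) ∧ g * τ * g⁻¹ = x * τ := by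
  obtain ⟨y, hy, hyy⟩ := bra_sqrt hodd P hP x hx
  exact ⟨y, hy, by rw [bra_conj_sq (P : Subgroup G) τ hinv y hy, hyy]⟩

end Cfsg.Agent.Helper37
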