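import Mathlib
import Cfsg.Agent.Helper37.BRA0
set_option autoImplicit false
universe u
namespace Cfsg.Agent.Helper37

/-- an involution normalising a self-centralising Sylow subgroup of odd prime order inverts it -/
theorem bra3_inverts {G : Type u} [Group G] [Finite G] {p : ℕ} [Fact p.Prime] (hodd : p ≠ 2)
    (P : Sylow p G) (hP : Nat.card (P : Subgroup G) = p)
    (hCP : Subgroup.centralizer ((P : Subgroup G) : Set G) = (P : Subgroup G))
    (σ : G) (hσN : σ ∈ Subgroup.normalizer ((P : Subgroup G) : Set G)) (hσ : orderOf σ = 2)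
    (x : G) (hx : x ∈ (P : Subgroup G)) : σ * x * σ⁻¹ = x⁻¹ := by
  obtain ⟨hσσ, hσinv, hσ1⟩ := bra_inv_facts σ hσ
  have hconj : ∀ y : G, y ∈ (P : Subgroup G) → σ * y * σ⁻¹ ∈ (P : Subgroup G) := fun y hy =>
    (Subgroup.mem_normalizer_iff.mp hσN y).mp hy
  have hxc := hconj x hx
  by_contra hne
  have hw1 : x * (σ * x * σ⁻¹) ≠ 1 := by
    intro h
    exact hne (eq_inv_of_mul_eq_one_right h)
  have hwP : x * (σ * x * σ⁻¹) ∈ (P : Subgroup G) := Subgroup.mul_mem _ hx hxc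
  have hwfix : σ * (x * (σ * x * σ⁻¹)) * σ⁻¹ = x * (σ * x * σ⁻¹) := by
    calc σ * (x * (σ * x * σ⁻¹)) * σ⁻¹ = (σ * x * σ⁻¹) * ((σ * σ) * x * (σ * σ)⁻¹) := by group
      _ = (σ * x * σ⁻¹) * x := by rw [hσσ]; group
      _ = x * (σ * x * σ⁻¹) := bra_comm P hP _ _ hxc hx
  have hσC : σ ∈ Subgroup.centralizer ((P : Subgroup G) : Set G) := by
    rw [Subgroup.mem_centralizer_iff]
    intro y hy
    obtain ⟨k, hk⟩ := bra_zpow P hP _ hwP hw1 y hy
    have h1 : σ * y * σ⁻¹ = y := by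
      rw [← hk]
      have : σ * (x * (σ * x * σ⁻¹)) ^ k * σ⁻¹ = (σ * (x * (σ * x * σ⁻¹)) * σ⁻¹) ^ k := by
        rw [conj_zpow]
      rw [this, hwfix]
    calc y * σ = (σ * y * σ⁻¹) * σ := by rw [h1]
      _ = σ * y := by group
  rw [hCP] at hσC
  exact hσ1 (bra_sq_one hodd P hP σ hσC hσσ)

theorem br_invol {G : Type u} [Group G] [Finite G] {p : ℕ} [Fact p.Prime] (hodd : p ≠ 2)
    (P : Sylow p G) (hP : Nat.card (P : Subgroup G) = p)
    (hC : Nat.card (Subgroup.centralizer ((P : Subgroup G) : Set G)) = p) (q : ℕ)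
    (hq : (Subgroup.centralizer ((P : Subgroup G) : Set G)).relIndex
        (Subgroup.normalizer ((P : Subgroup G) : Set G)) = q) (hq2 : Even q) :
    ∃ τ : G, orderOf τ = 2 ∧ τ ∈ Subgroup.normalizer ((P : Subgroup G) : Set G) ∧
      (∀ x : G, x ∈ (P : Subgroup G) → τ * x * τ⁻¹ = x⁻¹) ∧
      (∀ σ : G, σ ∈ Subgroup.normalizer ((P : Subgroup G) : Set G) → orderOf σ = 2 →
        ∃ x : G, x ∈ (P : Subgroup G) ∧ σ = x * τ) ∧
      Nat.card ↥(Subgroup.centralizer ({τ} : Set G) ⊓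
        Subgroup.normalizer ((P : Subgroup G) : Set G)) = q ∧
      (∀ σ : G, σ ∈ Subgroup.centralizer ({τ} : Set G) ⊓
        Subgroup.normalizer ((P : Subgroup G) : Set G) → orderOf σ = 2 → σ = τ) := by
  have hp := (Fact.out : p.Prime)
  have hPC : (P : Subgroup G) ≤ Subgroup.centralizer ((P : Subgroup G) : Set G) := by
    intro x hx
    rw [Subgroup.mem_centralizer_iff]
    intro h hh
    exact bra_comm P hP h x hh hx
  have hCP : Subgroup.centralizer ((P : Subgroup G) : Set G) = (P : Subgroup G) :=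
    (Subgroup.eq_of_le_of_card_ge hPC (by rw [hC, hP])).symm
  have hCN : Subgroup.centralizer ((P : Subgroup G) : Set G)
      ≤ Subgroup.normalizer ((P : Subgroup G) : Set G) := Subgroup.centralizer_le_normalizer _
  have hPN : (P : Subgroup G) ≤ Subgroup.normalizer ((P : Subgroup G) : Set G) :=
    Subgroup.le_normalizer
  have hNcard : Nat.card (Subgroup.normalizer ((P : Subgroup G) : Set G)) = p * q := by
    have h1 := Subgroup.relIndex_mul_relIndex (⊥ : Subgroup G)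
      (Subgroup.centralizer ((P : Subgroup G) : Set G))
      (Subgroup.normalizer ((P : Subgroup G) : Set G)) bot_le hCN
    rw [Subgroup.relIndex_bot_left, Subgroup.relIndex_bot_left, hC, hq] at h1
    exact h1.symm
  haveI : Fact (Nat.Prime 2) := ⟨Nat.prime_two⟩
  have h2 : 2 ∣ Nat.card (Subgroup.normalizer ((P : Subgroup G) : Set G)) := by
    rw [hNcard]
    exact Dvd.dvd.mul_left (even_iff_two_dvd.mp hq2) p
  obtain ⟨τ, hτN, hτ⟩ : ∃ τ : G, τ ∈ Subgroup.normalizer ((P : Subgroup G) : Set G) ∧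
      orderOf τ = 2 := by
    obtain ⟨n, hn⟩ := exists_prime_orderOf_dvd_card' 2 h2
    exact ⟨(n : G), n.2, by rw [Subgroup.orderOf_coe]; exact hn⟩
  obtain ⟨hττ, hτinv, hτ1⟩ := bra_inv_facts τ hτ
  have hinv : ∀ x : G, x ∈ (P : Subgroup G) → τ * x * τ⁻¹ = x⁻¹ :=
    bra3_inverts hodd P hP hCP τ hτN hτ
  have hall : ∀ σ : G, σ ∈ Subgroup.normalizer ((P : Subgroup G) : Set G) → orderOf σ = 2 →
      ∃ x : G, x ∈ (P : Subgroup G) ∧ σ = x * τ := by
    intro σ hσN hσ
    have hσinv := bra3_inverts hodd P hP hCP σ hσN hσ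
    refine ⟨σ * τ⁻¹, hCP.le ?_, by group⟩
    rw [Subgroup.mem_centralizer_iff]
    intro h hh
    have h1 := hinv h⁻¹ (Subgroup.inv_mem _ hh)
    rw [inv_inv] at h1
    have h2 := hσinv h⁻¹ (Subgroup.inv_mem _ hh)
    rw [inv_inv] at h2
    -- σ * n⁻¹ * h = h * σ * n⁻¹
    have h3 : τ⁻¹ * h = h⁻¹ * τ⁻¹ := by
      calc τ⁻¹ * h = τ⁻¹ * (τ * h⁻¹ * τ⁻¹) := by rw [h1]
        _ = h⁻¹ * τ⁻¹ := by group
    have h4 : σ * h⁻¹ = h * σ := by
      calc σ * h⁻¹ = (σ * h⁻¹ * σ⁻¹) * σ := by group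
        _ = h * σ := by rw [h2]
    calc h * (σ * τ⁻¹) = (h * σ) * τ⁻¹ := by group
      _ = σ * (h⁻¹ * τ⁻¹) := by rw [← h4]; group
      _ = σ * τ⁻¹ * h := by rw [← h3]; group
  have hPQ : ∀ u : G, u ∈ (P : Subgroup G) → τ * u = u * τ → u = 1 := by
    intro u hu huτ
    apply bra_sq_one hodd P hP u hu
    have h1 := hinv u hu
    have h2 : τ * u * τ⁻¹ = u := by rw [huτ]; group
    rw [h2] at h1
    calc u * u = u * u⁻¹ := by rw [← h1]
      _ = 1 := by group
  refine ⟨τ, hτ, hτN, hinv, hall, ?_, ?_⟩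
  · -- the bijection P × Q₀ → N(P)
    have hbij : Nat.card (↥(P : Subgroup G) × ↥(Subgroup.centralizer ({τ} : Set G) ⊓
        Subgroup.normalizer ((P : Subgroup G) : Set G)))
        = Nat.card (Subgroup.normalizer ((P : Subgroup G) : Set G)) := by
      refine Nat.card_congr (Equiv.ofBijective
        (fun yc => (⟨yc.1.1 * yc.2.1, Subgroup.mul_mem _ (hPN yc.1.2) yc.2.2.2⟩ :
          Subgroup.normalizer ((P : Subgroup G) : Set G))) ⟨?_, ?_⟩)
      · rintro ⟨⟨y, hy⟩, ⟨c, hc⟩⟩ ⟨⟨y', hy'⟩, ⟨c', hc'⟩⟩ hEq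
        have h1 : y * c = y' * c' := congrArg Subtype.val hEq
        have h3 : y'⁻¹ * y = c' * c⁻¹ := by
          calc y'⁻¹ * y = y'⁻¹ * (y * c) * c⁻¹ := by group
            _ = c' * c⁻¹ := by rw [h1]; group
        have h4 : y'⁻¹ * y ∈ (P : Subgroup G) := Subgroup.mul_mem _ (Subgroup.inv_mem _ hy') hy
        have h5 : τ * (y'⁻¹ * y) = (y'⁻¹ * y) * τ := by
          rw [h3]
          have hcc : c' * c⁻¹ ∈ Subgroup.centralizer ({τ} : Set G) :=
            Subgroup.mul_mem _ hc'.1 (Subgroup.inv_mem _ hc.1)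
          exact (Subgroup.mem_centralizer_iff.mp hcc) τ rfl
        have h6 := hPQ _ h4 h5
        have hyy : y = y' := by
          calc y = y' * (y'⁻¹ * y) := by group
            _ = y' := by rw [h6, mul_one]
        subst hyy
        have hcc : c = c' := mul_left_cancel h1
        subst hcc
        rfl
      · rintro ⟨m, hm⟩
        have hmτ : m * τ * m⁻¹ ∈ Subgroup.normalizer ((P : Subgroup G) : Set G) :=
          Subgroup.mul_mem _ (Subgroup.mul_mem _ hm hτN) (Subgroup.inv_mem _ hm)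
        obtain ⟨x, hx, hxτ⟩ := hall _ hmτ (bra_conj_order τ m hτ)
        obtain ⟨y, hy, hyτ⟩ := bra_coset_conj hodd P hP τ hinv x hx
        have hc : y⁻¹ * m ∈ Subgroup.centralizer ({τ} : Set G) ⊓
            Subgroup.normalizer ((P : Subgroup G) : Set G) := by
          refine ⟨?_, Subgroup.mul_mem _ (Subgroup.inv_mem _ (hPN hy)) hm⟩
          show y⁻¹ * m ∈ Subgroup.centralizer ({τ} : Set G)
          rw [Subgroup.mem_centralizer_iff]
          intro h hh
          rw [Set.mem_singleton_iff] at hh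
          rw [hh]
          have h1 : m * τ * m⁻¹ = y * τ * y⁻¹ := by rw [hxτ, hyτ]
          calc τ * (y⁻¹ * m) = y⁻¹ * (y * τ * y⁻¹) * m := by group
            _ = y⁻¹ * (m * τ * m⁻¹) * m := by rw [h1]
            _ = y⁻¹ * m * τ := by group
        refine ⟨(⟨y, hy⟩, ⟨y⁻¹ * m, hc⟩), ?_⟩
        apply Subtype.ext
        show y * (y⁻¹ * m) = m
        group
    rw [Nat.card_prod, hP, hNcard] at hbij
    exact Nat.eq_of_mul_eq_mul_left hp.pos hbij
  · rintro σ ⟨hσC, hσN⟩ hσ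
    obtain ⟨x, hx, hσx⟩ := hall σ hσN hσ
    have h1 : τ * σ = σ * τ := (Subgroup.mem_centralizer_iff.mp hσC) τ rfl
    rw [hσx] at h1
    have h2 : τ * x = x * τ := by
      have : τ * x * τ = x * τ * τ := by
        rw [← h1]; group
      exact mul_right_cancel this
    rw [hσx, hPQ x hx h2, one_mul]

end Cfsg.Agent.Helper37
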