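import Mathlib
import Cfsg.Agent.Helper37.BRA0
set_option autoImplicit false
universe u
namespace Cfsg.Agent.Helper37

theorem br_pairs_z {G : Type u} [Group G] [Finite G] {p : ℕ} [Fact p.Prime] (hodd : p ≠ 2)
    (P : Sylow p G) (hP : Nat.card (P : Subgroup G) = p) (τ : G) (hτ : orderOf τ = 2)
    (hinv : ∀ x : G, x ∈ (P : Subgroup G) → τ * x * τ⁻¹ = x⁻¹)
    (hall : ∀ σ : G, σ ∈ Subgroup.normalizer ((P : Subgroup G) : Set G) → orderOf σ = 2 →
        ∃ x : G, x ∈ (P : Subgroup G) ∧ σ = x * τ)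
    (z : G) (hz : z ∈ (P : Subgroup G)) (hz1 : z ≠ 1) :
    Nat.card {gh : G × G // gh.1 * τ * gh.1⁻¹ * (gh.2 * τ * gh.2⁻¹) = z}
      = Nat.card (Subgroup.centralizer ({τ} : Set G)) ^ 2 * p := by
  obtain ⟨hττ, hτinv, hτ1⟩ := bra_inv_facts τ hτ
  rw [bra_pairs_count τ z]
  congr 1
  rw [← hP]
  symm
  -- the map x ↦ x * τ from P onto the set of admissible first components
  have hmem : ∀ x : (P : Subgroup G),
      (∃ g : G, g * τ * g⁻¹ = x.1 * τ) ∧ (∃ h : G, h * τ * h⁻¹ = (x.1 * τ)⁻¹ * z) := by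
    intro x
    refine ⟨?_, ?_⟩
    · obtain ⟨g, -, hg⟩ := bra_coset_conj hodd P hP τ hinv x.1 x.2
      exact ⟨g, hg⟩
    · have hx' : z⁻¹ * x.1 ∈ (P : Subgroup G) :=
        Subgroup.mul_mem _ (Subgroup.inv_mem _ hz) x.2
      obtain ⟨g, -, hg⟩ := bra_coset_conj hodd P hP τ hinv (z⁻¹ * x.1) hx'
      refine ⟨g, ?_⟩
      rw [hg]
      have h1 := hinv (x.1⁻¹ * z) (Subgroup.mul_mem _ (Subgroup.inv_mem _ x.2) hz)
      calc z⁻¹ * x.1 * τ = (x.1⁻¹ * z)⁻¹ * τ := by group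
        _ = τ * (x.1⁻¹ * z) * τ⁻¹ * τ := by rw [h1]
        _ = τ * (x.1⁻¹ * z) := by group
        _ = τ⁻¹ * (x.1⁻¹ * z) := by rw [hτinv]
        _ = (x.1 * τ)⁻¹ * z := by group
  refine Nat.card_congr (Equiv.ofBijective (fun x => ⟨x.1 * τ, hmem x⟩) ⟨?_, ?_⟩)
  · intro x x' hxx
    have h1 : x.1 * τ = x'.1 * τ := congrArg Subtype.val hxx
    exact Subtype.ext (mul_right_cancel h1)
  · rintro ⟨b, ⟨g, hg⟩, ⟨h, hh⟩⟩
    have hb2 : orderOf b = 2 := by rw [← hg]; exact bra_conj_order τ g hτ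
    obtain ⟨hbb, hbinv, hb1⟩ := bra_inv_facts b hb2
    have hc2 : orderOf (b⁻¹ * z) = 2 := by rw [← hh]; exact bra_conj_order τ h hτ
    obtain ⟨hcc, -, -⟩ := bra_inv_facts (b⁻¹ * z) hc2
    rw [hbinv] at hcc
    -- b inverts z
    have hbz : b * z * b⁻¹ = z⁻¹ := by
      rw [hbinv]
      calc b * z * b = (b * z * (b * z)) * z⁻¹ := by group
        _ = z⁻¹ := by rw [hcc]; group
    -- b normalises P
    have hconj : ∀ x : G, x ∈ (P : Subgroup G) → b * x * b⁻¹ ∈ (P : Subgroup G) := by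
      intro x hx
      obtain ⟨k, hk⟩ := bra_zpow P hP z hz hz1 x hx
      rw [← hk]
      have : b * z ^ k * b⁻¹ = (b * z * b⁻¹) ^ k := by
        rw [conj_zpow]
      rw [this, hbz]
      exact Subgroup.zpow_mem _ (Subgroup.inv_mem _ hz) k
    have hbN : b ∈ Subgroup.normalizer ((P : Subgroup G) : Set G) := by
      rw [Subgroup.mem_normalizer_iff]
      intro x
      refine ⟨hconj x, fun hx => ?_⟩
      have h1 := hconj _ hx
      rw [hbinv] at h1
      have : b * (b * x * b) * b = x := by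
        calc b * (b * x * b) * b = (b * b) * x * (b * b) := by group
          _ = x := by rw [hbb]; group
      rwa [this] at h1
    obtain ⟨x, hx, hbx⟩ := hall b hbN hb2
    exact ⟨⟨x, hx⟩, Subtype.ext hbx.symm⟩

end Cfsg.Agent.Helper37
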