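import Mathlib
import Cfsg.Agent.Helper37.BRA0
set_option autoImplicit false
universe u
namespace Cfsg.Agent.Helper37

theorem br_pairs_tau {G : Type u} [Group G] [Finite G] (τ : G) (hτ : orderOf τ = 2)
    (Q₀ : Subgroup G) (hQ₀ : Q₀ ≤ Subgroup.centralizer ({τ} : Set G))
    (huniq : ∀ σ : G, σ ∈ Q₀ → orderOf σ = 2 → σ = τ)
    (hcount : Nat.card {gh : G × G // gh.1 * τ * gh.1⁻¹ * (gh.2 * τ * gh.2⁻¹) = τ}
      = Nat.card (Subgroup.centralizer ({τ} : Set G)) ^ 2
        * (Nat.card (Subgroup.centralizer ({τ} : Set G)) - Nat.card Q₀)) :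
    ∀ c : G, c ∈ Subgroup.centralizer ({τ} : Set G) → c ∉ Q₀ → IsConj c τ := by
  obtain ⟨hττ, hτinv, hτ1⟩ := bra_inv_facts τ hτ
  rw [bra_pairs_count τ τ] at hcount
  have hCpos : 0 < Nat.card (Subgroup.centralizer ({τ} : Set G)) ^ 2 := by
    have : 0 < Nat.card (Subgroup.centralizer ({τ} : Set G)) := Nat.card_pos
    positivity
  have hT : Nat.card {b : G // (∃ g : G, g * τ * g⁻¹ = b) ∧ (∃ h : G, h * τ * h⁻¹ = b⁻¹ * τ)}
      = Nat.card (Subgroup.centralizer ({τ} : Set G)) - Nat.card Q₀ :=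
    Nat.eq_of_mul_eq_mul_left hCpos hcount
  set Tset : Set G := {b : G | (∃ g : G, g * τ * g⁻¹ = b) ∧ (∃ h : G, h * τ * h⁻¹ = b⁻¹ * τ)}
    with hTset
  set Dset : Set G := ((Subgroup.centralizer ({τ} : Set G) : Subgroup G) : Set G) \ (Q₀ : Set G)
    with hDset
  have hsub : Tset ⊆ Dset := by
    rintro b ⟨⟨g, hg⟩, ⟨h, hh⟩⟩
    have hb2 : orderOf b = 2 := by rw [← hg]; exact bra_conj_order τ g hτ
    obtain ⟨hbb, hbinv, hb1⟩ := bra_inv_facts b hb2
    have hc2 : orderOf (b⁻¹ * τ) = 2 := by rw [← hh]; exact bra_conj_order τ h hτ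
    obtain ⟨hcc, -, -⟩ := bra_inv_facts (b⁻¹ * τ) hc2
    rw [hbinv] at hcc
    refine ⟨?_, ?_⟩
    · rw [SetLike.mem_coe, Subgroup.mem_centralizer_iff]
      intro k hk
      rw [Set.mem_singleton_iff] at hk
      subst hk
      calc k * b = b * (b * k * (b * k)) * k := by
            rw [show b * (b * k * (b * k)) * k = (b * b) * k * b * (k * k) by group, hbb, hττ]
            group
        _ = b * k := by rw [hcc]; group
    · intro hbQ
      have hbτ : b = τ := huniq b hbQ hb2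
      rw [hbτ, inv_mul_cancel] at hh
      apply hτ1
      calc τ = h⁻¹ * (h * τ * h⁻¹) * h := by group
        _ = 1 := by rw [hh]; group
  have hfin : Dset.Finite := Set.toFinite _
  have hDcard : Dset.ncard = Nat.card (Subgroup.centralizer ({τ} : Set G)) - Nat.card Q₀ := by
    rw [hDset, Set.ncard_sdiff (by exact hQ₀) (Set.toFinite _)]
    rfl
  have hTcard : Tset.ncard = Nat.card (Subgroup.centralizer ({τ} : Set G)) - Nat.card Q₀ := by
    rw [← hT]
    rfl
  have heq : Tset = Dset := Set.eq_of_subset_of_ncard_le hsub (by rw [hDcard, hTcard]) hfin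
  intro c hc hcQ
  have hcD : c ∈ Dset := ⟨hc, hcQ⟩
  rw [← heq] at hcD
  obtain ⟨⟨g, hg⟩, -⟩ := hcD
  rw [isConj_comm, isConj_iff]
  exact ⟨g, hg⟩

end Cfsg.Agent.Helper37
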