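import Mathlib
import Cfsg.Agent.Helper9.BRDefs
import Cfsg.Agent.Helper8.BRSplit
import Cfsg.Agent.Helper79.Basic
import Cfsg.Agent.Helper37.BRA0

set_option autoImplicit false
open Cfsg
open scoped ComplexConjugate
universe u
namespace Cfsg.Agent.Helper37

theorem br_beta_orth {G : Type u} [Group G] [Fintype G] {p : ℕ} [Fact p.Prime] (hodd : p ≠ 2)
    {M : Ideal Cfsg.AlgInt} (P : Sylow p G) (q t a : ℕ)
    (hcard : Nat.card G = p * q * (1 + (t - 1) * p))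
    (T : Cfsg.Agent.Helper9.BRTab p M P q) (ht : 2 ≤ t) (hqt : q * t = p - 1)
    (hqa : q = 2 + a * t) (hε : T.ε = -1) (hX1c : T.X1.card = a)
    (hX1 : ∀ χ ∈ T.X1, Cfsg.charDegree (χ : G → ℂ) = 1 + (t - 1) * p)
    (hX2 : ∀ χ ∈ T.X2, Cfsg.charDegree (χ : G → ℂ) = p - 1)
    (hY : ∀ θ ∈ T.Y, Cfsg.charDegree (θ : G → ℂ) = p - q)
    (τ : G) (hτ : orderOf τ = 2)
    (K : Finset (Cfsg.IrrCharacter G))
    (hK : ∀ χ : Cfsg.IrrCharacter G, χ ∈ K ↔ χ ∉ Cfsg.principalBlock M G)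
    (r : Cfsg.IrrCharacter G → ℤ) (w : Cfsg.IrrCharacter G → ℕ) (κ : ℤ)
    (hr : ∀ χ : Cfsg.IrrCharacter G, (χ : G → ℂ) τ = (r χ : ℂ))
    (hrX2 : ∀ χ ∈ T.X2, r χ = 0) (hrY : ∀ θ ∈ T.Y, r θ = κ)
    (hw : ∀ χ ∈ K, Cfsg.charDegree (χ : G → ℂ) = p * w χ) :
    ((Nat.card (Subgroup.centralizer ({τ} : Set G)) : ℤ)
        = 1 + ∑ i ∈ T.X1, r i ^ 2 + t * κ ^ 2 + ∑ k ∈ K, r k ^ 2) ∧
    ((0 : ℤ) = 1 + (1 + ((t : ℤ) - 1) * p) * ∑ i ∈ T.X1, r i + t * κ * ((p : ℤ) - q)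
      + p * ∑ k ∈ K, r k * (w k : ℤ)) ∧
    (-κ = 1 + ∑ i ∈ T.X1, r i) ∧
    (∑ k ∈ K, (w k : ℤ) ^ 2 = (t : ℤ) - 1) := by
  classical
  have hp := (Fact.out : p.Prime)
  obtain ⟨hττ, hτinv, hτ1⟩ := bra_inv_facts τ hτ
  have hq_pos : 0 < q := by omega
  have hp1 : 1 ≤ p := hp.one_lt.le
  have hqp : q ≤ p := by
    have : q * 1 ≤ q * t := Nat.mul_le_mul_left q (by omega)
    omega
  have hYcard : T.Y.card = t := by
    rw [T.hcardY, ← hqt, Nat.mul_div_cancel_left t hq_pos]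
  have hX2card : T.X2.card + 1 + a = q := by
    have := T.hcard
    omega
  have hYne : T.Y.Nonempty := by
    rw [← Finset.card_pos, hYcard]; omega
  obtain ⟨θ0, hθ0⟩ := hYne
  have hτ_not_dvd : ¬ p ∣ orderOf τ := by
    rw [hτ]
    intro h
    exact hodd ((Nat.prime_dvd_prime_iff_eq hp Nat.prime_two).mp h)
  have hdeg : ∀ χ : IrrCharacter G, (χ : G → ℂ) 1 = (charDegree (χ : G → ℂ) : ℂ) := fun χ =>
    Helper79.isCharacter_one_eq_charDegree (Helper79.irr_isCharacter χ)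
  have htriv_deg : charDegree (Helper81.trivIrr G : G → ℂ) = 1 := by
    have := hdeg (Helper81.trivIrr G)
    rw [Helper81.trivIrr_apply] at this
    exact_mod_cast this.symm
  have hr_triv : r (Helper81.trivIrr G) = 1 := by
    have := hr (Helper81.trivIrr G)
    rw [Helper81.trivIrr_apply] at this
    exact_mod_cast this.symm
  -- integer versions of the parameters
  have hP : (p : ℤ) = (t : ℤ) * q + 1 := by
    have : p = t * q + 1 := by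
      have := hqt
      rw [mul_comm] at this
      omega
    exact_mod_cast this
  have hQ : (q : ℤ) = 2 + (a : ℤ) * t := by exact_mod_cast hqa
  have hNcast : ((1 + (t - 1) * p : ℕ) : ℤ) = 1 + ((t : ℤ) - 1) * p := by
    rw [Nat.cast_add, Nat.cast_mul, Nat.cast_sub (by omega : 1 ≤ t)]
    simp
  have hpqcast : ((p - q : ℕ) : ℤ) = (p : ℤ) - q := Nat.cast_sub hqp
  have hp1cast : ((p - 1 : ℕ) : ℤ) = (p : ℤ) - 1 := by
    rw [Nat.cast_sub hp1]; simp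
  have hX2c : (T.X2.card : ℤ) = (q : ℤ) - 1 - a := by
    have : (T.X2.card : ℤ) + 1 + a = q := by exact_mod_cast hX2card
    linarith
  refine ⟨?_, ?_, ?_, ?_⟩
  · -- E2
    have h1 := Helper80.irr_finsum_column_orthogonality_of_isConj (IsConj.refl τ)
    rw [Helper8.br_sum_split T K hK] at h1
    simp only [hr, map_intCast] at h1
    have h2 : r (Helper81.trivIrr G) * r (Helper81.trivIrr G) + ∑ χ ∈ T.X1, r χ * r χ
        + ∑ χ ∈ T.X2, r χ * r χ + ∑ χ ∈ T.Y, r χ * r χ + ∑ χ ∈ K, r χ * r χ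
        = (Nat.card (Subgroup.centralizer ({τ} : Set G)) : ℤ) := by
      exact_mod_cast h1
    have hsX2 : ∑ χ ∈ T.X2, r χ * r χ = 0 :=
      Finset.sum_eq_zero (fun χ hχ => by rw [hrX2 χ hχ]; ring)
    have hsY : ∑ χ ∈ T.Y, r χ * r χ = t * κ ^ 2 := by
      rw [Finset.sum_congr rfl (fun χ hχ => by rw [hrY χ hχ]), Finset.sum_const, hYcard,
        nsmul_eq_mul]
      ring
    have hsX1 : ∑ χ ∈ T.X1, r χ * r χ = ∑ i ∈ T.X1, r i ^ 2 :=
      Finset.sum_congr rfl (fun _ _ => by ring)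
    have hsK : ∑ χ ∈ K, r χ * r χ = ∑ i ∈ K, r i ^ 2 :=
      Finset.sum_congr rfl (fun _ _ => by ring)
    rw [hr_triv, hsX2, hsY, hsX1, hsK] at h2
    linarith
  · -- E3
    have hne : ¬ IsConj τ 1 := by
      rw [isConj_one_left]
      exact hτ1
    have h1 := Helper80.irr_finsum_column_orthogonality_of_not_isConj hne
    rw [Helper8.br_sum_split T K hK] at h1
    simp only [hr, hdeg, Complex.conj_natCast] at h1
    have h2 : r (Helper81.trivIrr G) * (charDegree (Helper81.trivIrr G : G → ℂ) : ℤ)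
        + ∑ χ ∈ T.X1, r χ * (charDegree (χ : G → ℂ) : ℤ)
        + ∑ χ ∈ T.X2, r χ * (charDegree (χ : G → ℂ) : ℤ)
        + ∑ χ ∈ T.Y, r χ * (charDegree (χ : G → ℂ) : ℤ)
        + ∑ χ ∈ K, r χ * (charDegree (χ : G → ℂ) : ℤ) = 0 := by
      exact_mod_cast h1
    have hsX1 : ∑ χ ∈ T.X1, r χ * (charDegree (χ : G → ℂ) : ℤ)
        = (1 + ((t : ℤ) - 1) * p) * ∑ i ∈ T.X1, r i := by
      rw [Finset.mul_sum]
      refine Finset.sum_congr rfl (fun χ hχ => ?_)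
      rw [hX1 χ hχ, hNcast]; ring
    have hsX2 : ∑ χ ∈ T.X2, r χ * (charDegree (χ : G → ℂ) : ℤ) = 0 :=
      Finset.sum_eq_zero (fun χ hχ => by rw [hrX2 χ hχ]; ring)
    have hsY : ∑ χ ∈ T.Y, r χ * (charDegree (χ : G → ℂ) : ℤ) = t * κ * ((p : ℤ) - q) := by
      rw [Finset.sum_congr rfl (fun χ hχ => by rw [hrY χ hχ, hY χ hχ, hpqcast]),
        Finset.sum_const, hYcard, nsmul_eq_mul]
      ring
    have hsK : ∑ χ ∈ K, r χ * (charDegree (χ : G → ℂ) : ℤ)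
        = p * ∑ k ∈ K, r k * (w k : ℤ) := by
      rw [Finset.mul_sum]
      refine Finset.sum_congr rfl (fun χ hχ => ?_)
      rw [hw χ hχ]; push_cast; ring
    rw [hr_triv, htriv_deg, hsX1, hsX2, hsY, hsK] at h2
    push_cast at h2
    linarith
  · -- E4
    have h1 := T.hrel θ0 hθ0 τ hτ_not_dvd
    simp only [hr] at h1
    have h2 : T.ε * r θ0 = 1 + ∑ χ ∈ T.X1, r χ - ∑ χ ∈ T.X2, r χ := by
      exact_mod_cast h1
    have hsX2 : ∑ χ ∈ T.X2, r χ = 0 := Finset.sum_eq_zero hrX2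
    rw [hε, hrY θ0 hθ0, hsX2] at h2
    linarith
  · -- E5
    have h1 := Helper80.irr_finsum_charDegree_sq (G := G)
    have h2 : ∑ᶠ χ : IrrCharacter G, ((charDegree (χ : G → ℂ) : ℂ)) ^ 2 = (Nat.card G : ℂ) := by
      rw [← h1]
      haveI : Fintype (IrrCharacter G) := Fintype.ofFinite _
      rw [finsum_eq_sum_of_fintype, finsum_eq_sum_of_fintype]
      push_cast
      rfl
    rw [Helper8.br_sum_split T K hK, hcard] at h2
    have h3 : ((charDegree (Helper81.trivIrr G : G → ℂ) : ℤ)) ^ 2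
        + ∑ χ ∈ T.X1, ((charDegree (χ : G → ℂ) : ℤ)) ^ 2
        + ∑ χ ∈ T.X2, ((charDegree (χ : G → ℂ) : ℤ)) ^ 2
        + ∑ χ ∈ T.Y, ((charDegree (χ : G → ℂ) : ℤ)) ^ 2
        + ∑ χ ∈ K, ((charDegree (χ : G → ℂ) : ℤ)) ^ 2
        = ((p * q * (1 + (t - 1) * p) : ℕ) : ℤ) := by
      exact_mod_cast h2
    have hsX1 : ∑ χ ∈ T.X1, ((charDegree (χ : G → ℂ) : ℤ)) ^ 2
        = a * (1 + ((t : ℤ) - 1) * p) ^ 2 := by
      rw [Finset.sum_congr rfl (fun χ hχ => by rw [hX1 χ hχ, hNcast]), Finset.sum_const, hX1c,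
        nsmul_eq_mul]
    have hsX2 : ∑ χ ∈ T.X2, ((charDegree (χ : G → ℂ) : ℤ)) ^ 2
        = ((q : ℤ) - 1 - a) * ((p : ℤ) - 1) ^ 2 := by
      rw [Finset.sum_congr rfl (fun χ hχ => by rw [hX2 χ hχ, hp1cast]), Finset.sum_const,
        nsmul_eq_mul, hX2c]
    have hsY : ∑ χ ∈ T.Y, ((charDegree (χ : G → ℂ) : ℤ)) ^ 2 = t * ((p : ℤ) - q) ^ 2 := by
      rw [Finset.sum_congr rfl (fun χ hχ => by rw [hY χ hχ, hpqcast]), Finset.sum_const, hYcard,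
        nsmul_eq_mul]
    have hsK : ∑ χ ∈ K, ((charDegree (χ : G → ℂ) : ℤ)) ^ 2
        = (p : ℤ) ^ 2 * ∑ k ∈ K, (w k : ℤ) ^ 2 := by
      rw [Finset.mul_sum]
      refine Finset.sum_congr rfl (fun χ hχ => ?_)
      rw [hw χ hχ]; push_cast; ring
    rw [htriv_deg, hsX1, hsX2, hsY, hsK] at h3
    have h4 : ((p * q * (1 + (t - 1) * p) : ℕ) : ℤ) = (p : ℤ) * q * (1 + ((t : ℤ) - 1) * p) := by
      rw [Nat.cast_mul, Nat.cast_mul, hNcast]
    rw [h4] at h3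
    have hp2 : (p : ℤ) ^ 2 ≠ 0 := by
      have : (p : ℤ) ≠ 0 := by exact_mod_cast hp.ne_zero
      positivity
    have h5 : (p : ℤ) ^ 2 * ∑ k ∈ K, (w k : ℤ) ^ 2 = (p : ℤ) ^ 2 * ((t : ℤ) - 1) := by
      have h6 : (p : ℤ) ^ 2 * ∑ k ∈ K, (w k : ℤ) ^ 2
          = (p : ℤ) * q * (1 + ((t : ℤ) - 1) * p) - 1 - a * (1 + ((t : ℤ) - 1) * p) ^ 2
            - ((q : ℤ) - 1 - a) * ((p : ℤ) - 1) ^ 2 - t * ((p : ℤ) - q) ^ 2 := by
        push_cast at h3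
        linarith
      rw [h6, hP, hQ]
      ring
    exact mul_left_cancel₀ hp2 h5

end Cfsg.Agent.Helper37
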