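import Mathlib
import Cfsg.Agent.S3908
import Cfsg.Agent.S3909

set_option autoImplicit false

namespace Cfsg.Agent.Helper37

variable {G : Type*} [Group G]

/-- order of an image -/
theorem bq_card_map {H : Type*} [Group H] (f : G →* H) (R : Subgroup G) :
    Nat.card (R.map f) * Nat.card (R ⊓ f.ker : Subgroup G) = Nat.card R := by
  have h1 := Subgroup.relIndex_ker (K := R) f
  have h2 := Subgroup.relIndex_mul_relIndex (⊥ : Subgroup G) (R ⊓ f.ker) R bot_le inf_le_left
  rw [Subgroup.relIndex_bot_left, Subgroup.relIndex_bot_left, Subgroup.inf_relIndex_left, h1] at h2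
  rw [mul_comm]
  exact h2

/-- a `q`-group acting by conjugation on a coset of a normal `q'`-subgroup fixes a point -/
theorem bq_lift (M : Subgroup G) [M.Normal] (Y : Subgroup G)
    (hYM : ∀ a ∈ Y, ∀ b ∈ Y, a * b * a⁻¹ * b⁻¹ ∈ M) (q : ℕ) [Fact q.Prime] (Q : Subgroup G)
    (hQY : Q ≤ Y) (hQ : IsPGroup q Q) (hqM : ¬ q ∣ Nat.card M) (y : G) (hy : y ∈ Y) :
    ∃ y' ∈ Y, (∀ u ∈ Q, u * y' = y' * u) ∧ y⁻¹ * y' ∈ M := by
  classical
  have hcl : ∀ (u : Q) (z : {z : G // y⁻¹ * z ∈ Y ⊓ M}),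
      y⁻¹ * ((u : G) * z.1 * (u : G)⁻¹) ∈ Y ⊓ M := by
    intro u z
    have huY : (u : G) ∈ Y := hQY u.2
    have hz := z.2
    have h1 : y⁻¹ * ((u : G) * z.1 * (u : G)⁻¹) =
        (y⁻¹ * (u : G) * (y⁻¹)⁻¹ * (u : G)⁻¹) * ((u : G) * (y⁻¹ * z.1) * (u : G)⁻¹) := by
      group
    rw [h1]
    refine ⟨?_, ?_⟩
    · exact Y.mul_mem (Y.mul_mem (Y.mul_mem (Y.mul_mem (Y.inv_mem hy) huY)
        (Y.inv_mem (Y.inv_mem hy))) (Y.inv_mem huY))
        (Y.mul_mem (Y.mul_mem huY hz.1) (Y.inv_mem huY))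
    · exact M.mul_mem (hYM _ (Y.inv_mem hy) _ huY)
        (‹M.Normal›.conj_mem _ hz.2 _)
  letI : MulAction Q {z : G // y⁻¹ * z ∈ Y ⊓ M} :=
    { smul := fun u z => ⟨(u : G) * z.1 * (u : G)⁻¹, hcl u z⟩
      one_smul := by
        intro z
        apply Subtype.ext
        show ((1 : Q) : G) * z.1 * ((1 : Q) : G)⁻¹ = z.1
        simp
      mul_smul := by
        intro u w z
        apply Subtype.ext
        show ((u * w : Q) : G) * z.1 * ((u * w : Q) : G)⁻¹ = (u : G) * ((w : G) * z.1 * (w : G)⁻¹) * (u : G)⁻¹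
        rw [Subgroup.coe_mul]
        group }
  have hcard : Nat.card {z : G // y⁻¹ * z ∈ Y ⊓ M} = Nat.card (Y ⊓ M : Subgroup G) := by
    apply Nat.card_congr
    exact
      { toFun := fun z => ⟨y⁻¹ * z.1, z.2⟩
        invFun := fun w => ⟨y * w.1, by rw [inv_mul_cancel_left]; exact w.2⟩
        left_inv := by
          intro z
          apply Subtype.ext
          simp
        right_inv := by
          intro w
          apply Subtype.ext
          simp }
  have hnd : ¬ q ∣ Nat.card {z : G // y⁻¹ * z ∈ Y ⊓ M} := by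
    rw [hcard]
    intro h
    exact hqM (h.trans (Subgroup.card_dvd_of_le inf_le_right))
  obtain ⟨z, hz⟩ := hQ.nonempty_fixed_point_of_prime_not_dvd_card _ hnd
  refine ⟨z.1, ?_, ?_, z.2.2⟩
  · have h1 := Y.mul_mem hy z.2.1
    rwa [mul_inv_cancel_left] at h1
  · intro u hu
    have h1 := hz ⟨u, hu⟩
    have h2 : u * z.1 * u⁻¹ = z.1 := congrArg Subtype.val h1
    calc u * z.1 = (u * z.1 * u⁻¹) * u := by group
      _ = z.1 * u := by rw [h2]

variable [Finite G]

/-- a chain of centralisers of Sylow subgroups for primes not dividing `#M` -/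
theorem bq_chain (M : Subgroup G) [M.Normal] (s : Finset ℕ)
    (hs : ∀ q ∈ s, q.Prime ∧ ¬ q ∣ Nat.card M) :
    ∀ X : Subgroup G, (∀ a ∈ X, ∀ b ∈ X, a * b * a⁻¹ * b⁻¹ ∈ M) →
    ∃ Y A : Subgroup G, Y ≤ X ∧ A ≤ Y ∧ A ≤ Subgroup.centralizer (Y : Set G) ∧
      (∀ x ∈ X, ∃ y ∈ Y, x⁻¹ * y ∈ M) ∧
      ∀ q ∈ s, (Nat.card Y).factorization q ≤ (Nat.card A).factorization q := by
  classical
  induction s using Finset.induction_on with
  | empty =>
    intro X hX
    refine ⟨X, ⊥, le_rfl, bot_le, bot_le, ?_, ?_⟩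
    · intro x hx
      exact ⟨x, hx, by rw [inv_mul_cancel]; exact M.one_mem⟩
    · intro q hq
      exact absurd hq (Finset.notMem_empty q)
  | insert q s hqs ih =>
    intro X hX
    obtain ⟨Y, A, hYX, hAY, hAc, hcov, hfac⟩ :=
      ih (fun r hr => hs r (Finset.mem_insert_of_mem hr)) X hX
    obtain ⟨hqp, hqM⟩ := hs q (Finset.mem_insert_self q s)
    haveI : Fact q.Prime := ⟨hqp⟩
    have hYM : ∀ a ∈ Y, ∀ b ∈ Y, a * b * a⁻¹ * b⁻¹ ∈ M :=
      fun a ha b hb => hX a (hYX ha) b (hYX hb)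
    obtain ⟨P⟩ : Nonempty (Sylow q ↥Y) := inferInstance
    obtain ⟨Q, hQdef⟩ : ∃ Q : Subgroup G, Q = (P : Subgroup ↥Y).map Y.subtype := ⟨_, rfl⟩
    have hQY : Q ≤ Y := by
      rw [hQdef]
      exact Subgroup.map_subtype_le _
    have hQcard : Nat.card Q = q ^ (Nat.card Y).factorization q := by
      rw [hQdef, ← Sylow.card_eq_multiplicity P]
      exact Nat.card_congr ((P : Subgroup ↥Y).equivMapOfInjective Y.subtype
        Y.subtype_injective).toEquiv.symm
    have hQp : IsPGroup q Q := IsPGroup.of_card hQcard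
    have hQM : Q ⊓ M = ⊥ := by
      apply disjoint_iff.mp
      apply Subgroup.disjoint_of_coprime_natCard
      rw [hQcard]
      exact Nat.Coprime.pow_left _ ((Nat.Prime.coprime_iff_not_dvd hqp).mpr hqM)
    have hQab : ∀ u ∈ Q, ∀ w ∈ Q, u * w = w * u := by
      intro u hu w hw
      have h1 : u * w * u⁻¹ * w⁻¹ ∈ Q ⊓ M :=
        ⟨Q.mul_mem (Q.mul_mem (Q.mul_mem hu hw) (Q.inv_mem hu)) (Q.inv_mem hw),
          hYM u (hQY hu) w (hQY hw)⟩
      rw [hQM, Subgroup.mem_bot] at h1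
      calc u * w = (u * w * u⁻¹ * w⁻¹) * (w * u) := by group
        _ = w * u := by rw [h1, one_mul]
    have hAQ : ∀ a ∈ A, ∀ u ∈ Q, u * a = a * u := by
      intro a ha u hu
      exact (Subgroup.mem_centralizer_iff.mp (hAc ha)) u (hQY hu)
    refine ⟨Y ⊓ Subgroup.centralizer (Q : Set G), A ⊔ Q, inf_le_left.trans hYX, ?_, ?_, ?_, ?_⟩
    · apply sup_le
      · intro a ha
        exact Subgroup.mem_inf.mpr ⟨hAY ha, Subgroup.mem_centralizer_iff.mpr
          (fun u hu => hAQ a ha u hu)⟩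
      · intro u hu
        exact Subgroup.mem_inf.mpr ⟨hQY hu, Subgroup.mem_centralizer_iff.mpr
          (fun w hw => hQab w hw u hu)⟩
    · apply sup_le
      · intro a ha
        rw [Subgroup.mem_centralizer_iff]
        intro y hy
        exact (Subgroup.mem_centralizer_iff.mp (hAc ha)) y hy.1
      · intro u hu
        rw [Subgroup.mem_centralizer_iff]
        intro y hy
        exact ((Subgroup.mem_centralizer_iff.mp hy.2) u hu).symm
    · intro x hx
      obtain ⟨y, hy, hxy⟩ := hcov x hx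
      obtain ⟨y', hy', hcomm, hyy'⟩ := bq_lift M Y hYM q Q hQY hQp hqM y hy
      refine ⟨y', Subgroup.mem_inf.mpr ⟨hy', Subgroup.mem_centralizer_iff.mpr
        (fun u hu => hcomm u hu)⟩, ?_⟩
      · have h1 := M.mul_mem hxy hyy'
        rwa [mul_assoc, mul_inv_cancel_left] at h1
    · intro r hr
      have hne : ∀ K : Subgroup G, Nat.card K ≠ 0 := fun K => Nat.card_pos.ne'
      have hmono : ∀ (K L : Subgroup G), K ≤ L → ∀ t : ℕ,
          (Nat.card K).factorization t ≤ (Nat.card L).factorization t := by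
        intro K L hKL t
        exact (Nat.factorization_le_iff_dvd (hne K) (hne L)).mpr (Subgroup.card_dvd_of_le hKL) t
      rcases Finset.mem_insert.mp hr with rfl | hr'
      · have h1 := hmono (Y ⊓ Subgroup.centralizer (Q : Set G)) Y inf_le_left r
        have h2 := hmono Q (A ⊔ Q) le_sup_right r
        rw [hQcard, Nat.Prime.factorization_pow hqp, Finsupp.single_eq_same] at h2
        exact h1.trans h2
      · exact (hmono (Y ⊓ Subgroup.centralizer (Q : Set G)) Y inf_le_left r).trans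
          ((hfac r hr').trans (hmono A (A ⊔ Q) le_sup_left r))

end Cfsg.Agent.Helper37
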