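import Mathlib
import Cfsg.Agent.Helper37.Bq1

set_option autoImplicit false

namespace Cfsg.Agent.Helper37

/-- in a finite cyclic group, subgroups are ordered by divisibility of their orders -/
theorem bq_cyc_le {C : Type*} [Group C] [Finite C] [IsCyclic C] (H K : Subgroup C)
    (h : Nat.card H ∣ Nat.card K) : H ≤ K := by
  letI : CommGroup C := IsCyclic.commGroup
  have h1 : K ≤ (powMonoidHom (Nat.card K) : C →* C).ker := by
    intro x hx
    rw [MonoidHom.mem_ker, powMonoidHom_apply]
    have h2 : (⟨x, hx⟩ : K) ^ Nat.card K = 1 := pow_card_eq_one'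
    exact congrArg Subtype.val h2
  have h3 : Nat.card (powMonoidHom (Nat.card K) : C →* C).ker = Nat.card K := by
    rw [IsCyclic.card_powMonoidHom_ker]
    exact Nat.gcd_eq_right (Subgroup.card_subgroup_dvd_card K)
  have h4 : K = (powMonoidHom (Nat.card K) : C →* C).ker :=
    Subgroup.eq_of_le_of_card_ge h1 h3.le
  rw [h4]
  intro x hx
  rw [MonoidHom.mem_ker, powMonoidHom_apply]
  have h2 : (⟨x, hx⟩ : H) ^ Nat.card H = 1 := pow_card_eq_one'
  have h5 : x ^ Nat.card H = 1 := congrArg Subtype.val h2
  obtain ⟨t, ht⟩ := h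
  rw [ht, pow_mul, h5, one_pow]

variable {G : Type*} [Group G] [Finite G]

/-- subgroups of a cyclic subgroup are ordered by divisibility of their orders -/
theorem bq_cyc_le' (P H K : Subgroup G) [IsCyclic ↥P] (hH : H ≤ P) (hK : K ≤ P)
    (h : Nat.card H ∣ Nat.card K) : H ≤ K := by
  have h1 : Nat.card (H.subgroupOf P) = Nat.card H :=
    Nat.card_congr (Subgroup.subgroupOfEquivOfLe hH).toEquiv
  have h2 : Nat.card (K.subgroupOf P) = Nat.card K :=
    Nat.card_congr (Subgroup.subgroupOfEquivOfLe hK).toEquiv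
  have h3 := bq_cyc_le (H.subgroupOf P) (K.subgroupOf P) (by rw [h1, h2]; exact h)
  intro x hx
  have h4 : (⟨x, hH hx⟩ : P) ∈ H.subgroupOf P := Subgroup.mem_subgroupOf.mpr hx
  exact Subgroup.mem_subgroupOf.mp (h3 h4)

/-- Sylow subgroups for primes dividing both `#M` and the index of `M` are cyclic -/
theorem bq_cyc (hB : ∀ A B : Subgroup G, IsMulCommutative ↥A → IsMulCommutative ↥B →
      Nat.card ↥A = Nat.card ↥B → ∃ g : G, B = A.map (MulAut.conj g).toMonoidHom)
    (M : Subgroup G) [M.Normal] (hM : Odd (Nat.card ↥M)) (p : ℕ) [Fact p.Prime]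
    (hpM : p ∣ Nat.card M) (hpi : p ∣ M.index) (P : Sylow p G) :
    IsCyclic ↥(P : Subgroup G) := by
  have hpp : p.Prime := Fact.out
  have hp2 : p ≠ 2 := by
    rintro rfl
    exact (Nat.not_even_iff_odd.mpr hM) (even_iff_two_dvd.mpr hpM)
  rcases (Cfsg.Agent.S3908.result hB).2 p hp2 P with h | h
  · exact h
  · exfalso
    obtain ⟨m0, hm0⟩ := exists_prime_orderOf_dvd_card' p hpM
    have hm0' : orderOf (m0 : G) = p := by rw [Subgroup.orderOf_coe]; exact hm0
    have hPM : (P : Subgroup G) ≤ M := by
      intro x hx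
      by_cases hx1 : x = 1
      · rw [hx1]; exact M.one_mem
      · have hox : orderOf x = p := orderOf_eq_prime (h x hx) hx1
        exact (Cfsg.Agent.S3909.result hB M).1 x ⟨m0, m0.2, by rw [hm0', hox]⟩
    have h1 := Subgroup.card_dvd_of_le hPM
    rw [Sylow.card_eq_multiplicity] at h1
    have hin : M.index ≠ 0 := Subgroup.index_ne_zero_of_finite
    have h2 := M.card_mul_index
    have h3 : (Nat.card G).factorization p =
        (Nat.card M).factorization p + (M.index).factorization p := by
      rw [← h2, Nat.factorization_mul Nat.card_pos.ne' hin, Finsupp.add_apply]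
    have h4 : (Nat.card G).factorization p ≤ (Nat.card M).factorization p :=
      (hpp.pow_dvd_iff_le_factorization Nat.card_pos.ne').mp h1
    have h5 : 1 ≤ (M.index).factorization p :=
      (hpp.dvd_iff_one_le_factorization hin).mp hpi
    omega

/-- with cyclic Sylow `p`-subgroups, a subgroup not inside `M` at `p` contains a full Sylow
`p`-subgroup of `M` -/
theorem bq_key (M : Subgroup G) [M.Normal] (A₀ : Subgroup G) (p : ℕ) [Fact p.Prime]
    (hcyc : ∀ P : Sylow p G, IsCyclic ↥(P : Subgroup G))
    (hp : (Nat.card (A₀ ⊓ M : Subgroup G)).factorization p < (Nat.card A₀).factorization p) :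
    (Nat.card M).factorization p ≤ (Nat.card (A₀ ⊓ M : Subgroup G)).factorization p := by
  classical
  have hpp : p.Prime := Fact.out
  have hne : ∀ K : Subgroup G, Nat.card K ≠ 0 := fun K => Nat.card_pos.ne'
  obtain ⟨R₀⟩ : Nonempty (Sylow p ↥A₀) := inferInstance
  obtain ⟨R, hRdef⟩ : ∃ R : Subgroup G, R = (R₀ : Subgroup ↥A₀).map A₀.subtype := ⟨_, rfl⟩
  have hRA : R ≤ A₀ := by
    rw [hRdef]
    exact Subgroup.map_subtype_le _
  have hRcard : Nat.card R = p ^ (Nat.card A₀).factorization p := by
    rw [hRdef, ← Sylow.card_eq_multiplicity R₀]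
    exact Nat.card_congr ((R₀ : Subgroup ↥A₀).equivMapOfInjective A₀.subtype
      A₀.subtype_injective).toEquiv.symm
  have hRp : IsPGroup p R := IsPGroup.of_card hRcard
  obtain ⟨P, hRP⟩ := hRp.exists_le_sylow
  haveI := hcyc P
  have hPcard := Sylow.card_eq_multiplicity P
  obtain ⟨k, hk⟩ := IsPGroup.iff_card.mp (P.2.to_le (inf_le_left : (P : Subgroup G) ⊓ M ≤ P))
  have hkM : k = (Nat.card M).factorization p := by
    have h1 : k ≤ (Nat.card M).factorization p := by
      have h2 := Subgroup.card_dvd_of_le (inf_le_right : (P : Subgroup G) ⊓ M ≤ M)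
      rw [hk] at h2
      exact (hpp.pow_dvd_iff_le_factorization (hne M)).mp h2
    have h3 := Subgroup.relIndex_mul_relIndex (⊥ : Subgroup G) ((P : Subgroup G) ⊓ M) P bot_le
      inf_le_left
    rw [Subgroup.relIndex_bot_left, Subgroup.relIndex_bot_left, Subgroup.inf_relIndex_left, hk,
      hPcard] at h3
    have h4 : M.relIndex (P : Subgroup G) ∣ M.index := Subgroup.relIndex_dvd_index_of_normal M P
    have hin : M.index ≠ 0 := Subgroup.index_ne_zero_of_finite
    have hri : M.relIndex (P : Subgroup G) ≠ 0 := by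
      intro h0
      rw [h0, mul_zero] at h3
      exact (pow_ne_zero _ hpp.ne_zero) h3.symm
    have h5 : (p ^ k * M.relIndex (P : Subgroup G)).factorization p =
        (p ^ (Nat.card G).factorization p).factorization p := by rw [h3]
    rw [Nat.factorization_mul (pow_ne_zero _ hpp.ne_zero) hri, Finsupp.add_apply,
      Nat.Prime.factorization_pow hpp, Nat.Prime.factorization_pow hpp, Finsupp.single_eq_same,
      Finsupp.single_eq_same] at h5
    have h6 : (M.relIndex (P : Subgroup G)).factorization p ≤ (M.index).factorization p :=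
      (Nat.factorization_le_iff_dvd hri hin).mpr h4 p
    have h7 := M.card_mul_index
    have h8 : (Nat.card G).factorization p =
        (Nat.card M).factorization p + (M.index).factorization p := by
      rw [← h7, Nat.factorization_mul (hne M) hin, Finsupp.add_apply]
    omega
  rw [hkM] at hk
  by_cases hjb : (Nat.card M).factorization p ≤ (Nat.card A₀).factorization p
  · have h1 : (P : Subgroup G) ⊓ M ≤ R := by
      apply bq_cyc_le' (P : Subgroup G) ((P : Subgroup G) ⊓ M) R inf_le_left hRP
      rw [hk, hRcard]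
      exact pow_dvd_pow p hjb
    have h2 : (P : Subgroup G) ⊓ M ≤ A₀ ⊓ M := le_inf (h1.trans hRA) inf_le_right
    have h3 := Subgroup.card_dvd_of_le h2
    rw [hk] at h3
    exact (hpp.pow_dvd_iff_le_factorization (hne _)).mp h3
  · exfalso
    have h1 : R ≤ (P : Subgroup G) ⊓ M := by
      apply bq_cyc_le' (P : Subgroup G) R ((P : Subgroup G) ⊓ M) hRP inf_le_left
      rw [hk, hRcard]
      exact pow_dvd_pow p (by omega)
    have h2 : R ≤ A₀ ⊓ M := le_inf hRA (h1.trans inf_le_right)
    have h3 := Subgroup.card_dvd_of_le h2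
    rw [hRcard] at h3
    have h4 := (hpp.pow_dvd_iff_le_factorization (hne _)).mp h3
    omega

end Cfsg.Agent.Helper37
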