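import Mathlib
import Cfsg.Agent.Helper37.Bq3

set_option autoImplicit false

namespace Cfsg.Agent.Helper37

variable {G : Type*} [Group G] [Finite G]

/-- Sylow subgroups for odd primes dividing both `#M` and the index of `M` are cyclic -/
theorem br_cyc (hB : ∀ A B : Subgroup G, IsMulCommutative ↥A → IsMulCommutative ↥B →
      Nat.card ↥A = Nat.card ↥B → ∃ g : G, B = A.map (MulAut.conj g).toMonoidHom)
    (M : Subgroup G) [M.Normal] (p : ℕ) [Fact p.Prime] (hp2 : p ≠ 2)
    (hpM : p ∣ Nat.card M) (hpi : p ∣ M.index) (P : Sylow p G) :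
    IsCyclic ↥(P : Subgroup G) := by
  have hpp : p.Prime := Fact.out
  rcases (Cfsg.Agent.S3908.result hB).2 p hp2 P with h | h
  · exact h
  · exfalso
    obtain ⟨m0, hm0⟩ := exists_prime_orderOf_dvd_card' p hpM
    have hm0' : orderOf (m0 : G) = p := by rw [Subgroup.orderOf_coe]; exact hm0
    have hPM : (P : Subgroup G) ≤ M := by
      intro x hx
      by_cases hx1 : x = 1
      · rw [hx1]; exact M.one_mem
      · have hox : orderOf x = p := orderOf_eq_prime (h x hx) hx1
        exact (Cfsg.Agent.S3909.result hB M).1 x ⟨m0, m0.2, by rw [hm0', hox]⟩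
    have h1 := Subgroup.card_dvd_of_le hPM
    rw [Sylow.card_eq_multiplicity] at h1
    have hin : M.index ≠ 0 := Subgroup.index_ne_zero_of_finite
    have h2 := M.card_mul_index
    have h3 : (Nat.card G).factorization p =
        (Nat.card M).factorization p + (M.index).factorization p := by
      rw [← h2, Nat.factorization_mul Nat.card_pos.ne' hin, Finsupp.add_apply]
    have h4 : (Nat.card G).factorization p ≤ (Nat.card M).factorization p :=
      (hpp.pow_dvd_iff_le_factorization Nat.card_pos.ne').mp h1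
    have h5 : 1 ≤ (M.index).factorization p :=
      (hpp.dvd_iff_one_le_factorization hin).mp hpi
    omega

/-- an abelian subgroup of the quotient by a normal subgroup with cyclic common Sylow subgroups lifts to an abelian
subgroup involving only the primes of the image -/
theorem br_main (M : Subgroup G) [M.Normal]
    (hcycM : ∀ p : ℕ, p.Prime → p ∣ Nat.card M → p ∣ M.index →
      ∀ P : Sylow p G, IsCyclic ↥(P : Subgroup G))
    (Ā : Subgroup (G ⧸ M)) (hĀ : IsMulCommutative ↥Ā) :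
    ∃ A₀ : Subgroup G, IsMulCommutative ↥A₀ ∧ A₀.map (QuotientGroup.mk' M) = Ā ∧
      ∀ p : ℕ, p.Prime → p ∣ Nat.card A₀ → p ∣ Nat.card Ā := by
  classical
  obtain ⟨f, hfdef⟩ : ∃ f : G →* G ⧸ M, f = QuotientGroup.mk' M := ⟨_, rfl⟩
  have hker : f.ker = M := by
    rw [hfdef]
    exact QuotientGroup.ker_mk' M
  have hsurj : Function.Surjective f := by
    rw [hfdef]
    exact QuotientGroup.mk'_surjective M
  rw [← hfdef]
  have hmemM : ∀ x : G, f x = 1 → x ∈ M := by
    intro x hx
    have h0 : x ∈ f.ker := MonoidHom.mem_ker.mpr hx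
    rw [hker] at h0
    exact h0
  have hMmem : ∀ x ∈ M, f x = 1 := by
    intro x hx
    have h0 : x ∈ f.ker := by
      rw [hker]
      exact hx
    exact MonoidHom.mem_ker.mp h0
  have hn0 : Nat.card Ā ≠ 0 := Nat.card_pos.ne'
  have hne : ∀ K : Subgroup G, Nat.card K ≠ 0 := fun K => Nat.card_pos.ne'
  have hnidx : Nat.card Ā ∣ M.index := by
    have h1 := Subgroup.card_subgroup_dvd_card Ā
    rw [Subgroup.index_eq_card]
    exact h1
  have hnG : Nat.card Ā ∣ Nat.card G := hnidx.trans (Subgroup.index_dvd_card M)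
  obtain ⟨X, hXdef⟩ : ∃ X : Subgroup G, X = Ā.comap f := ⟨_, rfl⟩
  have hXmap : X.map f = Ā := by
    rw [hXdef]
    exact Subgroup.map_comap_eq_self_of_surjective hsurj Ā
  have hXM : ∀ a ∈ X, ∀ b ∈ X, a * b * a⁻¹ * b⁻¹ ∈ M := by
    intro a ha b hb
    apply hmemM
    rw [hXdef, Subgroup.mem_comap] at ha hb
    have hc : f a * f b = f b * f a := by
      have h1 := mul_comm' (⟨f a, ha⟩ : Ā) ⟨f b, hb⟩
      exact congrArg Subtype.val h1
    rw [map_mul, map_mul, map_mul, map_inv, map_inv, hc]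
    group
  obtain ⟨s, hsdef⟩ : ∃ s : Finset ℕ, s = (Finset.range (Nat.card G + 1)).filter
      (fun q => q.Prime ∧ ¬ q ∣ Nat.card M) := ⟨_, rfl⟩
  have hs : ∀ q ∈ s, q.Prime ∧ ¬ q ∣ Nat.card M := by
    intro q hq
    rw [hsdef, Finset.mem_filter] at hq
    exact hq.2
  obtain ⟨Y, A, hYX, hAY, hAc, hYsurj, hYA⟩ := bq_chain M s hs X hXM
  have hYmap : Y.map f = Ā := by
    apply le_antisymm
    · rw [← hXmap]
      exact Subgroup.map_mono hYX
    · intro ā hā
      rw [← hXmap] at hā
      obtain ⟨x, hx, rfl⟩ := hā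
      obtain ⟨y, hy, hxy⟩ := hYsurj x hx
      refine ⟨y, hy, ?_⟩
      have h1 := hMmem _ hxy
      rw [map_mul, map_inv] at h1
      exact (inv_mul_eq_one.mp h1).symm
  obtain ⟨cb, hcbmem, hcbmax⟩ := bq_max Ā hĀ
  obtain ⟨c, hcY, hfc⟩ : ∃ c ∈ Y, f c = cb := by
    rw [← hYmap] at hcbmem
    exact hcbmem
  obtain ⟨W, hWdef⟩ : ∃ W : Subgroup G, W = Subgroup.closure ((A : Set G) ∪ {c}) := ⟨_, rfl⟩
  have hWcomm : IsMulCommutative ↥W := by
    rw [hWdef]
    apply Subgroup.isMulCommutative_closure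
    intro x hx y hy
    rcases hx with hx | hx
    · have hyY : y ∈ Y := by
        rcases hy with hy | hy
        · exact hAY hy
        · rw [Set.mem_singleton_iff.mp hy]
          exact hcY
      exact (Subgroup.mem_centralizer_iff.mp (hAc hx) y hyY).symm
    · rw [Set.mem_singleton_iff.mp hx]
      rcases hy with hy | hy
      · exact Subgroup.mem_centralizer_iff.mp (hAc hy) c hcY
      · rw [Set.mem_singleton_iff.mp hy]
  have hWY : W ≤ Y := by
    rw [hWdef, Subgroup.closure_le]
    intro x hx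
    rcases hx with hx | hx
    · exact hAY hx
    · rw [Set.mem_singleton_iff.mp hx]
      exact hcY
  have hAW : A ≤ W := by
    rw [hWdef]
    intro x hx
    exact Subgroup.subset_closure (Or.inl hx)
  have hcW : c ∈ W := by
    rw [hWdef]
    exact Subgroup.subset_closure (Or.inr rfl)
  have hWmap : W.map f = Ā := by
    have hle : W.map f ≤ Ā := by
      rw [← hYmap]
      exact Subgroup.map_mono hWY
    apply Subgroup.eq_of_le_of_card_ge hle
    apply Nat.le_of_dvd Nat.card_pos
    rw [← Nat.factorization_le_iff_dvd hn0 Nat.card_pos.ne']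
    intro p
    by_cases hpp : p.Prime
    swap
    · rw [Nat.factorization_eq_zero_of_not_prime _ hpp]
      exact Nat.zero_le _
    by_cases hpn : p ∣ Nat.card Ā
    swap
    · rw [Nat.factorization_eq_zero_of_not_dvd hpn]
      exact Nat.zero_le _
    haveI : Fact p.Prime := ⟨hpp⟩
    by_cases hpM : p ∣ Nat.card M
    · have hcyc := hcycM p hpp hpM (dvd_trans hpn hnidx)
      obtain ⟨ā, hā, hdiv⟩ := bq_exp M Ā p hcyc
      have h1 : orderOf ā ∣ orderOf cb := hcbmax ā hā
      have h2 : orderOf cb ∣ Nat.card (W.map f) := by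
        have h3 : cb ∈ W.map f := ⟨c, hcW, hfc⟩
        have h4 := orderOf_dvd_natCard (⟨cb, h3⟩ : W.map f)
        rw [Subgroup.orderOf_mk] at h4
        exact h4
      exact (hpp.pow_dvd_iff_le_factorization Nat.card_pos.ne').mp (hdiv.trans (h1.trans h2))
    · have hps : p ∈ s := by
        rw [hsdef, Finset.mem_filter, Finset.mem_range]
        exact ⟨Nat.lt_succ_of_le (Nat.le_of_dvd Nat.card_pos (hpn.trans hnG)), hpp, hpM⟩
      have h1 := hYA p hps
      have h2 : (Nat.card Ā).factorization p ≤ (Nat.card Y).factorization p := by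
        have h3 := bq_card_map f Y
        rw [hYmap] at h3
        exact (Nat.factorization_le_iff_dvd hn0 (hne Y)).mpr (Dvd.intro _ h3) p
      have h4 : (Nat.card A).factorization p = (Nat.card (A.map f)).factorization p := by
        have h5 := bq_card_map f A
        have h6 : (Nat.card (A ⊓ f.ker : Subgroup G)).factorization p = 0 := by
          apply Nat.factorization_eq_zero_of_not_dvd
          intro hd
          apply hpM
          rw [hker] at hd
          exact hd.trans (Subgroup.card_dvd_of_le inf_le_right)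
        rw [← h5, Nat.factorization_mul Nat.card_pos.ne' Nat.card_pos.ne', Finsupp.add_apply,
          h6, add_zero]
      have h7 : (Nat.card (A.map f)).factorization p ≤ (Nat.card (W.map f)).factorization p :=
        (Nat.factorization_le_iff_dvd Nat.card_pos.ne' Nat.card_pos.ne').mpr
          (Subgroup.card_dvd_of_le (Subgroup.map_mono hAW)) p
      omega
  obtain ⟨t₀, ht₀G, ht₀n, hs₀⟩ := bq_split (Nat.card G) (Nat.card Ā) Nat.card_pos.ne' hn0
  obtain ⟨s₀, hs₀def⟩ : ∃ s₀ : ℕ, s₀ = Nat.card G / t₀ := ⟨_, rfl⟩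
  have hts : t₀ * s₀ = Nat.card G := by
    rw [hs₀def]
    exact Nat.mul_div_cancel' ht₀G
  obtain ⟨A₀, hA₀def⟩ : ∃ A₀ : Subgroup G, ∀ x, x ∈ A₀ ↔ x ∈ W ∧ x ^ s₀ = 1 := by
    refine ⟨⟨⟨⟨{x | x ∈ W ∧ x ^ s₀ = 1}, ?_⟩, ?_⟩, ?_⟩, fun x => Iff.rfl⟩
    · rintro a b ⟨ha, ha'⟩ ⟨hb, hb'⟩
      refine ⟨W.mul_mem ha hb, ?_⟩
      have hcomm : Commute a b := by
        have h1 := mul_comm' (⟨a, ha⟩ : W) ⟨b, hb⟩
        exact congrArg Subtype.val h1
      rw [hcomm.mul_pow, ha', hb', one_mul]
    · exact ⟨W.one_mem, one_pow _⟩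
    · rintro a ⟨ha, ha'⟩
      exact ⟨W.inv_mem ha, by rw [inv_pow, ha', inv_one]⟩
  refine ⟨A₀, ?_, ?_, ?_⟩
  · refine ⟨⟨fun a b => ?_⟩⟩
    apply Subtype.ext
    have ha := ((hA₀def _).mp a.2).1
    have hb := ((hA₀def _).mp b.2).1
    have h1 := mul_comm' (⟨a, ha⟩ : W) ⟨b, hb⟩
    have h2 : (a : G) * (b : G) = (b : G) * (a : G) := congrArg Subtype.val h1
    exact h2
  · apply le_antisymm
    · rw [← hWmap]
      apply Subgroup.map_mono
      intro x hx
      exact ((hA₀def x).mp hx).1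
    · intro ā hā
      have hā' := hā
      rw [← hWmap] at hā'
      obtain ⟨w, hw, rfl⟩ := hā'
      obtain ⟨e, he1, he0⟩ : ∃ e : ℕ, e ≡ 1 [MOD Nat.card Ā] ∧ e ≡ 0 [MOD t₀] := by
        have hco : Nat.Coprime (Nat.card Ā) t₀ := ht₀n.symm
        exact ⟨Nat.chineseRemainder hco 1 0, (Nat.chineseRemainder hco 1 0).2.1,
          (Nat.chineseRemainder hco 1 0).2.2⟩
      refine ⟨w ^ e, (hA₀def _).mpr ⟨W.pow_mem hw e, ?_⟩, ?_⟩
      · have h1 : t₀ ∣ e := (Nat.modEq_zero_iff_dvd).mp he0
        obtain ⟨k, hk⟩ := h1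
        rw [← pow_mul, hk, mul_right_comm, hts, pow_mul, pow_card_eq_one', one_pow]
      · rw [map_pow]
        have h2 : (⟨f w, hā⟩ : Ā) ^ e = ⟨f w, hā⟩ := by
          rw [← pow_mod_natCard, show e % Nat.card ↥Ā = 1 % Nat.card ↥Ā from he1,
            pow_mod_natCard, pow_one]
        exact congrArg Subtype.val h2
  · intro p hpp hpA
    haveI : Fact p.Prime := ⟨hpp⟩
    obtain ⟨x, hx⟩ := exists_prime_orderOf_dvd_card' p hpA
    have hx' : orderOf (x : G) = p := by
      rw [Subgroup.orderOf_coe]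
      exact hx
    have h1 : (x : G) ^ s₀ = 1 := ((hA₀def _).mp x.2).2
    have h2 : p ∣ s₀ := by
      rw [← hx']
      exact orderOf_dvd_of_pow_eq_one h1
    have h3 : p ∣ Nat.card Ā ^ Nat.card G := h2.trans (by rw [hs₀def]; exact hs₀)
    exact hpp.dvd_of_dvd_pow h3

/-- the order of the lift is determined by the order of the image (cyclic version) -/
theorem br_order (M : Subgroup G) [M.Normal]
    (hcycM : ∀ p : ℕ, p.Prime → p ∣ Nat.card M → p ∣ M.index →
      ∀ P : Sylow p G, IsCyclic ↥(P : Subgroup G))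
    (Ā : Subgroup (G ⧸ M)) (A₀ : Subgroup G) (hmap : A₀.map (QuotientGroup.mk' M) = Ā)
    (hpr : ∀ p : ℕ, p.Prime → p ∣ Nat.card A₀ → p ∣ Nat.card Ā) (p : ℕ) (hpp : p.Prime) :
    (Nat.card A₀).factorization p = (Nat.card Ā).factorization p +
      (if p ∣ Nat.card Ā then (Nat.card M).factorization p else 0) := by
  classical
  haveI : Fact p.Prime := ⟨hpp⟩
  have hn0 : Nat.card Ā ≠ 0 := Nat.card_pos.ne'
  have hne : ∀ K : Subgroup G, Nat.card K ≠ 0 := fun K => Nat.card_pos.ne'
  have hnidx : Nat.card Ā ∣ M.index := by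
    have h1 := Subgroup.card_subgroup_dvd_card Ā
    rw [Subgroup.index_eq_card]
    exact h1
  have h1 := bq_card_map (QuotientGroup.mk' M) A₀
  rw [hmap, QuotientGroup.ker_mk'] at h1
  have h2 : (Nat.card A₀).factorization p = (Nat.card Ā).factorization p +
      (Nat.card (A₀ ⊓ M : Subgroup G)).factorization p := by
    rw [← h1, Nat.factorization_mul hn0 (hne _), Finsupp.add_apply]
  by_cases hpn : p ∣ Nat.card Ā
  · rw [if_pos hpn, h2]
    congr 1
    have h3 : (Nat.card (A₀ ⊓ M : Subgroup G)).factorization p ≤ (Nat.card M).factorization p :=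
      (Nat.factorization_le_iff_dvd (hne _) (hne _)).mpr
        (Subgroup.card_dvd_of_le inf_le_right) p
    by_cases hpM : p ∣ Nat.card M
    · have hcyc := hcycM p hpp hpM (dvd_trans hpn hnidx)
      have h4 : 1 ≤ (Nat.card Ā).factorization p :=
        (hpp.dvd_iff_one_le_factorization hn0).mp hpn
      have h5 := bq_key M A₀ p hcyc (by omega)
      omega
    · have h4 := Nat.factorization_eq_zero_of_not_dvd hpM
      omega
  · rw [if_neg hpn, add_zero]
    have h3 : ¬ p ∣ Nat.card A₀ := fun h => hpn (hpr p hpp h)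
    rw [Nat.factorization_eq_zero_of_not_dvd h3, Nat.factorization_eq_zero_of_not_dvd hpn]

/-- the property passes to quotients by normal subgroups whose common primes with the index
have cyclic Sylow subgroups -/
theorem br_final (hB : ∀ A B : Subgroup G, IsMulCommutative ↥A → IsMulCommutative ↥B →
      Nat.card ↥A = Nat.card ↥B → ∃ g : G, B = A.map (MulAut.conj g).toMonoidHom)
    (M : Subgroup G) [M.Normal]
    (hcycM : ∀ p : ℕ, p.Prime → p ∣ Nat.card M → p ∣ M.index →
      ∀ P : Sylow p G, IsCyclic ↥(P : Subgroup G))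
    (Ā Bq : Subgroup (G ⧸ M)) (hĀ : IsMulCommutative ↥Ā) (hBq : IsMulCommutative ↥Bq)
    (hcard : Nat.card ↥Ā = Nat.card ↥Bq) :
    ∃ g : G ⧸ M, Bq = Ā.map (MulAut.conj g).toMonoidHom := by
  classical
  obtain ⟨A₀, hA₀c, hA₀map, hA₀pr⟩ := br_main M hcycM Ā hĀ
  obtain ⟨B₀, hB₀c, hB₀map, hB₀pr⟩ := br_main M hcycM Bq hBq
  have heq : Nat.card A₀ = Nat.card B₀ := by
    apply Nat.eq_of_factorization_eq Nat.card_pos.ne' Nat.card_pos.ne'
    intro p
    by_cases hpp : p.Prime
    · rw [br_order M hcycM Ā A₀ hA₀map hA₀pr p hpp, br_order M hcycM Bq B₀ hB₀map hB₀pr p hpp,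
        hcard]
    · rw [Nat.factorization_eq_zero_of_not_prime _ hpp,
        Nat.factorization_eq_zero_of_not_prime _ hpp]
  obtain ⟨g, hg⟩ := hB A₀ B₀ hA₀c hB₀c heq
  refine ⟨QuotientGroup.mk' M g, ?_⟩
  have hcomp : (QuotientGroup.mk' M).comp (MulAut.conj g).toMonoidHom =
      (MulAut.conj (QuotientGroup.mk' M g)).toMonoidHom.comp (QuotientGroup.mk' M) := by
    ext x
    simp
  rw [← hB₀map, hg, ← hA₀map, Subgroup.map_map, Subgroup.map_map, hcomp]

end Cfsg.Agent.Helper37
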