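import Mathlib
import Cfsg.Agent.Helper37.Br1

set_option autoImplicit false

namespace Cfsg.Agent.Helper37

/-- a commutator power of order four in a generalized quaternion group of order at least 16 -/
theorem br_quat_comm (k : ℕ) (hk : 2 ≤ k) :
    ∃ u v : QuaternionGroup (2 ^ k), orderOf ((u * v * u⁻¹ * v⁻¹) ^ 2 ^ (k - 2)) = 4 := by
  haveI : NeZero (2 ^ k) := ⟨pow_ne_zero _ two_ne_zero⟩
  refine ⟨QuaternionGroup.a 1, QuaternionGroup.xa 0, ?_⟩
  have h1 : (QuaternionGroup.a 1 : QuaternionGroup (2 ^ k))⁻¹ = QuaternionGroup.a (-1) := rfl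
  have h2 : (QuaternionGroup.xa 0 : QuaternionGroup (2 ^ k))⁻¹ =
      QuaternionGroup.xa (((2 ^ k : ℕ) : ZMod (2 * 2 ^ k)) + 0) := rfl
  have h0 : ((2 * 2 ^ k : ℕ) : ZMod (2 * 2 ^ k)) = 0 := ZMod.natCast_self _
  have h3 : (QuaternionGroup.a 1 : QuaternionGroup (2 ^ k)) * QuaternionGroup.xa 0 *
      (QuaternionGroup.a 1)⁻¹ * (QuaternionGroup.xa 0)⁻¹ = QuaternionGroup.a 1 ^ 2 := by
    rw [h1, h2, QuaternionGroup.a_mul_xa, QuaternionGroup.xa_mul_a, QuaternionGroup.xa_mul_xa,
      QuaternionGroup.a_one_pow]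
    congr 1
    push_cast at h0 ⊢
    linear_combination h0
  obtain ⟨j, rfl⟩ : ∃ j, k = j + 2 := ⟨k - 2, by omega⟩
  have h4 : j + 2 - 2 = j := by omega
  rw [h3, h4, ← pow_mul, orderOf_pow' _ (by positivity), QuaternionGroup.orderOf_a_one]
  have h5 : 2 * 2 ^ (j + 2) = 4 * (2 * 2 ^ j) := by ring
  rw [h5, Nat.gcd_eq_right (Dvd.intro_left 4 rfl)]
  exact Nat.mul_div_cancel _ (by positivity)

variable {G : Type*} [Group G] [Finite G]

/-- a normal subgroup containing an element of order four contains every embedded quaternion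
group -/
theorem br_quat_le (hB : ∀ A B : Subgroup G, IsMulCommutative ↥A → IsMulCommutative ↥B →
      Nat.card ↥A = Nat.card ↥B → ∃ g : G, B = A.map (MulAut.conj g).toMonoidHom)
    (n : ℕ) [NeZero n] (ψ : QuaternionGroup n →* G) (hψ : Function.Injective ψ)
    (D : Subgroup G) [D.Normal] (d : G) (hd : d ∈ D) (hd4 : orderOf d = 4) :
    ∀ q, ψ q ∈ D := by
  have h4 : ∀ i, ψ (QuaternionGroup.xa i) ∈ D := by
    intro i
    apply (Cfsg.Agent.S3909.result hB D).1
    refine ⟨d, hd, ?_⟩
    rw [hd4, orderOf_injective ψ hψ, QuaternionGroup.orderOf_xa]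
  intro q
  cases q with
  | a i =>
    have h1 : (QuaternionGroup.a i : QuaternionGroup n) =
        QuaternionGroup.xa 0 * QuaternionGroup.xa (i - (n : ZMod (2 * n))) := by
      rw [QuaternionGroup.xa_mul_xa]
      congr 1
      ring
    rw [h1, map_mul]
    exact D.mul_mem (h4 _) (h4 _)
  | xa i => exact h4 i

/-- in a solvable group with conjugate abelian subgroups of equal order, an embedded generalized
quaternion group has order at most 8 -/
theorem br_quat (hB : ∀ A B : Subgroup G, IsMulCommutative ↥A → IsMulCommutative ↥B →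
      Nat.card ↥A = Nat.card ↥B → ∃ g : G, B = A.map (MulAut.conj g).toMonoidHom)
    (hsol : Group.IsSolvable G) (k : ℕ) (ψ : QuaternionGroup (2 ^ k) →* G)
    (hψ : Function.Injective ψ) : k ≤ 1 := by
  by_contra hk
  push Not at hk
  haveI : NeZero (2 ^ k) := ⟨pow_ne_zero _ two_ne_zero⟩
  have key : ∀ j : ℕ, ∀ q, ψ q ∈ derivedSeries G j := by
    intro j
    induction j with
    | zero =>
      intro q
      rw [derivedSeries_zero]
      exact Subgroup.mem_top _
    | succ j ih =>
      obtain ⟨u, v, huv⟩ := br_quat_comm k hk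
      have hmem : ψ ((u * v * u⁻¹ * v⁻¹) ^ 2 ^ (k - 2)) ∈ derivedSeries G (j + 1) := by
        rw [map_pow, derivedSeries_succ]
        apply Subgroup.pow_mem
        have h1 := Subgroup.commutator_mem_commutator (ih u) (ih v)
        rw [commutatorElement_def] at h1
        rw [map_mul, map_mul, map_mul, map_inv, map_inv]
        exact h1
      exact br_quat_le hB (2 ^ k) ψ hψ (derivedSeries G (j + 1)) _ hmem
        (by rw [orderOf_injective ψ hψ, huv])
  obtain ⟨r, hr⟩ := hsol.solvable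
  have h1 := key r (QuaternionGroup.xa 0)
  rw [hr, Subgroup.mem_bot] at h1
  have h2 : (QuaternionGroup.xa 0 : QuaternionGroup (2 ^ k)) = 1 := hψ (by rw [h1, map_one])
  have h3 := QuaternionGroup.orderOf_xa (n := 2 ^ k) 0
  rw [h2, orderOf_one] at h3
  omega

end Cfsg.Agent.Helper37
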