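import Mathlib
import Cfsg.Agent.Helper37.Br2
import Cfsg.Agent.Helper37.NilSym2

set_option autoImplicit false

namespace Cfsg.Agent.Helper37

variable {G : Type*} [Group G] [Finite G]

/-- a group of order `p ^ e` with `e ≤ 2` is commutative -/
theorem br_comm_sq (Q : Subgroup G) (p : ℕ) [Fact p.Prime] (e : ℕ) (he : e ≤ 2)
    (h : Nat.card Q = p ^ e) : ∀ a ∈ Q, ∀ b ∈ Q, a * b = b * a := by
  intro a ha b hb
  have hpp : p.Prime := Fact.out
  interval_cases e
  · rw [pow_zero] at h
    have h1 : Q = ⊥ := Subgroup.eq_bot_of_card_eq Q h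
    rw [h1, Subgroup.mem_bot] at ha hb
    rw [ha, hb]
  · rw [pow_one] at h
    haveI : IsCyclic ↥Q := isCyclic_of_prime_card h
    letI : CommGroup ↥Q := IsCyclic.commGroup
    exact congrArg Subtype.val (mul_comm (⟨a, ha⟩ : Q) ⟨b, hb⟩)
  · exact congrArg Subtype.val
      ((IsPGroup.isMulCommutative_of_card_eq_prime_sq h).is_comm.comm (⟨a, ha⟩ : Q) ⟨b, hb⟩)

/-- a normal subgroup of order two is central, of exponent two -/
theorem br_central (N : Subgroup G) [N.Normal] (hN : Nat.card N = 2) :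
    (∀ c ∈ N, c * c = 1) ∧ ∀ c ∈ N, ∀ g : G, g * c = c * g := by
  constructor
  · intro c hc
    have h1 : (⟨c, hc⟩ : N) ^ Nat.card N = 1 := pow_card_eq_one'
    rw [hN, pow_two] at h1
    exact congrArg Subtype.val h1
  · intro c hc g
    obtain ⟨y, hy1, hy2⟩ := (Nat.card_eq_two_iff' (1 : N)).mp hN
    by_cases hc1 : c = 1
    · rw [hc1, mul_one, one_mul]
    · have h1 : (⟨c, hc⟩ : N) = y := hy2 _ (fun h => hc1 (congrArg Subtype.val h))
      have hg : g * c * g⁻¹ ∈ N := ‹N.Normal›.conj_mem c hc g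
      have h2 : (⟨g * c * g⁻¹, hg⟩ : N) = y := by
        apply hy2
        intro h
        apply hc1
        have h3 : g * c * g⁻¹ = 1 := congrArg Subtype.val h
        have h4 : c = g⁻¹ * (g * c * g⁻¹) * g := by group
        rw [h4, h3]
        group
      have h4 : g * c * g⁻¹ = c := congrArg Subtype.val (h2.trans h1.symm)
      calc g * c = g * c * g⁻¹ * g := by group
        _ = c * g := by rw [h4]

/-- elements of odd order are central in a group that is abelian modulo a normal subgroup of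
order two -/
theorem br_odd_central (N : Subgroup G) [N.Normal] (hN : Nat.card N = 2) (X : Subgroup G)
    (hXN : ∀ a ∈ X, ∀ b ∈ X, a * b * a⁻¹ * b⁻¹ ∈ N) (o : G) (ho : o ∈ X)
    (hodd : Odd (orderOf o)) (x : G) (hx : x ∈ X) : o * x = x * o := by
  obtain ⟨hsq, hcen⟩ := br_central N hN
  obtain ⟨c, hcdef⟩ : ∃ c, c = o * x * o⁻¹ * x⁻¹ := ⟨_, rfl⟩
  have hcN : c ∈ N := by
    rw [hcdef]
    exact hXN o ho x hx
  have hox : o * x = c * x * o := by
    rw [hcdef]
    group
  have hc2 : ∀ i : ℕ, o ^ i * c = c * o ^ i := fun i => hcen c hcN (o ^ i)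
  have hpow : ∀ j : ℕ, o ^ j * x = c ^ j * x * o ^ j := by
    intro j
    induction j with
    | zero => simp
    | succ j ih =>
      calc o ^ (j + 1) * x = o ^ j * (o * x) := by rw [pow_succ, mul_assoc]
        _ = o ^ j * (c * x * o) := by rw [hox]
        _ = (o ^ j * c) * x * o := by simp only [mul_assoc]
        _ = c * (o ^ j * x) * o := by rw [hc2]; simp only [mul_assoc]
        _ = c * (c ^ j * x * o ^ j) * o := by rw [ih]
        _ = c ^ (j + 1) * x * o ^ (j + 1) := by
          rw [pow_succ', pow_succ]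
          simp only [mul_assoc]
  have h1 := hpow (orderOf o)
  rw [pow_orderOf_eq_one, one_mul, mul_one] at h1
  have h2 : c ^ orderOf o = 1 := by
    have h3 : c ^ orderOf o * x = 1 * x := by
      rw [one_mul]
      exact h1.symm
    exact mul_right_cancel h3
  obtain ⟨i, hi⟩ := hodd
  rw [hi, pow_succ, pow_mul, pow_two, hsq c hcN, one_pow, one_mul] at h2
  rw [h2, one_mul] at hox
  exact hox

/-- the structure of a subgroup that is abelian modulo a normal subgroup of order two -/
theorem br_two_struct (N : Subgroup G) [N.Normal] (hN : Nat.card N = 2) (X : Subgroup G)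
    (hXN : ∀ a ∈ X, ∀ b ∈ X, a * b * a⁻¹ * b⁻¹ ∈ N) :
    ∃ Q O : Subgroup G, Q ≤ X ∧ O ≤ X ∧ Nat.card Q = 2 ^ (Nat.card X).factorization 2 ∧
      Nat.card Q * Nat.card O = Nat.card X ∧ Q ⊔ O = X ∧
      ∀ o ∈ O, ∀ x ∈ X, o * x = x * o := by
  classical
  haveI : Fact (Nat.Prime 2) := ⟨Nat.prime_two⟩
  have hNp : IsPGroup 2 (N.subgroupOf X) := by
    have h1 : IsPGroup 2 N := IsPGroup.of_card (n := 1) (by rw [hN, pow_one])
    exact h1.comap_subtype
  obtain ⟨Q₀, hNQ₀⟩ := hNp.exists_le_sylow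
  haveI hnorm : (Q₀ : Subgroup ↥X).Normal := by
    refine ⟨fun q hq x => ?_⟩
    have h1 : x * q * x⁻¹ = q * (q⁻¹ * x * q * x⁻¹) := by group
    rw [h1]
    apply Subgroup.mul_mem _ hq
    apply hNQ₀
    rw [Subgroup.mem_subgroupOf]
    have h2 := hXN (q⁻¹ : ↥X) (q⁻¹ : ↥X).2 x x.2
    simpa using h2
  obtain ⟨H, hH⟩ := Subgroup.exists_right_complement'_of_coprime (Sylow.card_coprime_index Q₀)
  have hQcard : Nat.card ((Q₀ : Subgroup ↥X).map X.subtype) =
      2 ^ (Nat.card X).factorization 2 := by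
    rw [← Sylow.card_eq_multiplicity Q₀]
    exact Subgroup.card_map_of_injective X.subtype_injective
  have hmul : Nat.card ((Q₀ : Subgroup ↥X).map X.subtype) * Nat.card (H.map X.subtype) =
      Nat.card X := by
    rw [Subgroup.card_map_of_injective X.subtype_injective,
      Subgroup.card_map_of_injective X.subtype_injective]
    exact hH.card_mul_card
  refine ⟨(Q₀ : Subgroup ↥X).map X.subtype, H.map X.subtype, Subgroup.map_subtype_le _,
    Subgroup.map_subtype_le _, hQcard, hmul, ?_, ?_⟩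
  · rw [← Subgroup.map_sup, hH.sup_eq_top, ← MonoidHom.range_eq_map, Subgroup.range_subtype]
  · intro o ho x hx
    have hOodd : Odd (Nat.card (H.map X.subtype)) := by
      rw [← Nat.not_even_iff_odd, even_iff_two_dvd]
      intro h2
      have h3 : (Nat.card X).factorization 2 =
          (Nat.card X).factorization 2 + (Nat.card (H.map X.subtype)).factorization 2 := by
        conv_lhs => rw [← hmul, hQcard]
        rw [Nat.factorization_mul (pow_ne_zero _ two_ne_zero) Nat.card_pos.ne',
          Finsupp.add_apply, Nat.Prime.factorization_pow Nat.prime_two, Finsupp.single_eq_same]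
      have h4 : 1 ≤ (Nat.card (H.map X.subtype)).factorization 2 :=
        (Nat.prime_two.dvd_iff_one_le_factorization Nat.card_pos.ne').mp h2
      omega
    have hoo : Odd (orderOf o) := by
      have h5 := orderOf_dvd_natCard (⟨o, ho⟩ : H.map X.subtype)
      rw [Subgroup.orderOf_mk] at h5
      exact Odd.of_dvd_nat hOodd h5
    exact br_odd_central N hN X hXN o (Subgroup.map_subtype_le _ ho) hoo x hx

/-- two Sylow subgroups inside a common subgroup are conjugate there -/
theorem br_sylow_conj (C Q₁ Q₂ : Subgroup G) (p : ℕ) [Fact p.Prime] (h₁ : Q₁ ≤ C)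
    (h₂ : Q₂ ≤ C) (hc₁ : Nat.card Q₁ = p ^ (Nat.card G).factorization p)
    (hc₂ : Nat.card Q₂ = p ^ (Nat.card G).factorization p) :
    ∃ c ∈ C, Q₂ = Q₁.map (MulAut.conj c).toMonoidHom := by
  have hpp : p.Prime := Fact.out
  have hfac : (Nat.card C).factorization p = (Nat.card G).factorization p := by
    apply le_antisymm
    · exact (Nat.factorization_le_iff_dvd Nat.card_pos.ne' Nat.card_pos.ne').mpr
        (Subgroup.card_subgroup_dvd_card C) p
    · have h3 := Subgroup.card_dvd_of_le h₁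
      rw [hc₁] at h3
      exact (hpp.pow_dvd_iff_le_factorization Nat.card_pos.ne').mp h3
  have key : ∀ Q : Subgroup G, Q ≤ C → Nat.card Q = p ^ (Nat.card G).factorization p →
      Nat.card (Q.subgroupOf C) = p ^ (Nat.card C).factorization p := by
    intro Q hQ hc
    rw [Nat.card_congr (Subgroup.subgroupOfEquivOfLe hQ).toEquiv, hfac, hc]
  let S₁ : Sylow p ↥C := Sylow.ofCard (Q₁.subgroupOf C) (key Q₁ h₁ hc₁)
  let S₂ : Sylow p ↥C := Sylow.ofCard (Q₂.subgroupOf C) (key Q₂ h₂ hc₂)
  obtain ⟨τ, hτ⟩ := MulAction.exists_smul_eq ↥C S₁ S₂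
  have h5 := map_conj_of_sylow_smul S₁ S₂ τ hτ
  refine ⟨τ.1, τ.2, ?_⟩
  have h6 : (Q₂.subgroupOf C) = (Q₁.subgroupOf C).map (MulAut.conj τ).toMonoidHom := h5
  have h7 := congrArg (Subgroup.map C.subtype) h6
  rw [Subgroup.subgroupOf_map_subtype, inf_eq_left.mpr h₂, Subgroup.map_map] at h7
  rw [h7]
  have h8 : C.subtype.comp (MulAut.conj τ).toMonoidHom =
      (MulAut.conj τ.1).toMonoidHom.comp C.subtype := by
    ext x
    simp [MulAut.conj_apply]
  rw [h8, ← Subgroup.map_map, Subgroup.subgroupOf_map_subtype, inf_eq_left.mpr h₁]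

/-- the property passes to the quotient by a normal subgroup of order two when the Sylow
`2`-subgroups have order at most eight -/
theorem br_two (hB : ∀ A B : Subgroup G, IsMulCommutative ↥A → IsMulCommutative ↥B →
      Nat.card ↥A = Nat.card ↥B → ∃ g : G, B = A.map (MulAut.conj g).toMonoidHom)
    (N : Subgroup G) [N.Normal] (hN : Nat.card N = 2)
    (h3 : (Nat.card G).factorization 2 ≤ 3)
    (Ā Bq : Subgroup (G ⧸ N)) (hĀ : IsMulCommutative ↥Ā) (hBq : IsMulCommutative ↥Bq)
    (hcard : Nat.card ↥Ā = Nat.card ↥Bq) :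
    ∃ g : G ⧸ N, Bq = Ā.map (MulAut.conj g).toMonoidHom := by
  classical
  haveI : Fact (Nat.Prime 2) := ⟨Nat.prime_two⟩
  obtain ⟨f, hfdef⟩ : ∃ f : G →* G ⧸ N, f = QuotientGroup.mk' N := ⟨_, rfl⟩
  have hker : f.ker = N := by
    rw [hfdef]
    exact QuotientGroup.ker_mk' N
  have hsurj : Function.Surjective f := by
    rw [hfdef]
    exact QuotientGroup.mk'_surjective N
  have hmemN : ∀ x : G, f x = 1 → x ∈ N := by
    intro x hx
    have h0 : x ∈ f.ker := MonoidHom.mem_ker.mpr hx
    rw [hker] at h0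
    exact h0
  have hNmem : ∀ x ∈ N, f x = 1 := by
    intro x hx
    have h0 : x ∈ f.ker := by
      rw [hker]
      exact hx
    exact MonoidHom.mem_ker.mp h0
  have hpre : ∀ D : Subgroup (G ⧸ N), IsMulCommutative ↥D →
      ((D.comap f).map f = D) ∧ Nat.card (D.comap f) = Nat.card D * 2 ∧
      (∀ a ∈ D.comap f, ∀ b ∈ D.comap f, a * b * a⁻¹ * b⁻¹ ∈ N) := by
    intro D hD
    have hmap : (D.comap f).map f = D := Subgroup.map_comap_eq_self_of_surjective hsurj D
    refine ⟨hmap, ?_, ?_⟩
    · have h1 := bq_card_map f (D.comap f)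
      have h2 : D.comap f ⊓ f.ker = N := by
        rw [hker, inf_eq_right]
        intro m hm
        rw [Subgroup.mem_comap, hNmem m hm]
        exact D.one_mem
      rw [hmap, h2, hN] at h1
      exact h1.symm
    · intro a ha b hb
      apply hmemN
      rw [Subgroup.mem_comap] at ha hb
      have hc : f a * f b = f b * f a := by
        have h1 := mul_comm' (⟨f a, ha⟩ : D) ⟨f b, hb⟩
        exact congrArg Subtype.val h1
      rw [map_mul, map_mul, map_mul, map_inv, map_inv, hc]
      group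
  obtain ⟨hAmap, hAcard, hAN⟩ := hpre Ā hĀ
  obtain ⟨hBmap, hBcard, hBN⟩ := hpre Bq hBq
  obtain ⟨XA, hXA⟩ : ∃ XA : Subgroup G, XA = Ā.comap f := ⟨_, rfl⟩
  obtain ⟨XB, hXB⟩ : ∃ XB : Subgroup G, XB = Bq.comap f := ⟨_, rfl⟩
  rw [← hXA] at hAmap hAcard hAN
  rw [← hXB] at hBmap hBcard hBN
  have hXcard : Nat.card XA = Nat.card XB := by rw [hAcard, hBcard, hcard]
  obtain ⟨QA, OA, hQAX, hOAX, hQAcard, hAmul, hAsup, hOAc⟩ := br_two_struct N hN XA hAN
  obtain ⟨QB, OB, hQBX, hOBX, hQBcard, hBmul, hBsup, hOBc⟩ := br_two_struct N hN XB hBN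
  have hfinal : ∀ g : G, XB = XA.map (MulAut.conj g).toMonoidHom →
      ∃ g : G ⧸ N, Bq = Ā.map (MulAut.conj g).toMonoidHom := by
    intro g hg
    refine ⟨f g, ?_⟩
    have hcomp : f.comp (MulAut.conj g).toMonoidHom =
        (MulAut.conj (f g)).toMonoidHom.comp f := by
      ext x
      simp
    rw [← hBmap, hg, ← hAmap, Subgroup.map_map, Subgroup.map_map, hcomp]
  by_cases he : (Nat.card XA).factorization 2 ≤ 2
  · have hcomm : ∀ (Q O X : Subgroup G) (e : ℕ), e ≤ 2 → Nat.card Q = 2 ^ e → Q ≤ X →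
        Q ⊔ O = X → (∀ o ∈ O, ∀ x ∈ X, o * x = x * o) → O ≤ X → IsMulCommutative ↥X := by
      intro Q O X e he hQ hQX hsup hOc hOX
      have h1 : IsMulCommutative ↥(Subgroup.closure ((Q : Set G) ∪ (O : Set G))) := by
        apply Subgroup.isMulCommutative_closure
        intro x hx y hy
        rcases hx with hx | hx
        · rcases hy with hy | hy
          · exact br_comm_sq Q 2 e he hQ x hx y hy
          · exact (hOc y hy x (hQX hx)).symm
        · rcases hy with hy | hy
          · exact hOc x hx y (hQX hy)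
          · exact hOc x hx y (hOX hy)
      have h2 : Subgroup.closure ((Q : Set G) ∪ (O : Set G)) = X := by
        rw [Subgroup.closure_union, Subgroup.closure_eq, Subgroup.closure_eq, hsup]
      rw [h2] at h1
      exact h1
    have hXAc := hcomm QA OA XA _ he hQAcard hQAX hAsup hOAc hOAX
    have hXBc := hcomm QB OB XB _ (by rw [← hXcard]; exact he) hQBcard hQBX hBsup hOBc hOBX
    obtain ⟨g, hg⟩ := hB XA XB hXAc hXBc hXcard
    exact hfinal g hg
  · push Not at he
    have hfacA : (Nat.card XA).factorization 2 = (Nat.card G).factorization 2 := by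
      have h1 : (Nat.card XA).factorization 2 ≤ (Nat.card G).factorization 2 :=
        (Nat.factorization_le_iff_dvd Nat.card_pos.ne' Nat.card_pos.ne').mpr
          (Subgroup.card_subgroup_dvd_card XA) 2
      omega
    have hQA8 : Nat.card QA = 2 ^ (Nat.card G).factorization 2 := by rw [hQAcard, hfacA]
    have hQB8 : Nat.card QB = 2 ^ (Nat.card G).factorization 2 := by
      rw [hQBcard, ← hXcard, hfacA]
    have hOcard : Nat.card OA = Nat.card OB := by
      have h1 : Nat.card QA * Nat.card OA = Nat.card QB * Nat.card OB := by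
        rw [hAmul, hBmul, hXcard]
      rw [hQA8, hQB8] at h1
      exact Nat.eq_of_mul_eq_mul_left (pow_pos (by norm_num) _) h1
    have hOAcomm : IsMulCommutative ↥OA :=
      ⟨⟨fun a b => Subtype.ext (hOAc a a.2 b (hOAX b.2))⟩⟩
    have hOBcomm : IsMulCommutative ↥OB :=
      ⟨⟨fun a b => Subtype.ext (hOBc a a.2 b (hOBX b.2))⟩⟩
    obtain ⟨g, hg⟩ := hB OA OB hOAcomm hOBcomm hOcard
    obtain ⟨Q', hQ'def⟩ : ∃ Q' : Subgroup G, Q' = QA.map (MulAut.conj g).toMonoidHom :=
      ⟨_, rfl⟩
    have hQ'C : Q' ≤ Subgroup.centralizer (OB : Set G) := by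
      intro x hx
      rw [hQ'def] at hx
      obtain ⟨q, hq, rfl⟩ := hx
      rw [Subgroup.mem_centralizer_iff]
      intro o ho
      have ho' : o ∈ OA.map (MulAut.conj g).toMonoidHom := by
        rw [← hg]
        exact ho
      obtain ⟨o₀, ho₀, rfl⟩ := ho'
      have h1 := hOAc o₀ ho₀ q (hQAX hq)
      simp only [MulEquiv.coe_toMonoidHom, MulAut.conj_apply]
      calc g * o₀ * g⁻¹ * (g * q * g⁻¹) = g * (o₀ * q) * g⁻¹ := by group
        _ = g * (q * o₀) * g⁻¹ := by rw [h1]
        _ = g * q * g⁻¹ * (g * o₀ * g⁻¹) := by group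
    have hQBC : QB ≤ Subgroup.centralizer (OB : Set G) := by
      intro q hq
      rw [Subgroup.mem_centralizer_iff]
      intro o ho
      exact hOBc o ho q (hQBX hq)
    have hQ'card : Nat.card Q' = 2 ^ (Nat.card G).factorization 2 := by
      rw [hQ'def, Subgroup.card_map_of_injective (MulAut.conj g).injective, hQA8]
    obtain ⟨c, hcC, hc⟩ := br_sylow_conj (Subgroup.centralizer (OB : Set G)) Q' QB 2 hQ'C hQBC
      hQ'card hQB8
    apply hfinal (c * g)
    have hmapmul : ∀ K : Subgroup G, K.map (MulAut.conj (c * g)).toMonoidHom =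
        (K.map (MulAut.conj g).toMonoidHom).map (MulAut.conj c).toMonoidHom := by
      intro K
      have h9 : (MulAut.conj (c * g)).toMonoidHom =
          (MulAut.conj c).toMonoidHom.comp (MulAut.conj g).toMonoidHom := by
        ext x
        simp [MulAut.conj_apply, mul_assoc]
      rw [Subgroup.map_map, h9]
    have hOBfix : OB = OB.map (MulAut.conj c).toMonoidHom := by
      ext x
      constructor
      · intro hx
        refine ⟨x, hx, ?_⟩
        simp only [MulEquiv.coe_toMonoidHom, MulAut.conj_apply]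
        have h1 := Subgroup.mem_centralizer_iff.mp hcC x hx
        rw [← h1, mul_inv_cancel_right]
      · rintro ⟨y, hy, rfl⟩
        simp only [MulEquiv.coe_toMonoidHom, MulAut.conj_apply]
        have h1 := Subgroup.mem_centralizer_iff.mp hcC y hy
        rw [← h1, mul_inv_cancel_right]
        exact hy
    rw [← hAsup, Subgroup.map_sup, ← hBsup, hmapmul QA, hmapmul OA, ← hQ'def, ← hg, ← hc,
      ← hOBfix]

end Cfsg.Agent.Helper37
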