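import Mathlib
import Cfsg.Agent.Helper37.Br3
import Cfsg.Agent.S3911

set_option autoImplicit false

open scoped commutatorElement

namespace Cfsg.Agent.Helper37

universe u

/-- abelian subgroups of equal order are conjugate -/
def BrProp (G : Type*) [Group G] : Prop :=
  ∀ A B : Subgroup G, IsMulCommutative ↥A → IsMulCommutative ↥B →
    Nat.card ↥A = Nat.card ↥B → ∃ g : G, B = A.map (MulAut.conj g).toMonoidHom

/-- the property is invariant under isomorphism -/
theorem br_equiv {H₁ H₂ : Type*} [Group H₁] [Group H₂] (e : H₁ ≃* H₂) (h : BrProp H₁) :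
    BrProp H₂ := by
  intro A B hA hB hc
  haveI := hA
  haveI := hB
  obtain ⟨g, hg⟩ := h (A.map e.symm.toMonoidHom) (B.map e.symm.toMonoidHom) inferInstance
    inferInstance (by
      rw [Subgroup.card_map_of_injective e.symm.injective,
        Subgroup.card_map_of_injective e.symm.injective, hc])
  refine ⟨e g, ?_⟩
  have hB2 : B = (B.map e.symm.toMonoidHom).map e.toMonoidHom := by
    rw [Subgroup.map_map]
    have h1 : e.toMonoidHom.comp e.symm.toMonoidHom = MonoidHom.id H₂ := by
      ext x
      simp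
    rw [h1, Subgroup.map_id]
  rw [hB2, hg, Subgroup.map_map, Subgroup.map_map]
  congr 1
  ext x
  simp

variable {G : Type*} [Group G] [Finite G]

/-- a subgroup containing a full Sylow subgroup has index prime to `p` -/
theorem br_not_dvd_index (M : Subgroup G) (p : ℕ) [Fact p.Prime] (K : Subgroup G)
    (hK : Nat.card K = p ^ (Nat.card G).factorization p) (hKM : K ≤ M) : ¬ p ∣ M.index := by
  have hpp : p.Prime := Fact.out
  intro hpi
  have h1 := Subgroup.card_dvd_of_le hKM
  rw [hK] at h1
  have hin : M.index ≠ 0 := Subgroup.index_ne_zero_of_finite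
  have h2 := M.card_mul_index
  have h3 : (Nat.card G).factorization p =
      (Nat.card M).factorization p + (M.index).factorization p := by
    rw [← h2, Nat.factorization_mul Nat.card_pos.ne' hin, Finsupp.add_apply]
  have h4 : (Nat.card G).factorization p ≤ (Nat.card M).factorization p :=
    (hpp.pow_dvd_iff_le_factorization Nat.card_pos.ne').mp h1
  have h5 : 1 ≤ (M.index).factorization p :=
    (hpp.dvd_iff_one_le_factorization hin).mp hpi
  omega

/-- a nontrivial normal subgroup of a solvable group contains a nontrivial abelian subgroup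
that is normal in the whole group -/
theorem br_abel_normal (hsol : Group.IsSolvable G) (M : Subgroup G) [M.Normal] (hM : M ≠ ⊥) :
    ∃ N : Subgroup G, N.Normal ∧ N ≤ M ∧ N ≠ ⊥ ∧ ∀ a ∈ N, ∀ b ∈ N, a * b = b * a := by
  classical
  obtain ⟨r, hr⟩ := hsol.solvable
  have hex : ∃ j, M ⊓ derivedSeries G j = ⊥ := ⟨r, by rw [hr, inf_bot_eq]⟩
  obtain ⟨j, hj, hmin⟩ : ∃ j, M ⊓ derivedSeries G j = ⊥ ∧
      ∀ i < j, M ⊓ derivedSeries G i ≠ ⊥ :=
    ⟨Nat.find hex, Nat.find_spec hex, fun i hi => Nat.find_min hex hi⟩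
  cases j with
  | zero =>
    exfalso
    rw [derivedSeries_zero, inf_top_eq] at hj
    exact hM hj
  | succ j =>
    refine ⟨M ⊓ derivedSeries G j, inferInstance, inf_le_left, hmin j (Nat.lt_succ_self j), ?_⟩
    intro a ha b hb
    have h1 : ⁅a, b⁆ ∈ M ⊓ derivedSeries G (j + 1) := by
      refine ⟨?_, ?_⟩
      · rw [commutatorElement_def]
        exact M.mul_mem (M.mul_mem (M.mul_mem ha.1 hb.1) (M.inv_mem ha.1)) (M.inv_mem hb.1)
      · rw [derivedSeries_succ]
        exact Subgroup.commutator_mem_commutator ha.2 hb.2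
    rw [hj, Subgroup.mem_bot] at h1
    exact commutatorElement_eq_one_iff_mul_comm.mp h1

/-- the subgroup of elements of order at most two in an abelian normal subgroup -/
theorem br_omega (N : Subgroup G) [N.Normal] (hNc : ∀ a ∈ N, ∀ b ∈ N, a * b = b * a)
    (heven : 2 ∣ Nat.card N) :
    ∃ N₂ : Subgroup G, N₂.Normal ∧ N₂ ≤ N ∧ N₂ ≠ ⊥ ∧ IsMulCommutative ↥N₂ ∧
      (∀ a ∈ N₂, a ^ 2 = 1) ∧ ∃ t : ℕ, 1 ≤ t ∧ Nat.card N₂ = 2 ^ t := by
  classical
  haveI : Fact (Nat.Prime 2) := ⟨Nat.prime_two⟩
  obtain ⟨N₂, hN₂⟩ : ∃ N₂ : Subgroup G, ∀ x, x ∈ N₂ ↔ x ∈ N ∧ x ^ 2 = 1 := by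
    refine ⟨⟨⟨⟨{x | x ∈ N ∧ x ^ 2 = 1}, ?_⟩, ?_⟩, ?_⟩, fun x => Iff.rfl⟩
    · rintro a b ⟨ha, ha'⟩ ⟨hb, hb'⟩
      refine ⟨N.mul_mem ha hb, ?_⟩
      have hcomm : Commute a b := hNc a ha b hb
      rw [hcomm.mul_pow, ha', hb', one_mul]
    · exact ⟨N.one_mem, one_pow _⟩
    · rintro a ⟨ha, ha'⟩
      exact ⟨N.inv_mem ha, by rw [inv_pow, ha', inv_one]⟩
  have hle : N₂ ≤ N := fun x hx => ((hN₂ x).mp hx).1
  have hexp : ∀ a ∈ N₂, a ^ 2 = 1 := fun x hx => ((hN₂ x).mp hx).2
  have hne : N₂ ≠ ⊥ := by
    obtain ⟨x, hx⟩ := exists_prime_orderOf_dvd_card' 2 heven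
    have hx' : orderOf (x : G) = 2 := by
      rw [Subgroup.orderOf_coe]
      exact hx
    intro hbot
    have h1 : (x : G) ∈ N₂ := (hN₂ _).mpr ⟨x.2, by rw [← hx', pow_orderOf_eq_one]⟩
    rw [hbot, Subgroup.mem_bot] at h1
    rw [h1, orderOf_one] at hx'
    omega
  have hpg : IsPGroup 2 N₂ := by
    intro g
    refine ⟨1, ?_⟩
    apply Subtype.ext
    rw [pow_one]
    exact hexp g g.2
  obtain ⟨t, ht⟩ := IsPGroup.iff_card.mp hpg
  refine ⟨N₂, ⟨fun x hx g => ?_⟩, hle, hne, ⟨⟨fun a b => Subtype.ext (hNc a (hle a.2) b (hle b.2))⟩⟩,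
    hexp, t, ?_, ht⟩
  · refine (hN₂ _).mpr ⟨‹N.Normal›.conj_mem x (hle hx) g, ?_⟩
    rw [conj_pow, hexp x hx, mul_one, mul_inv_cancel]
  · by_contra h0
    have h1 : t = 0 := by omega
    rw [h1, pow_zero] at ht
    exact hne (Subgroup.eq_bot_of_card_eq N₂ ht)

/-- the induction: quotients of solvable groups keep the property -/
theorem br_ind (n : ℕ) : ∀ (G : Type u) [Group G] [Finite G], Nat.card G = n → BrProp G →
    Group.IsSolvable G → ∀ (M : Subgroup G) [M.Normal], BrProp (G ⧸ M) := by
  induction n using Nat.strong_induction_on with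
  | _ n ih =>
    intro G _ _ hcard hB hsol M _
    classical
    by_cases hA : ∀ p : ℕ, p.Prime → p ∣ Nat.card M → p ∣ M.index →
        ∀ P : Sylow p G, IsCyclic ↥(P : Subgroup G)
    · intro A B hA' hB' hc
      exact br_final hB M hA A B hA' hB' hc
    · push Not at hA
      obtain ⟨p, hpp, hpM, hpi, P, hP⟩ := hA
      haveI : Fact p.Prime := ⟨hpp⟩
      have hp2 : p = 2 := by
        by_contra hne
        exact hP (br_cyc hB M p hne hpM hpi P)
      subst hp2
      have hv3 : (Nat.card G).factorization 2 ≤ 3 := by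
        rcases (Cfsg.Agent.S3908.result hB).1 P with h | h | ⟨k, ⟨φ⟩⟩
        · exact absurd h hP
        · exfalso
          obtain ⟨m0, hm0⟩ := exists_prime_orderOf_dvd_card' 2 hpM
          have hm0' : orderOf (m0 : G) = 2 := by
            rw [Subgroup.orderOf_coe]
            exact hm0
          have hPM : (P : Subgroup G) ≤ M := by
            intro x hx
            by_cases hx1 : x = 1
            · rw [hx1]
              exact M.one_mem
            · have hox : orderOf x = 2 := orderOf_eq_prime (h.2 x hx) hx1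
              exact (Cfsg.Agent.S3909.result hB M).1 x ⟨m0, m0.2, by rw [hm0', hox]⟩
          exact br_not_dvd_index M 2 P (Sylow.card_eq_multiplicity P) hPM hpi
        · have hk := br_quat hB hsol k ((P : Subgroup G).subtype.comp φ.symm.toMonoidHom)
            ((P : Subgroup G).subtype_injective.comp φ.symm.injective)
          have hk1 : k = 1 := by
            by_contra hk1
            have hk0 : k = 0 := by omega
            subst hk0
            apply hP
            haveI := QuaternionGroup.quaternionGroup_one_isCyclic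
            exact φ.isCyclic.mpr inferInstance
          subst hk1
          have hc8 : Nat.card (P : Subgroup G) = 2 ^ 3 := by
            rw [Nat.card_congr φ.toEquiv, Nat.card_eq_fintype_card, QuaternionGroup.card]
            norm_num
          rw [Sylow.card_eq_multiplicity] at hc8
          have h3 := Nat.pow_right_injective (le_refl 2) hc8
          omega
      have hMbot : M ≠ ⊥ := by
        rintro rfl
        rw [Subgroup.card_bot] at hpM
        exact Nat.prime_two.one_lt.ne' (Nat.dvd_one.mp hpM)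
      obtain ⟨N, hNnorm, hNM, hNbot, hNcomm⟩ := br_abel_normal hsol M hMbot
      haveI := hNnorm
      obtain ⟨N', hN'norm, hN'M, hN'bot, hN'B⟩ : ∃ N' : Subgroup G, N'.Normal ∧ N' ≤ M ∧
          N' ≠ ⊥ ∧ ∀ hn : N'.Normal, BrProp (G ⧸ N') := by
        by_cases hodd : Odd (Nat.card N)
        · refine ⟨N, hNnorm, hNM, hNbot, fun hn => ?_⟩
          exact Cfsg.Agent.S3911.result hB N hodd
        · have heven : 2 ∣ Nat.card N := by
            rw [← even_iff_two_dvd, ← Nat.not_odd_iff_even]
            exact hodd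
          obtain ⟨N₂, hN₂norm, hN₂N, hN₂bot, hN₂comm, hN₂exp, t, ht1, ht⟩ :=
            br_omega N hNcomm heven
          haveI := hN₂norm
          refine ⟨N₂, hN₂norm, hN₂N.trans hNM, hN₂bot, fun hn => ?_⟩
          by_cases ht2 : 2 ≤ t
          · exfalso
            have h1 := (Cfsg.Agent.S3909.result hB N₂).2 2 t ht2 ht ⟨hN₂comm, hN₂exp⟩ P
            have h2 : (P : Subgroup G) ≤ M := by
              rw [h1]
              exact hN₂N.trans hNM
            exact br_not_dvd_index M 2 P (Sylow.card_eq_multiplicity P) h2 hpi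
          · have ht' : t = 1 := by omega
            rw [ht', pow_one] at ht
            intro A B hA' hB' hc
            exact br_two hB N₂ ht hv3 A B hA' hB' hc
      haveI := hN'norm
      have hlt : Nat.card (G ⧸ N') < n := by
        rw [← hcard, ← Subgroup.index_eq_card, ← N'.card_mul_index]
        have h1 : 1 < Nat.card N' := N'.one_lt_card_iff_ne_bot.mpr hN'bot
        have h2 : 0 < N'.index := Nat.pos_of_ne_zero Subgroup.index_ne_zero_of_finite
        nlinarith
      haveI : Group.IsSolvable G := hsol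
      have h1 := ih (Nat.card (G ⧸ N')) hlt (G ⧸ N') rfl (hN'B hN'norm) inferInstance
        (M.map (QuotientGroup.mk' N'))
      exact br_equiv (QuotientGroup.quotientQuotientEquivQuotient N' M hN'M) h1

/-- quotients of finite solvable groups in which abelian subgroups of equal order are conjugate
have the same property -/
theorem br_thm {G : Type u} [Group G] [Finite G] (hB : BrProp G) (hsol : Group.IsSolvable G)
    (M : Subgroup G) [M.Normal] : BrProp (G ⧸ M) :=
  br_ind (Nat.card G) G rfl hB hsol M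

end Cfsg.Agent.Helper37
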