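-- helper37 library: piece FIX2 of helper52's CALL S3413.
import Mathlib

set_option autoImplicit false

namespace Cfsg.Agent.Helper37

open Subgroup

theorem cgm_card_inf_centralizer_modEq {G : Type*} [Group G] [Finite G] (p : ℕ) [Fact p.Prime]
    (P : Subgroup G) (hP : IsPGroup p ↥P) (R : Subgroup G)
    (hR : ∀ x ∈ P, ∀ y ∈ R, x * y * x⁻¹ ∈ R) :
    Nat.card ↥(R ⊓ centralizer (P : Set G)) ≡ Nat.card ↥R [MOD p] := by
  letI : MulAction ↥P ↥R :=
    { smul := fun x y => ⟨(x : G) * (y : G) * (x : G)⁻¹, hR x x.2 y y.2⟩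
      one_smul := fun y => Subtype.ext (by
        show ((1 : ↥P) : G) * (y : G) * ((1 : ↥P) : G)⁻¹ = (y : G)
        simp)
      mul_smul := fun x x' y => Subtype.ext (by
        show ((x * x' : ↥P) : G) * (y : G) * ((x * x' : ↥P) : G)⁻¹
          = (x : G) * ((x' : G) * (y : G) * (x' : G)⁻¹) * (x : G)⁻¹
        simp only [Subgroup.coe_mul]
        group) }
  have hsmul : ∀ (x : ↥P) (y : ↥R), ((x • y : ↥R) : G) = (x : G) * (y : G) * (x : G)⁻¹ :=
    fun _ _ => rfl
  have h1 := hP.card_modEq_card_fixedPoints ↥R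
  have e : MulAction.fixedPoints ↥P ↥R ≃ ↥(R ⊓ centralizer (P : Set G)) :=
    { toFun := fun y => ⟨((y : ↥R) : G), (y : ↥R).2, by
        show ((y : ↥R) : G) ∈ centralizer (P : Set G)
        rw [mem_centralizer_iff]
        intro h hh
        have h2 : h * ((y : ↥R) : G) * h⁻¹ = ((y : ↥R) : G) := by
          have h3 := y.2 ⟨h, hh⟩
          have h4 := congrArg Subtype.val h3
          rw [hsmul] at h4
          exact h4
        calc h * ((y : ↥R) : G) = h * ((y : ↥R) : G) * h⁻¹ * h := by group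
          _ = ((y : ↥R) : G) * h := by rw [h2]⟩
      invFun := fun z => ⟨⟨(z : G), z.2.1⟩, fun x => Subtype.ext (by
        rw [hsmul]
        show (x : G) * (z : G) * (x : G)⁻¹ = (z : G)
        have h2 := mem_centralizer_iff.mp z.2.2 (x : G) x.2
        rw [h2]
        group)⟩
      left_inv := fun y => rfl
      right_inv := fun z => rfl }
  rw [← Nat.card_congr e]
  exact h1.symm

end Cfsg.Agent.Helper37
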