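-- helper37 library: piece FRAT of helper52's CALL S3413.
import Mathlib
import Cfsg.Agent.Helper37.CGMSYLP

set_option autoImplicit false

namespace Cfsg.Agent.Helper37

open Subgroup

theorem cgm_frattini_index {G : Type*} [Group G] [Finite G] (p : ℕ) [Fact p.Prime]
    (N : Subgroup G) [N.Normal] (hpN : p ∣ Nat.card ↥N) (hp2 : ¬ p ^ 2 ∣ Nat.card G) :
    ∃ P : Sylow p G, N.index ∣ Nat.card ↥(normalizer ((P : Subgroup G) : Set G)) := by
  have hNG : Nat.card ↥N ∣ Nat.card G := Subgroup.card_subgroup_dvd_card N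
  have hpG : p ∣ Nat.card G := hpN.trans hNG
  have hp2N : ¬ p ^ 2 ∣ Nat.card ↥N := fun h => hp2 (h.trans hNG)
  obtain ⟨Q⟩ : Nonempty (Sylow p ↥N) := inferInstance
  have hQc := cgm_sylow_card_prime p hpN hp2N Q
  have hfrat := Sylow.normalizer_sup_eq_top Q
  have hmapc : Nat.card ↥((Q : Subgroup ↥N).map N.subtype) = p := by
    rw [Subgroup.card_subtype, hQc]
  have hmp : IsPGroup p ↥((Q : Subgroup ↥N).map N.subtype) :=
    IsPGroup.of_card (n := 1) (by rw [hmapc, pow_one])
  obtain ⟨P, hP⟩ := hmp.exists_le_sylow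
  have hPc := cgm_sylow_card_prime p hpG hp2 P
  have hPeq : (Q : Subgroup ↥N).map N.subtype = (P : Subgroup G) :=
    Subgroup.eq_of_le_of_card_ge hP (by rw [hPc, hmapc])
  refine ⟨P, ?_⟩
  rw [← hPeq]
  have h1 : N.relIndex (normalizer (((Q : Subgroup ↥N).map N.subtype : Subgroup G) : Set G) ⊔ N)
      = N.relIndex (normalizer (((Q : Subgroup ↥N).map N.subtype : Subgroup G) : Set G)) :=
    Subgroup.relIndex_sup_right _ _
  rw [hfrat, Subgroup.relIndex_top_right] at h1
  rw [h1]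
  exact Subgroup.relIndex_dvd_card _ _

end Cfsg.Agent.Helper37
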