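-- helper37 library: piece KILL0 of helper52's CALL S3413.
import Mathlib
import Cfsg.Agent.Helper37.CGMFIX2

set_option autoImplicit false

namespace Cfsg.Agent.Helper37

open Subgroup

theorem cgm_kill_of_fix1 {G : Type*} [Group G] [Finite G] (p : ℕ) [Fact p.Prime] (P : Sylow p G)
    (N : Subgroup G) [N.Normal] (r : ℕ) [Fact r.Prime]
    (hr : r ∣ Nat.card ↥N)
    (hcop : Nat.Coprime r (Nat.card ↥(normalizer ((P : Subgroup G) : Set G))))
    (hfix1 : ∃ R : Subgroup G, R ≤ N ∧ Nat.card ↥R = r ^ (Nat.card ↥N).factorization r ∧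
      ∀ x ∈ (P : Subgroup G), ∀ y ∈ R, x * y * x⁻¹ ∈ R) :
    ∃ k : ℕ, 1 ≤ k ∧ r ^ k ∣ Nat.card ↥N ∧ r ^ k ≡ 1 [MOD p] := by
  have hrp : r.Prime := Fact.out
  obtain ⟨R, hRN, hRc, hRP⟩ := hfix1
  have hN0 : Nat.card ↥N ≠ 0 := Nat.card_pos.ne'
  refine ⟨(Nat.card ↥N).factorization r, hrp.factorization_pos_of_dvd hN0 hr,
    Nat.ordProj_dvd _ _, ?_⟩
  have h1 := cgm_card_inf_centralizer_modEq p (P : Subgroup G) P.isPGroup' R hRP
  rw [hRc] at h1
  have h2 : Nat.card ↥(R ⊓ centralizer ((P : Subgroup G) : Set G)) = 1 := by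
    have h3 : Nat.card ↥(R ⊓ centralizer ((P : Subgroup G) : Set G)) ∣
        r ^ (Nat.card ↥N).factorization r := by
      rw [← hRc]
      exact Subgroup.card_dvd_of_le inf_le_left
    have h4 : Nat.card ↥(R ⊓ centralizer ((P : Subgroup G) : Set G)) ∣
        Nat.card ↥(normalizer ((P : Subgroup G) : Set G)) :=
      Subgroup.card_dvd_of_le (inf_le_right.trans (Subgroup.centralizer_le_normalizer _))
    have h5 : Nat.Coprime (r ^ (Nat.card ↥N).factorization r)
        (Nat.card ↥(normalizer ((P : Subgroup G) : Set G))) := Nat.Coprime.pow_left _ hcop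
    exact Nat.eq_one_of_dvd_coprimes h5 h3 h4
  rw [h2] at h1
  exact h1.symm

end Cfsg.Agent.Helper37
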