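-- helper37 library: piece KILL of helper52's CALL S3413.
import Mathlib
import Cfsg.Agent.Helper37.CGMKILL0
import Cfsg.Agent.Helper52.CGMFIX1

set_option autoImplicit false

namespace Cfsg.Agent.Helper37

open Subgroup

/-- KILL -/
theorem cgm_kill {G : Type*} [Group G] [Finite G] (p : ℕ) [Fact p.Prime] (P : Sylow p G)
    (N : Subgroup G) [N.Normal] (hpN : ¬ p ∣ Nat.card ↥N) (r : ℕ) [Fact r.Prime]
    (hr : r ∣ Nat.card ↥N)
    (hcop : Nat.Coprime r (Nat.card ↥(normalizer ((P : Subgroup G) : Set G)))) :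
    ∃ k : ℕ, 1 ≤ k ∧ r ^ k ∣ Nat.card ↥N ∧ r ^ k ≡ 1 [MOD p] :=
  cgm_kill_of_fix1 p P N r hr hcop
    (Cfsg.Agent.Helper52.cgm_exists_invariant_sylow p (P : Subgroup G) P.isPGroup' N hpN r)

end Cfsg.Agent.Helper37
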