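-- helper37 library: piece NSYL of helper52's CALL S3413.
import Mathlib
import Cfsg.Agent.Helper37.CGMSYLP

set_option autoImplicit false

namespace Cfsg.Agent.Helper37

open Subgroup

theorem cgm_card_sylow_of_normal {G : Type*} [Group G] [Finite G] (p : ℕ) [Fact p.Prime]
    (hp2 : ¬ p ^ 2 ∣ Nat.card G) (N : Subgroup G) [N.Normal] (hN : Nat.card ↥N = p) :
    Nat.card (Sylow p G) = 1 := by
  have hpG : p ∣ Nat.card G := by
    rw [← hN]
    exact Subgroup.card_subgroup_dvd_card N
  have hNp : IsPGroup p ↥N := IsPGroup.of_card (n := 1) (by rw [hN, pow_one])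
  obtain ⟨Q, hQ⟩ := hNp.exists_le_sylow
  have hQc := cgm_sylow_card_prime p hpG hp2 Q
  have hNQ : N = (Q : Subgroup G) := Subgroup.eq_of_le_of_card_ge hQ (by rw [hQc, hN])
  have hQn : (Q : Subgroup G).Normal := by rw [← hNQ]; infer_instance
  haveI := Sylow.unique_of_normal Q hQn
  exact Nat.card_unique

end Cfsg.Agent.Helper37
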