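import Mathlib

set_option autoImplicit false

namespace Cfsg.Agent.Helper37

section ring
variable {R : Type*} [Ring R]

theorem dc_L2 (x y : R) (hx : x * x = 1) (hy : y * y = 1) (h : x * y + y * x = 0) :
    (x * y) * (x * y) = -1 := by
  have h' : y * x = -(x * y) := eq_neg_of_add_eq_zero_right h
  calc x * y * (x * y) = x * (y * x) * y := by noncomm_ring
    _ = x * (-(x * y)) * y := by rw [h']
    _ = -((x * x) * (y * y)) := by noncomm_ring
    _ = -1 := by rw [hx, hy, one_mul]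

theorem dc_L3 (x y : R) (hx : x * x = 1) (hy : y * y = 1) (h : x * y + y * x = -1) :
    (x * y) ^ 3 = 1 := by
  have h' : y * x = -1 - x * y := eq_sub_of_add_eq' h
  have hA : (x * y) * (x * y) = -(x * y) - 1 := by
    calc x * y * (x * y) = x * (y * x) * y := by noncomm_ring
      _ = x * (-1 - x * y) * y := by rw [h']
      _ = -(x * y) - (x * x) * (y * y) := by noncomm_ring
      _ = -(x * y) - 1 := by rw [hx, hy, one_mul]
  calc (x * y) ^ 3 = (x * y) * ((x * y) * (x * y)) := by noncomm_ring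
    _ = (x * y) * (-(x * y) - 1) := by rw [hA]
    _ = -((x * y) * (x * y)) - x * y := by noncomm_ring
    _ = -(-(x * y) - 1) - x * y := by rw [hA]
    _ = 1 := by noncomm_ring

/-- `a p a q = -(p q)` when `a` anticommutes with `p` -/
theorem dc_far (a p q : R) (ha : a * a = 1) (h : a * p + p * a = 0) :
    (a * p) * (a * q) = -(p * q) := by
  have h' : a * p = -(p * a) := eq_neg_of_add_eq_zero_left h
  calc a * p * (a * q) = (a * p) * a * q := by noncomm_ring
    _ = (-(p * a)) * a * q := by rw [h']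
    _ = -(p * (a * a) * q) := by noncomm_ring
    _ = -(p * q) := by rw [ha, mul_one]

/-- `a b a q = -((a+b) q)` when `ab + ba = -1` -/
theorem dc_near (a b q : R) (ha : a * a = 1) (h : a * b + b * a = -1) :
    (a * b) * (a * q) = -((a + b) * q) := by
  have h' : b * a = -1 - a * b := eq_sub_of_add_eq' h
  calc a * b * (a * q) = a * (b * a) * q := by noncomm_ring
    _ = a * (-1 - a * b) * q := by rw [h']
    _ = -(a * q) - (a * a) * b * q := by noncomm_ring
    _ = -((a + b) * q) := by rw [ha]; noncomm_ring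

theorem dc_w_sq (a b : R) (ha : a * a = 1) (hb : b * b = 1) (h : a * b + b * a = -1) :
    (a + b) * (a + b) = 1 := by
  calc (a + b) * (a + b) = a * a + b * b + (a * b + b * a) := by noncomm_ring
    _ = 1 := by rw [ha, hb, h]; abel

variable (s : ℕ → R) (N : ℕ)
  (R1 : ∀ i, i < N → s i * s i = 1)
  (R2 : ∀ i, i + 1 < N → s i * s (i + 1) + s (i + 1) * s i = -1)
  (R3 : ∀ i j, i + 1 < j → j < N → s i * s j + s j * s i = 0)

include R1 R2 R3

theorem dc_C0 (hN : 1 < N) : (s 0 * s 1) ^ 3 = 1 :=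
  dc_L3 _ _ (R1 0 (by omega)) (R1 1 hN) (R2 0 (by omega))

theorem dc_C1 (j : ℕ) (hj : 1 ≤ j) (hjN : j + 1 < N) :
    (s 0 * s (j + 1)) * (s 0 * s (j + 1)) = -1 :=
  dc_L2 _ _ (R1 0 (by omega)) (R1 _ hjN) (R3 0 (j + 1) (by omega) hjN)

theorem dc_C2 (i : ℕ) (hi : i + 2 < N) :
    ((s 0 * s (i + 1)) * (s 0 * s (i + 2))) ^ 3 = -1 := by
  rcases Nat.eq_zero_or_pos i with rfl | hpos
  · rw [dc_near _ _ _ (R1 0 (by omega)) (R2 0 (by omega)), Odd.neg_pow (by decide)]
    rw [dc_L3 _ _ (dc_w_sq _ _ (R1 0 (by omega)) (R1 1 (by omega)) (R2 0 (by omega)))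
      (R1 2 (by omega))]
    have e1 := R3 0 2 (by omega) (by omega)
    have e2 := R2 1 (by omega)
    calc (s 0 + s (0 + 1)) * s (0 + 2) + s (0 + 2) * (s 0 + s (0 + 1))
        = (s 0 * s 2 + s 2 * s 0) + (s 1 * s (1 + 1) + s (1 + 1) * s 1) := by noncomm_ring
      _ = -1 := by rw [e1, e2, zero_add]
  · rw [dc_far _ _ _ (R1 0 (by omega)) (R3 0 (i + 1) (by omega) (by omega)),
      Odd.neg_pow (by decide)]
    rw [dc_L3 _ _ (R1 _ (by omega)) (R1 _ (by omega)) (R2 (i + 1) (by omega))]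

theorem dc_C3 (i j : ℕ) (hij : i + 1 < j) (hj : j + 1 < N) :
    ((s 0 * s (i + 1)) * (s 0 * s (j + 1))) ^ 2 = -1 := by
  rcases Nat.eq_zero_or_pos i with rfl | hpos
  · rw [dc_near _ _ _ (R1 0 (by omega)) (R2 0 (by omega)), neg_pow_two, pow_two]
    apply dc_L2 _ _ (dc_w_sq _ _ (R1 0 (by omega)) (R1 1 (by omega)) (R2 0 (by omega)))
      (R1 _ (by omega))
    have e1 := R3 0 (j + 1) (by omega) (by omega)
    have e2 := R3 1 (j + 1) (by omega) (by omega)
    calc (s 0 + s (0 + 1)) * s (j + 1) + s (j + 1) * (s 0 + s (0 + 1))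
        = (s 0 * s (j + 1) + s (j + 1) * s 0) + (s 1 * s (j + 1) + s (j + 1) * s 1) := by
          noncomm_ring
      _ = 0 := by rw [e1, e2, zero_add]
  · rw [dc_far _ _ _ (R1 0 (by omega)) (R3 0 (i + 1) (by omega) (by omega)), neg_pow_two,
      pow_two]
    exact dc_L2 _ _ (R1 _ (by omega)) (R1 _ (by omega)) (R3 (i + 1) (j + 1) (by omega) hj)

end ring

end Cfsg.Agent.Helper37
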