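import Mathlib

set_option autoImplicit false

namespace Cfsg.Agent.Helper37

open CliffordAlgebra

/-- the quadratic form `-Σ xᵢ²` over `ZMod 3` -/
noncomputable def dcQ (n : ℕ) : QuadraticForm (ZMod 3) (Fin n → ZMod 3) :=
  QuadraticMap.weightedSumSquares (ZMod 3) (fun _ : Fin n => (-1 : ZMod 3))

theorem dcQ_apply (n : ℕ) (v : Fin n → ZMod 3) : dcQ n v = -(v ⬝ᵥ v) := by
  unfold dcQ
  rw [QuadraticMap.weightedSumSquares_apply, dotProduct, ← Finset.sum_neg_distrib]
  apply Finset.sum_congr rfl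
  intro i _
  simp

theorem dcQ_polar (n : ℕ) (u v : Fin n → ZMod 3) : QuadraticMap.polar (dcQ n) u v = u ⬝ᵥ v := by
  unfold QuadraticMap.polar
  rw [dcQ_apply, dcQ_apply, dcQ_apply, add_dotProduct, dotProduct_add, dotProduct_add,
    dotProduct_comm v u]
  have h3 : (3 : ZMod 3) = 0 := by decide
  linear_combination (-(u ⬝ᵥ v)) * h3

instance : Invertible (2 : ZMod 3) := ⟨2, by decide, by decide⟩

/-- the basic reflections (junk value `1` out of range) -/
noncomputable def dcS (n : ℕ) (i : ℕ) : CliffordAlgebra (dcQ n) :=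
  if h : i + 1 < n then ι (dcQ n) (Pi.single ⟨i, by omega⟩ 1 - Pi.single ⟨i + 1, h⟩ 1) else 1

theorem dcS_anti (n : ℕ) (i j : ℕ) (hi : i + 1 < n) (hj : j + 1 < n) :
    dcS n i * dcS n j + dcS n j * dcS n i = algebraMap (ZMod 3) _
      ((if i = j then 1 else 0) - (if i = j + 1 then 1 else 0) - (if i + 1 = j then 1 else 0)
        + (if i + 1 = j + 1 then 1 else 0)) := by
  unfold dcS
  rw [dif_pos hi, dif_pos hj, ι_mul_ι_add_swap, dcQ_polar]
  congr 1
  simp only [sub_dotProduct, dotProduct_sub, single_one_dotProduct, Pi.single_apply,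
    Fin.mk.injEq]
  ring

theorem dcS_sq (n : ℕ) (i : ℕ) (hi : i + 1 < n) : dcS n i * dcS n i = 1 := by
  unfold dcS
  rw [dif_pos hi, ι_sq_scalar, dcQ_apply]
  simp only [sub_dotProduct, dotProduct_sub, single_one_dotProduct, Pi.single_apply,
    Fin.mk.injEq]
  have : (i + 1 = i) = False := by simp
  have h2 : (i = i + 1) = False := by simp
  simp only [this, h2, if_true, if_false]
  have : (-(1 - 0 - (0 - 1)) : ZMod 3) = 1 := by decide
  rw [this, map_one]

theorem dcS_R2 (n : ℕ) (i : ℕ) (hi : i + 2 < n) :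
    dcS n i * dcS n (i + 1) + dcS n (i + 1) * dcS n i = -1 := by
  rw [dcS_anti n i (i + 1) (by omega) (by omega)]
  have h1 : (i = i + 1) = False := eq_false (by omega)
  have h2 : (i = i + 1 + 1) = False := eq_false (by omega)
  have h3 : (i + 1 = i + 1 + 1) = False := eq_false (by omega)
  simp only [h1, h2, h3, if_true, if_false]
  have : ((0 : ZMod 3) - 0 - 1 + 0) = -1 := by decide
  rw [this, map_neg, map_one]

theorem dcS_R3 (n : ℕ) (i j : ℕ) (hij : i + 1 < j) (hj : j + 1 < n) :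
    dcS n i * dcS n j + dcS n j * dcS n i = 0 := by
  rw [dcS_anti n i j (by omega) hj]
  have h1 : ¬ (i = j) := by omega
  have h2 : ¬ (i = j + 1) := by omega
  have h3 : ¬ (i + 1 = j) := by omega
  have h4 : ¬ (i + 1 = j + 1) := by omega
  simp only [h1, h2, h3, h4, if_false]
  simp

theorem dc_neg_one_ne (n : ℕ) : (-1 : CliffordAlgebra (dcQ n)) ≠ 1 := by
  intro h
  have h2 : (2 : CliffordAlgebra (dcQ n)) = 0 := by
    have : (1 : CliffordAlgebra (dcQ n)) + 1 = 0 := by
      nth_rewrite 1 [← h]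
      exact neg_add_cancel 1
    rw [← this]; norm_num
  have h3 : (3 : CliffordAlgebra (dcQ n)) = 0 := by
    have := map_ofNat (algebraMap (ZMod 3) (CliffordAlgebra (dcQ n))) 3
    rw [← this]
    have h3' : (3 : ZMod 3) = 0 := by decide
    rw [show (OfNat.ofNat 3 : ZMod 3) = 0 from h3', map_zero]
  have h1 : (1 : CliffordAlgebra (dcQ n)) = 0 := by
    calc (1 : CliffordAlgebra (dcQ n)) = 3 - 2 := by norm_num
      _ = 0 := by rw [h3, h2, sub_zero]
  exact one_ne_zero h1

end Cfsg.Agent.Helper37
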