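import Mathlib
import Cfsg.Agent.Helper37.Carm3

set_option autoImplicit false

namespace Cfsg.Agent.Helper37

theorem dc_zpow_two {U : Type*} [Group U] (z : U) (hz : z * z = 1) (k : ℤ) :
    z ^ k = 1 ∨ z ^ k = z := by
  rcases Int.even_or_odd' k with ⟨t, rfl | rfl⟩
  · left; rw [zpow_mul, zpow_two, hz, one_zpow]
  · right; rw [zpow_add, zpow_mul, zpow_two, hz, one_zpow, one_mul, zpow_one]

theorem carmPhi_bij (m : ℕ) : Function.Injective (carmPhi m) ∧
    (carmPhi m).range = alternatingGroup (Fin (m + 3)) := by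
  obtain ⟨hfin, hcard⟩ := carm_card_le (m + 1)
  have hr : (carmPhi m).range ≤ alternatingGroup (Fin (m + 3)) := by
    rw [MonoidHom.range_eq_map, ← PresentedGroup.closure_range_of, MonoidHom.map_closure,
      Subgroup.closure_le]
    rintro _ ⟨_, ⟨j, rfl⟩, rfl⟩
    rw [SetLike.mem_coe, Equiv.Perm.mem_alternatingGroup, carmPhi_of]
    exact carmY_sign _ _ (by omega)
  have hH : carmH (m + 3) (m + 1) ≤ (carmPhi m).range := by
    unfold carmH
    rw [Subgroup.closure_le]
    rintro _ ⟨j, hj, rfl⟩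
    exact ⟨PresentedGroup.of ⟨j, hj⟩, carmPhi_of m ⟨j, hj⟩⟩
  have h1 := carmH_card (m + 3) (m + 1) (by omega)
  have h2 : Nat.card (carmH (m + 3) (m + 1)) ≤ Nat.card (carmPhi m).range :=
    Subgroup.card_le_of_le hH
  have h3 : Nat.card (carmPhi m).range ≤ Nat.card (alternatingGroup (Fin (m + 3))) :=
    Subgroup.card_le_of_le hr
  have h4 : 2 * Nat.card (alternatingGroup (Fin (m + 3))) = (m + 3).factorial := by
    rw [two_mul_nat_card_alternatingGroup, Nat.card_perm, Nat.card_fin]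
  have h6 : (m + 1 + 2).factorial = (m + 3).factorial := rfl
  have h5 : Nat.card (PresentedGroup (carmRels (m + 1))) ≤ Nat.card (carmPhi m).range := by
    omega
  have hrange : (carmPhi m).range = alternatingGroup (Fin (m + 3)) := by
    apply Subgroup.eq_of_le_of_card_ge hr
    omega
  have hinj : Function.Injective (carmPhi m) := by
    have hb := Function.Surjective.bijective_of_nat_card_le (f := (carmPhi m).rangeRestrict)
      (carmPhi m).rangeRestrict_surjective h5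
    intro a b hab
    apply hb.1
    exact Subtype.ext hab
  exact ⟨hinj, hrange⟩

theorem dc_a4 : ∀ g : Equiv.Perm (Fin 4), Equiv.Perm.sign g = 1 → g ≠ 1 →
    (g = carmY 4 1 ∨ g = carmY 4 0 * carmY 4 1 * (carmY 4 0)⁻¹ ∨
      g = (carmY 4 0)⁻¹ * carmY 4 1 * carmY 4 0 ∨
      g * carmY 4 1 * g⁻¹ * (carmY 4 1)⁻¹ = carmY 4 0 * carmY 4 1 * (carmY 4 0)⁻¹ ∨
      g * carmY 4 1 * g⁻¹ * (carmY 4 1)⁻¹ = (carmY 4 0)⁻¹ * carmY 4 1 * carmY 4 0) := by
  decide

end Cfsg.Agent.Helper37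

namespace Cfsg.Agent.Helper37

theorem dc_ker4 (K : Subgroup (PresentedGroup (carmRels (1 + 1)))) [hK : K.Normal]
    (h1 : PresentedGroup.of (⟨1, by omega⟩ : Fin (1 + 1)) ∉ K) : K = ⊥ := by
  obtain ⟨hinj, hrange⟩ := carmPhi_bij 1
  rw [Subgroup.eq_bot_iff_forall]
  intro g hg
  by_contra hg1
  set o0 : PresentedGroup (carmRels (1 + 1)) := PresentedGroup.of (⟨0, by omega⟩ : Fin (1 + 1))
    with ho0
  set o1 : PresentedGroup (carmRels (1 + 1)) := PresentedGroup.of (⟨1, by omega⟩ : Fin (1 + 1))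
    with ho1
  have e0 : carmPhi 1 o0 = carmY 4 0 := carmPhi_of 1 _
  have e1 : carmPhi 1 o1 = carmY 4 1 := carmPhi_of 1 _
  have hsign : Equiv.Perm.sign (carmPhi 1 g) = 1 := by
    have : carmPhi 1 g ∈ (carmPhi 1).range := ⟨g, rfl⟩
    rw [hrange] at this
    exact Equiv.Perm.mem_alternatingGroup.mp this
  have hne : carmPhi 1 g ≠ 1 := by
    intro h
    apply hg1
    apply hinj
    rw [h, map_one]
  have hconj : o0 * o1 * o0⁻¹ ∉ K := by
    intro h
    apply h1
    have := hK.conj_mem _ h o0⁻¹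
    rwa [show o0⁻¹ * (o0 * o1 * o0⁻¹) * o0⁻¹⁻¹ = o1 by group] at this
  have hconj' : o0⁻¹ * o1 * o0 ∉ K := by
    intro h
    apply h1
    have := hK.conj_mem _ h o0
    rwa [show o0 * (o0⁻¹ * o1 * o0) * o0⁻¹ = o1 by group] at this
  have hcomm : g * o1 * g⁻¹ * o1⁻¹ ∈ K := by
    have h2 := hK.conj_mem _ (K.inv_mem hg) o1
    have := K.mul_mem hg h2
    rwa [show g * (o1 * g⁻¹ * o1⁻¹) = g * o1 * g⁻¹ * o1⁻¹ by group] at this
  rcases dc_a4 (carmPhi 1 g) hsign hne with h | h | h | h | h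
  · apply h1
    have : g = o1 := hinj (by rw [h, e1])
    rwa [← this]
  · apply hconj
    have : g = o0 * o1 * o0⁻¹ := hinj (by rw [h, map_mul, map_mul, map_inv, e0, e1])
    rwa [← this]
  · apply hconj'
    have : g = o0⁻¹ * o1 * o0 := hinj (by rw [h, map_mul, map_mul, map_inv, e0, e1])
    rwa [← this]
  · apply hconj
    have : g * o1 * g⁻¹ * o1⁻¹ = o0 * o1 * o0⁻¹ := hinj (by
      rw [map_mul, map_mul, map_mul, map_inv, map_inv, e1, h, map_mul, map_mul, map_inv, e0, e1])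
    rwa [← this]
  · apply hconj'
    have : g * o1 * g⁻¹ * o1⁻¹ = o0⁻¹ * o1 * o0 := hinj (by
      rw [map_mul, map_mul, map_mul, map_inv, map_inv, e1, h, map_mul, map_mul, map_inv, e0, e1])
    rwa [← this]

theorem dc_main (m : ℕ) {U : Type} [Group U] (x : ℕ → U) (z : U) (hzc : ∀ g : U, z * g = g * z)
    (hz2 : z * z = 1) (hz1 : z ≠ 1)
    (h0 : x 0 ^ 3 = 1) (h1 : ∀ j, 1 ≤ j → j < m + 1 + 1 → x j * x j = z)
    (h2 : ∀ i, i + 1 < m + 1 + 1 → (x i * x (i + 1)) ^ 3 = z)
    (h3 : ∀ i j, i + 1 < j → j < m + 1 + 1 → (x i * x j) ^ 2 = z) :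
    ∃ (Γ : Type) (_ : Group Γ) (_ : Finite Γ) (z : Γ) (_ : z ∈ Subgroup.center Γ),
      orderOf z = 2 ∧ z ∈ commutator Γ ∧ ∃ _ : (Subgroup.zpowers z).Normal,
        Nonempty (Γ ⧸ Subgroup.zpowers z ≃* alternatingGroup (Fin (m + 1 + 3))) := by
  classical
  let S : Set U := Set.range (fun j : Fin (m + 1 + 1) => x j.val)
  let Γ : Subgroup U := Subgroup.closure S
  have hxΓ : ∀ j, j < m + 1 + 1 → x j ∈ Γ := fun j hj => Subgroup.subset_closure ⟨⟨j, hj⟩, rfl⟩
  have hzΓ : z ∈ Γ := by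
    rw [← h1 1 le_rfl (by omega)]
    exact mul_mem (hxΓ 1 (by omega)) (hxΓ 1 (by omega))
  let zΓ : Γ := ⟨z, hzΓ⟩
  let X : ℕ → Γ := fun j => if h : j < m + 1 + 1 then ⟨x j, hxΓ j h⟩ else 1
  have hX : ∀ j, j < m + 1 + 1 → ((X j : Γ) : U) = x j := by
    intro j hj
    simp only [X, dif_pos hj]
  have hzcen : zΓ ∈ Subgroup.center Γ := by
    rw [Subgroup.mem_center_iff]
    intro g
    apply Subtype.ext
    exact (hzc g.1).symm
  have hzΓ2 : zΓ * zΓ = 1 := Subtype.ext hz2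
  have hzΓ1 : zΓ ≠ 1 := fun h => hz1 (congrArg Subtype.val h)
  have hzo : orderOf zΓ = 2 := by
    apply orderOf_eq_prime
    · rw [pow_two]; exact hzΓ2
    · exact hzΓ1
  have hZn : (Subgroup.zpowers zΓ).Normal := by
    constructor
    intro a ha g
    have hc : a ∈ Subgroup.center Γ := (Subgroup.zpowers_le.mpr hzcen) ha
    rw [Subgroup.mem_center_iff] at hc
    rw [hc g, mul_inv_cancel_right]
    exact ha
  -- relations in Γ
  have r0 : X 0 ^ 3 = 1 := by
    apply Subtype.ext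
    rw [Subgroup.coe_pow, hX 0 (by omega), h0]; rfl
  have r1 : ∀ j, 1 ≤ j → j < m + 1 + 1 → X j * X j = zΓ := by
    intro j hj hjm
    apply Subtype.ext
    rw [Subgroup.coe_mul, hX j hjm]
    exact h1 j hj hjm
  have r2 : ∀ i, i + 1 < m + 1 + 1 → (X i * X (i + 1)) ^ 3 = zΓ := by
    intro i hi
    apply Subtype.ext
    rw [Subgroup.coe_pow, Subgroup.coe_mul, hX i (by omega), hX (i + 1) hi]
    exact h2 i hi
  have r3 : ∀ i j, i + 1 < j → j < m + 1 + 1 → (X i * X j) ^ 2 = zΓ := by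
    intro i j hij hj
    apply Subtype.ext
    rw [Subgroup.coe_pow, Subgroup.coe_mul, hX i (by omega), hX j hj]
    exact h3 i j hij hj
  haveI := hZn
  have hπz : (QuotientGroup.mk' (Subgroup.zpowers zΓ)) zΓ = 1 :=
    (QuotientGroup.eq_one_iff _).mpr (Subgroup.mem_zpowers zΓ)
  have hrel : ∀ r ∈ carmRels (m + 1 + 1), FreeGroup.lift
      (fun j : Fin (m + 1 + 1) => (QuotientGroup.mk' (Subgroup.zpowers zΓ)) (X j.val)) r = 1 := by
    intro r hr
    rcases hr with ((⟨i, hi, rfl⟩ | ⟨i, hi, rfl⟩) | ⟨i, j, hij, rfl⟩) | ⟨i, j, hij, rfl⟩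
    · simp only [map_pow, FreeGroup.lift_apply_of]
      rw [hi, ← map_pow, r0, map_one]
    · simp only [map_pow, FreeGroup.lift_apply_of]
      rw [pow_two, ← map_mul, r1 _ hi i.2, hπz]
    · simp only [map_pow, map_mul, FreeGroup.lift_apply_of]
      rw [hij, ← map_mul, ← map_pow, r2 _ (by omega), hπz]
    · simp only [map_pow, map_mul, FreeGroup.lift_apply_of]
      rw [← map_mul, ← map_pow, r3 _ _ hij j.2, hπz]
  let ψ : PresentedGroup (carmRels (m + 1 + 1)) →* Γ ⧸ Subgroup.zpowers zΓ :=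
    PresentedGroup.toGroup hrel
  have hψ : ∀ j : Fin (m + 1 + 1), ψ (PresentedGroup.of j) =
      (QuotientGroup.mk' (Subgroup.zpowers zΓ)) (X j.val) := fun j =>
    PresentedGroup.toGroup.of hrel
  have hsurj : Function.Surjective ψ := by
    have hT : (ψ.range).comap (QuotientGroup.mk' (Subgroup.zpowers zΓ)) = ⊤ := by
      rw [eq_top_iff, ← Subgroup.closure_closure_coe_preimage (k := S), Subgroup.closure_le]
      rintro g ⟨j, hj⟩
      have hg : g = X j.val := by
        apply Subtype.ext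
        rw [hX j.val j.2]
        exact hj.symm
      rw [SetLike.mem_coe, Subgroup.mem_comap, hg, ← hψ]
      exact ⟨_, rfl⟩
    intro q
    obtain ⟨g, rfl⟩ := QuotientGroup.mk'_surjective (Subgroup.zpowers zΓ) q
    have : g ∈ (ψ.range).comap (QuotientGroup.mk' (Subgroup.zpowers zΓ)) := by
      rw [hT]; exact Subgroup.mem_top g
    exact this
  obtain ⟨hfin, hcard⟩ := carm_card_le (m + 1 + 1)
  haveI : Finite (Γ ⧸ Subgroup.zpowers zΓ) := Finite.of_surjective ψ hsurj
  haveI : Finite (Subgroup.zpowers zΓ) := by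
    apply Nat.finite_of_card_ne_zero
    rw [Nat.card_zpowers, hzo]
    norm_num
  have hfinΓ : Finite Γ :=
    Finite.of_equiv _ (Subgroup.groupEquivQuotientProdSubgroup (s := Subgroup.zpowers zΓ)).symm
  -- the generator `1` is not killed
  have hstar : PresentedGroup.of (⟨1, by omega⟩ : Fin (m + 1 + 1)) ∉ ψ.ker := by
    intro h
    rw [MonoidHom.mem_ker, hψ, QuotientGroup.mk'_apply, QuotientGroup.eq_one_iff] at h
    obtain ⟨k, hk⟩ := Subgroup.mem_zpowers_iff.mp h
    have hx1 := r1 1 le_rfl (by omega)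
    rcases dc_zpow_two zΓ hzΓ2 k with h' | h'
    · rw [h'] at hk
      rw [← hk, one_mul] at hx1
      exact hzΓ1 hx1.symm
    · rw [h'] at hk
      rw [← hk, hzΓ2] at hx1
      exact hzΓ1 hx1.symm
  have hker : ψ.ker = ⊥ := by
    rcases Nat.eq_zero_or_pos m with rfl | hm
    · exact dc_ker4 ψ.ker hstar
    · obtain ⟨e⟩ := carm_iso (m + 1)
      haveI : IsSimpleGroup (alternatingGroup (Fin (m + 1 + 3))) :=
        alternatingGroup.isSimpleGroup (by rw [Nat.card_fin]; omega)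
      haveI : IsSimpleGroup (PresentedGroup (carmRels (m + 1 + 1))) := e.isSimpleGroup
      rcases (MonoidHom.normal_ker ψ).eq_bot_or_eq_top with h | h
      · exact h
      · exfalso
        apply hstar
        rw [h]
        exact Subgroup.mem_top _
  have hinj : Function.Injective ψ := (MonoidHom.ker_eq_bot_iff ψ).mp hker
  refine ⟨Γ, inferInstance, hfinΓ, zΓ, hzcen, hzo, ?_, hZn, ?_⟩
  · rw [← Abelianization.ker_of, MonoidHom.mem_ker]
    have a0 : (Abelianization.of (X 0)) ^ 3 = 1 := by rw [← map_pow, r0, map_one]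
    have a1 : Abelianization.of (X 1) * Abelianization.of (X 1) = Abelianization.of zΓ := by
      rw [← map_mul, r1 1 le_rfl (by omega)]
    have a2 : (Abelianization.of (X 0) * Abelianization.of (X 1)) ^ 3 = Abelianization.of zΓ := by
      rw [← map_mul, ← map_pow, r2 0 (by omega)]
    rw [mul_pow, a0, one_mul, pow_succ, pow_two, a1] at a2
    have a3 : Abelianization.of (X 1) = 1 := by
      have := a2
      nth_rewrite 2 [← mul_one (Abelianization.of zΓ)] at this
      exact mul_left_cancel this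
    rw [← a1, a3, one_mul]
  · obtain ⟨e⟩ := carm_iso (m + 1)
    exact ⟨(MulEquiv.ofBijective ψ ⟨hinj, hsurj⟩).symm.trans e⟩

end Cfsg.Agent.Helper37
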