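import Mathlib
import Cfsg.Agent.Helper37.DcA
import Cfsg.Agent.Helper37.DcB
import Cfsg.Agent.Helper37.DcC

set_option autoImplicit false

namespace Cfsg.Agent.Helper37

/-- the reflections as units -/
noncomputable def dcU (n : ℕ) (i : ℕ) : (CliffordAlgebra (dcQ n))ˣ :=
  if h : i + 1 < n then ⟨dcS n i, dcS n i, dcS_sq n i h, dcS_sq n i h⟩ else 1

theorem dcU_val (n : ℕ) (i : ℕ) (h : i + 1 < n) : ((dcU n i : (CliffordAlgebra (dcQ n))ˣ) :
    CliffordAlgebra (dcQ n)) = dcS n i := by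
  unfold dcU
  rw [dif_pos h]

theorem dc_exists (m : ℕ) :
    ∃ (Γ : Type) (_ : Group Γ) (_ : Finite Γ) (z : Γ) (_ : z ∈ Subgroup.center Γ),
      orderOf z = 2 ∧ z ∈ commutator Γ ∧ ∃ _ : (Subgroup.zpowers z).Normal,
        Nonempty (Γ ⧸ Subgroup.zpowers z ≃* alternatingGroup (Fin (m + 1 + 3))) := by
  have R1 : ∀ i, i < m + 3 → dcS (m + 1 + 3) i * dcS (m + 1 + 3) i = 1 :=
    fun i hi => dcS_sq _ i (by omega)
  have R2 : ∀ i, i + 1 < m + 3 → dcS (m + 1 + 3) i * dcS (m + 1 + 3) (i + 1) +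
      dcS (m + 1 + 3) (i + 1) * dcS (m + 1 + 3) i = -1 :=
    fun i hi => dcS_R2 _ i (by omega)
  have R3 : ∀ i j, i + 1 < j → j < m + 3 → dcS (m + 1 + 3) i * dcS (m + 1 + 3) j +
      dcS (m + 1 + 3) j * dcS (m + 1 + 3) i = 0 :=
    fun i j hij hj => dcS_R3 _ i j hij (by omega)
  apply dc_main m (fun j => dcU (m + 1 + 3) 0 * dcU (m + 1 + 3) (j + 1)) (-1)
  · intro g
    rw [neg_one_mul, mul_neg_one]
  · rw [neg_mul_neg, one_mul]
  · intro h
    apply dc_neg_one_ne (m + 1 + 3)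
    have := congrArg Units.val h
    rwa [Units.val_neg, Units.val_one] at this
  · apply Units.ext
    rw [Units.val_pow_eq_pow_val, Units.val_mul, dcU_val _ _ (by omega), dcU_val _ _ (by omega),
      Units.val_one]
    exact dc_C0 _ (m + 3) R1 R2 R3 (by omega)
  · intro j hj hjm
    apply Units.ext
    rw [Units.val_mul, Units.val_mul, dcU_val _ _ (by omega), dcU_val _ _ (by omega),
      Units.val_neg, Units.val_one]
    exact dc_C1 _ (m + 3) R1 R2 R3 j hj (by omega)
  · intro i hi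
    apply Units.ext
    rw [Units.val_pow_eq_pow_val, Units.val_mul, Units.val_mul, Units.val_mul,
      dcU_val _ _ (by omega), dcU_val _ _ (by omega), dcU_val _ _ (by omega),
      Units.val_neg, Units.val_one]
    exact dc_C2 _ (m + 3) R1 R2 R3 i (by omega)
  · intro i j hij hj
    apply Units.ext
    rw [Units.val_pow_eq_pow_val, Units.val_mul, Units.val_mul, Units.val_mul,
      dcU_val _ _ (by omega), dcU_val _ _ (by omega), dcU_val _ _ (by omega),
      Units.val_neg, Units.val_one]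
    exact dc_C3 _ (m + 3) R1 R2 R3 i j hij (by omega)

end Cfsg.Agent.Helper37
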