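import Mathlib

/-! Derived length of the Sylow `p`-subgroups of `S_n` is `⌊log_p n⌋` (S4014). -/

namespace Cfsg.Agent.Helper37

universe u v

open scoped commutatorElement


/-- in a finite `p`-group the commutator subgroup lies in every maximal subgroup, whose index is
at least `p` -/
theorem dlsyl_commutator_le_coatom {G : Type*} [Group G] [Finite G] {p : ℕ} [Fact p.Prime]
    (hG : IsPGroup p G) (M : Subgroup G) (hM : IsCoatom M) : commutator G ≤ M ∧ p ≤ M.index := by
  haveI : Group.IsNilpotent G := hG.isNilpotent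
  haveI hMn : M.Normal := (Group.isNilpotent_of_finite_tfae.out 0 2 rfl rfl).mp ‹_› M hM
  constructor
  · -- G ⧸ M is abelian
    haveI : Nontrivial (G ⧸ M) := by
      rw [QuotientGroup.nontrivial_iff]
      exact hM.1
    have hQ : IsPGroup p (G ⧸ M) := hG.to_quotient M
    haveI := hQ.center_nontrivial
    have hZ : Subgroup.center (G ⧸ M) ≠ ⊥ := by
      intro h
      have : Nontrivial (Subgroup.center (G ⧸ M)) := inferInstance
      rw [h] at this
      exact not_subsingleton _ (inferInstance : Subsingleton (⊥ : Subgroup (G ⧸ M)))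
    have hcomap : (Subgroup.center (G ⧸ M)).comap (QuotientGroup.mk' M) = ⊤ := by
      by_contra hne
      have hle : M ≤ (Subgroup.center (G ⧸ M)).comap (QuotientGroup.mk' M) := by
        intro x hx
        rw [Subgroup.mem_comap]
        have : (QuotientGroup.mk' M) x = 1 := (QuotientGroup.eq_one_iff x).mpr hx
        rw [this]
        exact one_mem _
      have heq : (Subgroup.center (G ⧸ M)).comap (QuotientGroup.mk' M) = M := by
        rcases eq_or_lt_of_le hle with h | h
        · exact h.symm
        · exact absurd (hM.2 _ h) hne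
      apply hZ
      rw [eq_bot_iff]
      intro z hz
      obtain ⟨x, rfl⟩ := QuotientGroup.mk'_surjective M z
      have hx : x ∈ (Subgroup.center (G ⧸ M)).comap (QuotientGroup.mk' M) := hz
      rw [heq] at hx
      rw [Subgroup.mem_bot]
      exact (QuotientGroup.eq_one_iff x).mpr hx
    rw [commutator_def, Subgroup.commutator_le]
    intro x _ y _
    have hx : (QuotientGroup.mk' M) x ∈ Subgroup.center (G ⧸ M) := by
      have : x ∈ (Subgroup.center (G ⧸ M)).comap (QuotientGroup.mk' M) := by
        rw [hcomap]; trivial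
      exact this
    rw [← QuotientGroup.eq_one_iff]
    have h1 : ((⁅x, y⁆ : G) : G ⧸ M) = ⁅(QuotientGroup.mk' M) x, (QuotientGroup.mk' M) y⁆ := by
      simp [commutatorElement_def]
    rw [h1, commutatorElement_def]
    have h2 := Subgroup.mem_center_iff.mp hx ((QuotientGroup.mk' M) y)
    rw [← h2]
    group
  · obtain ⟨k, hk⟩ := hG.index M
    rw [hk]
    have hk0 : k ≠ 0 := by
      rintro rfl
      rw [pow_zero, Subgroup.index_eq_one] at hk
      exact hM.1 hk
    calc p = p ^ 1 := (pow_one p).symm
      _ ≤ p ^ k := Nat.pow_le_pow_right (Fact.out : p.Prime).pos (Nat.one_le_iff_ne_zero.mpr hk0)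





theorem dlsyl_card_orbit_mul {G : Type*} [Group G] [Finite G] {α : Type*} [MulAction G α] (a : α) :
    Nat.card (MulAction.orbit G a) * Nat.card (MulAction.stabilizer G a) = Nat.card G := by
  rw [← Nat.card_prod]
  exact Nat.card_congr (MulAction.orbitProdStabilizerEquivGroup G a)

/-- orbits of the commutator subgroup of a `p`-group are smaller by a factor `p` -/
theorem dlsyl_orbit_commutator {G : Type*} [Group G] [Finite G] {p : ℕ} [Fact p.Prime]
    (hG : IsPGroup p G) {α : Type*} [MulAction G α] (a : α) (m : ℕ)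
    (h : Nat.card (MulAction.orbit G a) < p ^ (m + 2)) :
    Nat.card (MulAction.orbit (commutator G) a) < p ^ (m + 1) := by
  have hp : p.Prime := Fact.out
  by_cases htop : MulAction.stabilizer G a = ⊤
  · have hsub : MulAction.orbit (commutator G) a ⊆ {a} := by
      rintro _ ⟨⟨g, hg⟩, rfl⟩
      have : g ∈ MulAction.stabilizer G a := by rw [htop]; trivial
      exact MulAction.mem_stabilizer_iff.mp this
    have h1 : Nat.card (MulAction.orbit (commutator G) a) ≤ Nat.card ({a} : Set α) :=
      Nat.card_mono (Set.finite_singleton a) hsub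
    have hs : Nat.card ({a} : Set α) = 1 := by
      rw [Nat.card_coe_set_eq, Set.ncard_singleton]
    rw [hs] at h1
    have : 1 < p ^ (m + 1) := Nat.one_lt_pow (by omega) hp.one_lt
    omega
  · obtain ⟨M, hM, hle⟩ := (eq_top_or_exists_le_coatom (MulAction.stabilizer G a)).resolve_left htop
    obtain ⟨hcM, hpM⟩ := dlsyl_commutator_le_coatom hG M hM
    have hsub : MulAction.orbit (commutator G) a ⊆ MulAction.orbit M a := by
      rintro _ ⟨⟨g, hg⟩, rfl⟩
      exact ⟨⟨g, hcM hg⟩, rfl⟩
    have hfin : (MulAction.orbit M a).Finite := Set.finite_range (fun g : M => g • a)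
    have h1 : Nat.card (MulAction.orbit (commutator G) a) ≤ Nat.card (MulAction.orbit M a) :=
      Nat.card_mono hfin hsub
    have h2 := dlsyl_card_orbit_mul (G := G) a
    have h3 := dlsyl_card_orbit_mul (G := M) a
    have h4 : Nat.card (MulAction.stabilizer M a) = Nat.card (MulAction.stabilizer G a) := by
      have : MulAction.stabilizer M a = (MulAction.stabilizer G a).subgroupOf M := by
        ext x
        simp [MulAction.mem_stabilizer_iff, Subgroup.mem_subgroupOf, Subgroup.smul_def]
      rw [this]
      exact Nat.card_congr (Subgroup.subgroupOfEquivOfLe hle).toEquiv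
    have h5 := M.index_mul_card
    have hpos : 0 < Nat.card (MulAction.stabilizer G a) := Nat.card_pos
    have h6 : Nat.card (MulAction.orbit G a) = M.index * Nat.card (MulAction.orbit M a) := by
      apply Nat.eq_of_mul_eq_mul_right hpos
      rw [h2, mul_assoc, ← h4, h3, h5]
    have h7 : p * Nat.card (MulAction.orbit (commutator G) a) < p ^ (m + 2) := by
      calc p * Nat.card (MulAction.orbit (commutator G) a)
          ≤ M.index * Nat.card (MulAction.orbit M a) := Nat.mul_le_mul hpM h1
        _ = Nat.card (MulAction.orbit G a) := h6.symm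
        _ < p ^ (m + 2) := h
    rw [pow_succ' p (m + 1)] at h7
    exact Nat.lt_of_mul_lt_mul_left h7

theorem dlsyl_derivedSeries_succ (G : Type*) [Group G] (m : ℕ) :
    derivedSeries G (m + 1) = (derivedSeries (commutator G) m).map (commutator G).subtype := by
  induction m with
  | zero =>
    rw [derivedSeries_one, derivedSeries_zero, ← MonoidHom.range_eq_map, Subgroup.range_subtype]
  | succ m ih =>
    rw [derivedSeries_succ, ih, derivedSeries_succ, Subgroup.map_commutator]

/-- a finite `p`-group acting faithfully with all orbits of size `< p^(m+1)` has derived length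
at most `m` -/
theorem dlsyl_derived_eq_bot {p : ℕ} [Fact p.Prime] (m : ℕ) :
    ∀ (G : Type u) [Group G] [Finite G], IsPGroup p G → ∀ (α : Type v) [MulAction G α]
      [FaithfulSMul G α], (∀ a : α, Nat.card (MulAction.orbit G a) < p ^ (m + 1)) →
      derivedSeries G m = ⊥ := by
  have hp : p.Prime := Fact.out
  induction m with
  | zero =>
    intro G _ _ hG α _ _ horb
    rw [derivedSeries_zero]
    haveI : Subsingleton G := by
      refine ⟨fun g h => ?_⟩
      apply FaithfulSMul.eq_of_smul_eq_smul (α := α)
      intro a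
      have h1 := dlsyl_card_orbit_mul (G := G) a
      obtain ⟨n, hn⟩ := IsPGroup.iff_card.mp hG
      have hdvd : Nat.card (MulAction.orbit G a) ∣ p ^ n := by
        rw [← hn, ← h1]; exact dvd_mul_right _ _
      obtain ⟨j, -, hj⟩ := (Nat.dvd_prime_pow hp).mp hdvd
      have horb' := horb a
      rw [hj, zero_add, pow_one] at horb'
      have hj0 : j = 0 := by
        by_contra hne
        have : p ^ 1 ≤ p ^ j := Nat.pow_le_pow_right hp.pos (Nat.one_le_iff_ne_zero.mpr hne)
        rw [pow_one] at this
        omega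
      rw [hj0, pow_zero] at hj
      haveI : Subsingleton (MulAction.orbit G a) :=
        (Nat.card_eq_one_iff_unique.mp hj).1
      have e1 : (⟨g • a, MulAction.mem_orbit a g⟩ : MulAction.orbit G a)
          = ⟨h • a, MulAction.mem_orbit a h⟩ := Subsingleton.elim _ _
      exact congrArg Subtype.val e1
    exact (Subgroup.eq_bot_of_subsingleton ⊤)
  | succ m ih =>
    intro G _ _ hG α _ _ horb
    rw [dlsyl_derivedSeries_succ]
    have hN : IsPGroup p (commutator G) := hG.to_subgroup _
    have := ih (commutator G) hN α (fun a => dlsyl_orbit_commutator hG a m (horb a))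
    rw [this, Subgroup.map_bot]



theorem dlsyl_left_mul {D Q : Type*} [Group D] [Group Q] (x y : D ≀ᵣ Q) (hx : x.right = 1) :
    (x * y).left 1 = x.left 1 * y.left 1 := by
  rw [RegularWreathProduct.mul_left]
  simp [hx]

theorem dlsyl_left_inv {D Q : Type*} [Group D] [Group Q] (x : D ≀ᵣ Q) (hx : x.right = 1) :
    (x⁻¹).left 1 = (x.left 1)⁻¹ := by
  rw [RegularWreathProduct.inv_left]
  simp [hx]

/-- the derived series of a regular wreath product projects onto that of the base group -/
theorem dlsyl_wreath_step (D Q : Type*) [Group D] [Group Q] (g : Q) (hg : g ≠ 1) (j : ℕ) :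
    ∀ d ∈ derivedSeries D j, ∃ w ∈ derivedSeries (D ≀ᵣ Q) (j + 1), w.right = 1 ∧ w.left 1 = d := by
  classical
  induction j with
  | zero =>
    intro d _
    refine ⟨⁅(⟨Pi.mulSingle 1 d, 1⟩ : D ≀ᵣ Q), (⟨1, g⟩ : D ≀ᵣ Q)⁆, ?_, ?_, ?_⟩
    · rw [derivedSeries_succ]
      exact Subgroup.commutator_mem_commutator (Subgroup.mem_top _) (Subgroup.mem_top _)
    · simp [commutatorElement_def]
    · rw [commutatorElement_def]
      simp only [RegularWreathProduct.mul_left, RegularWreathProduct.inv_left,
        RegularWreathProduct.mul_right, RegularWreathProduct.inv_right, Pi.mul_apply]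
      have hg' : g⁻¹ ≠ 1 := inv_ne_one.mpr hg
      simp [hg']
  | succ j ih =>
    intro d hd
    rw [derivedSeries_succ, Subgroup.commutator_def] at hd
    induction hd using Subgroup.closure_induction with
    | mem d hd =>
      obtain ⟨a, ha, b, hb, rfl⟩ := hd
      obtain ⟨u, hu, hur, hul⟩ := ih a ha
      obtain ⟨v, hv, hvr, hvl⟩ := ih b hb
      refine ⟨⁅u, v⁆, ?_, ?_, ?_⟩
      · rw [derivedSeries_succ]
        exact Subgroup.commutator_mem_commutator hu hv
      · simp [commutatorElement_def, hur, hvr]
      · rw [commutatorElement_def, dlsyl_left_mul _ _ (by simp [hur, hvr]),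
          dlsyl_left_mul _ _ (by simp [hur, hvr]), dlsyl_left_mul _ _ hur,
          dlsyl_left_inv _ hur, dlsyl_left_inv _ hvr, hul, hvl, commutatorElement_def]
    | one => exact ⟨1, one_mem _, rfl, rfl⟩
    | mul x y _ _ hx hy =>
      obtain ⟨u, hu, hur, hul⟩ := hx
      obtain ⟨v, hv, hvr, hvl⟩ := hy
      refine ⟨u * v, mul_mem hu hv, by simp [hur, hvr], ?_⟩
      rw [dlsyl_left_mul _ _ hur, hul, hvl]
    | inv x _ hx =>
      obtain ⟨u, hu, hur, hul⟩ := hx
      refine ⟨u⁻¹, inv_mem hu, by simp [hur], ?_⟩
      rw [dlsyl_left_inv _ hur, hul]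

/-- the iterated wreath product of height `k+1` has derived length at least `k+1` -/
theorem dlsyl_iterated_ne_bot (G : Type u) [Group G] (g : G) (hg : g ≠ 1) :
    ∀ k : ℕ, derivedSeries (IteratedWreathProduct G (k + 1)) k ≠ ⊥ := by
  intro k
  induction k with
  | zero =>
    rw [derivedSeries_zero]
    intro h
    have h1 : ((⟨1, g⟩ : IteratedWreathProduct G 0 ≀ᵣ G)) ∈ (⊤ : Subgroup (IteratedWreathProduct G 0 ≀ᵣ G)) :=
      Subgroup.mem_top _
    have h2 : (⊤ : Subgroup (IteratedWreathProduct G 0 ≀ᵣ G)) = ⊥ := h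
    rw [h2, Subgroup.mem_bot] at h1
    have := congrArg RegularWreathProduct.right h1
    exact hg this
  | succ k ih =>
    obtain ⟨⟨d, hd⟩, hd1⟩ := (Subgroup.ne_bot_iff_exists_ne_one).mp ih
    have hd1' : d ≠ 1 := fun h => hd1 (Subtype.ext h)
    obtain ⟨w, hw, hwr, hwl⟩ := dlsyl_wreath_step (IteratedWreathProduct G (k + 1)) G g hg k d hd
    intro h
    have h' : derivedSeries (IteratedWreathProduct G (k + 1) ≀ᵣ G) (k + 1) = ⊥ := h
    rw [h', Subgroup.mem_bot] at hw
    apply hd1'
    rw [← hwl, hw]
    rfl







theorem dlsyl_main (p : ℕ) [Fact p.Prime] (n : ℕ) (hn : 1 ≤ n)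
    (P : Sylow p (Equiv.Perm (Fin n))) :
    derivedSeries ↥(P : Subgroup (Equiv.Perm (Fin n))) (Nat.log p n) = ⊥ ∧
    (1 ≤ Nat.log p n →
      derivedSeries ↥(P : Subgroup (Equiv.Perm (Fin n))) (Nat.log p n - 1) ≠ ⊥) := by
  have hp : p.Prime := Fact.out
  constructor
  · apply dlsyl_derived_eq_bot (p := p) (Nat.log p n) _ P.isPGroup' (Fin n)
    intro a
    have h1 : Nat.card (MulAction.orbit (↥(P : Subgroup (Equiv.Perm (Fin n)))) a)
        ≤ Nat.card (Fin n) := Finite.card_subtype_le _
    have h2 := Nat.lt_pow_succ_log_self hp.one_lt n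
    have h3 : Nat.card (Fin n) = n := by rw [Nat.card_eq_fintype_card, Fintype.card_fin]
    rw [h3] at h1
    exact lt_of_le_of_lt h1 h2
  · intro hk
    obtain ⟨k, hk'⟩ : ∃ k, Nat.log p n = k + 1 := ⟨Nat.log p n - 1, by omega⟩
    rw [hk', Nat.add_sub_cancel]
    have hGcard : Nat.card (Multiplicative (ZMod p)) = p := by
      rw [Nat.card_eq_fintype_card, Fintype.card_multiplicative, ZMod.card]
    obtain ⟨g, hg⟩ : ∃ g : Multiplicative (ZMod p), g ≠ 1 := by
      haveI : Nontrivial (Multiplicative (ZMod p)) := by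
        rw [← Finite.one_lt_card_iff_nontrivial, hGcard]
        exact hp.one_lt
      exact exists_ne 1
    have hW := dlsyl_iterated_ne_bot (Multiplicative (ZMod p)) g hg k
    have hι₀ := iteratedWreathToPermHomInj (Multiplicative (ZMod p)) (k + 1)
    have hcard : Fintype.card (Fin (k + 1) → Multiplicative (ZMod p)) ≤ Fintype.card (Fin n) := by
      rw [Fintype.card_fun, Fintype.card_fin, Fintype.card_fin, Fintype.card_multiplicative,
        ZMod.card]
      have := Nat.pow_log_le_self p (x := n) (by omega)
      rw [hk'] at this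
      exact this
    obtain ⟨e⟩ := Function.Embedding.nonempty_of_card_le hcard
    set f : IteratedWreathProduct (Multiplicative (ZMod p)) (k + 1) →* Equiv.Perm (Fin n) :=
      (Equiv.Perm.viaEmbeddingHom e).comp (iteratedWreathToPermHom (Multiplicative (ZMod p)) (k + 1))
      with hfdef
    have hf : Function.Injective f := (Equiv.Perm.viaEmbeddingHom_injective e).comp hι₀
    have hWp : IsPGroup p (IteratedWreathProduct (Multiplicative (ZMod p)) (k + 1)) :=
      IsPGroup.of_card (by rw [IteratedWreathProduct.card, hGcard])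
    have hR : IsPGroup p f.range := by
      rw [MonoidHom.range_eq_map]
      exact (hWp.to_subgroup ⊤).map f
    obtain ⟨P₀, hP₀⟩ := hR.exists_le_sylow
    set f₁ : IteratedWreathProduct (Multiplicative (ZMod p)) (k + 1) →*
        ↥(P₀ : Subgroup (Equiv.Perm (Fin n))) :=
      f.codRestrict (P₀ : Subgroup (Equiv.Perm (Fin n))) (fun w => hP₀ ⟨w, rfl⟩) with hf₁def
    have hf₁ : Function.Injective f₁ := fun x y h => hf (congrArg Subtype.val h)
    have hf₂ : Function.Injective ((P₀.equiv P).toMonoidHom.comp f₁) :=
      (P₀.equiv P).injective.comp hf₁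
    intro hbot
    apply hW
    have := map_derivedSeries_le_derivedSeries ((P₀.equiv P).toMonoidHom.comp f₁) k
    rw [hbot, le_bot_iff, (Subgroup.map_eq_bot_iff_of_injective _ hf₂)] at this
    exact this


end Cfsg.Agent.Helper37
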