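-- helper37 library: piece ISO of helper16's CALL S3701 (the model HM is isomorphic to the
-- permutation group generated by the five given permutations of Fin 9).
import Mathlib
import Cfsg.Agent.Helper16.H3Core

set_option autoImplicit false

open Cfsg Cfsg.Agent.Helper16 DihedralGroup

namespace Cfsg.Agent.Helper37

/-- the action of `DihedralGroup 3` on `ZMod 3` -/
def h3DAct : DihedralGroup 3 → ZMod 3 → ZMod 3
  | r i, x => x + i
  | sr i, x => -i - x

/-- the block of a point of `Fin 9` -/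
def h3Blk : Fin 9 → Fin 3 := ![0, 0, 0, 1, 1, 1, 2, 2, 2]

/-- the position of a point of `Fin 9` inside its block -/
def h3Pos : Fin 9 → ZMod 3 := ![0, 1, 2, 0, 1, 2, 0, 1, 2]

/-- the point of `Fin 9` with given block and position -/
def h3Mk : Fin 3 → ZMod 3 → Fin 9 := fun b p => (![![0, 1, 2], ![3, 4, 5], ![6, 7, 8]] : Fin 3 → Fin 3 → Fin 9) b p

/-- the action of `HM` on `Fin 9` -/
def h3Fun (m : HM) (i : Fin 9) : Fin 9 :=
  h3Mk (h3Blk i) ((![h3DAct m.n.1 (h3Pos i), h3DAct m.n.2 (h3Pos i),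
    m.k + nmSg m.n * h3Pos i] : Fin 3 → ZMod 3) (h3Blk i))

theorem h3DAct_mul : ∀ x y : DihedralGroup 3, ∀ p : ZMod 3,
    h3DAct (x * y) p = h3DAct x (h3DAct y p) := by decide +kernel

theorem h3Blk_mk : ∀ (b : Fin 3) (p : ZMod 3), h3Blk (h3Mk b p) = b := by decide +kernel

theorem h3Pos_mk : ∀ (b : Fin 3) (p : ZMod 3), h3Pos (h3Mk b p) = p := by decide +kernel

theorem h3Fun_mul (a b : HM) (i : Fin 9) : h3Fun (a * b) i = h3Fun a (h3Fun b i) := by
  have h3 : (a * b).k + nmSg (a * b).n * h3Pos i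
      = a.k + nmSg a.n * (b.k + nmSg b.n * h3Pos i) := by
    simp only [HM.mul_def, nmSg_mul]
    ring
  have h1 : (a * b).n.1 = a.n.1 * b.n.1 := rfl
  have h2 : (a * b).n.2 = a.n.2 * b.n.2 := rfl
  unfold h3Fun
  rw [h3Blk_mk, h3Pos_mk, h3, h1, h2, h3DAct_mul, h3DAct_mul]
  generalize h3Blk i = blk
  generalize h3Pos i = p
  fin_cases blk <;> rfl

theorem h3Fun_one : ∀ i : Fin 9, h3Fun 1 i = i := by decide +kernel

/-- the permutation representation of `HM` on `Fin 9` -/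
def h3Psi : HM →* Equiv.Perm (Fin 9) where
  toFun m := ⟨h3Fun m, h3Fun m⁻¹,
    fun i => by rw [← h3Fun_mul, inv_mul_cancel, h3Fun_one],
    fun i => by rw [← h3Fun_mul, mul_inv_cancel, h3Fun_one]⟩
  map_one' := by
    ext i
    simp [h3Fun_one]
  map_mul' a b := by
    ext i
    simp [h3Fun_mul]

theorem h3Psi_apply (m : HM) (i : Fin 9) : h3Psi m i = h3Fun m i := rfl

set_option maxRecDepth 1000000 in
theorem h3Fun_inj : ∀ m : HM, (∀ i : Fin 9, h3Fun m i = i) → m = 1 := by decide +kernel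

theorem h3Psi_injective : Function.Injective h3Psi := by
  rw [injective_iff_map_eq_one]
  intro m hm
  apply h3Fun_inj
  intro i
  rw [← h3Psi_apply, hm]
  rfl

/-- the fourth generator -/
def h3D : HM := ⟨(sr 2, sr 2), 0⟩
/-- the fifth generator -/
def h3F : HM := ⟨(sr 2, 1), 1⟩

theorem h3Psi_T1 : h3Psi hT1 = Equiv.swap (0 : Fin 9) 1 * Equiv.swap 1 2 := by
  ext i
  rw [h3Psi_apply]
  revert i
  decide +kernel

theorem h3Psi_T2 : h3Psi hT2 = Equiv.swap (3 : Fin 9) 4 * Equiv.swap 4 5 := by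
  ext i
  rw [h3Psi_apply]
  revert i
  decide +kernel

theorem h3Psi_T3 : h3Psi hT3 = Equiv.swap (6 : Fin 9) 7 * Equiv.swap 7 8 := by
  ext i
  rw [h3Psi_apply]
  revert i
  decide +kernel

theorem h3Psi_D : h3Psi h3D = Equiv.swap (0 : Fin 9) 1 * Equiv.swap 3 4 := by
  ext i
  rw [h3Psi_apply]
  revert i
  decide +kernel

theorem h3Psi_F : h3Psi h3F = Equiv.swap (0 : Fin 9) 1 * Equiv.swap 6 7 := by
  ext i
  rw [h3Psi_apply]
  revert i
  decide +kernel

set_option maxRecDepth 1000000 in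
theorem h3_gen : ∀ m : HM, ∃ a b c : Fin 3, ∃ d e : Fin 2,
    m = hT1 ^ (a : ℕ) * hT2 ^ (b : ℕ) * hT3 ^ (c : ℕ) * h3D ^ (d : ℕ) * h3F ^ (e : ℕ) := by
  decide +kernel

theorem h3Psi_range : h3Psi.range = Subgroup.closure
    ({Equiv.swap (0 : Fin 9) 1 * Equiv.swap 1 2, Equiv.swap (3 : Fin 9) 4 * Equiv.swap 4 5,
      Equiv.swap (6 : Fin 9) 7 * Equiv.swap 7 8, Equiv.swap (0 : Fin 9) 1 * Equiv.swap 3 4,
      Equiv.swap (0 : Fin 9) 1 * Equiv.swap 6 7} : Set (Equiv.Perm (Fin 9))) := by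
  apply le_antisymm
  · rintro _ ⟨m, rfl⟩
    obtain ⟨a, b, c, d, e, hm⟩ := h3_gen m
    rw [hm]
    simp only [map_mul, map_pow, h3Psi_T1, h3Psi_T2, h3Psi_T3, h3Psi_D, h3Psi_F]
    refine Subgroup.mul_mem _ (Subgroup.mul_mem _ (Subgroup.mul_mem _ (Subgroup.mul_mem _ ?_ ?_)
      ?_) ?_) ?_
    all_goals
      apply Subgroup.pow_mem
      apply Subgroup.subset_closure
      simp
  · rw [Subgroup.closure_le]
    intro g hg
    simp only [Set.mem_insert_iff, Set.mem_singleton_iff] at hg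
    rcases hg with rfl | rfl | rfl | rfl | rfl
    · exact ⟨hT1, h3Psi_T1⟩
    · exact ⟨hT2, h3Psi_T2⟩
    · exact ⟨hT3, h3Psi_T3⟩
    · exact ⟨h3D, h3Psi_D⟩
    · exact ⟨h3F, h3Psi_F⟩

theorem h3_model_iso : Nonempty (HM ≃* ↥(Subgroup.closure
    ({Equiv.swap (0 : Fin 9) 1 * Equiv.swap 1 2, Equiv.swap (3 : Fin 9) 4 * Equiv.swap 4 5,
      Equiv.swap (6 : Fin 9) 7 * Equiv.swap 7 8, Equiv.swap (0 : Fin 9) 1 * Equiv.swap 3 4,
      Equiv.swap (0 : Fin 9) 1 * Equiv.swap 6 7} : Set (Equiv.Perm (Fin 9))))) :=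
  ⟨(MonoidHom.ofInjective h3Psi_injective).trans (MulEquiv.subgroupCongr h3Psi_range)⟩

end Cfsg.Agent.Helper37
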