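import Mathlib
import Cfsg.Prelude.Def_HallClasses

/-! Hall `π`-subgroups exist in every finite group iff `π` has at most one prime or all primes (S3878). -/

namespace Cfsg.Agent.Helper37

open Equiv Equiv.Perm


/-- an element of `p`-power order is conjugate into any subgroup of index prime to `p` -/
theorem hallpi_conj_mem {G : Type*} [Group G] [Finite G] (H : Subgroup G) (p : ℕ) [Fact p.Prime]
    (hp : ¬ p ∣ H.index) (g : G) (hg : ∃ k, orderOf g = p ^ k) : ∃ x : G, x⁻¹ * g * x ∈ H := by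
  have hP : IsPGroup p (Subgroup.zpowers g) := by
    obtain ⟨k, hk⟩ := hg
    exact IsPGroup.of_card (n := k) (by rw [Nat.card_zpowers, hk])
  have hidx : ¬ p ∣ Nat.card (G ⧸ H) := hp
  obtain ⟨z, hz⟩ := hP.nonempty_fixed_point_of_prime_not_dvd_card (G ⧸ H) hidx
  induction z using QuotientGroup.induction_on with
  | H x =>
    refine ⟨x, ?_⟩
    have h1 := hz ⟨g, Subgroup.mem_zpowers g⟩
    have h2 : ((g * x : G) : G ⧸ H) = (x : G ⧸ H) := h1
    rw [QuotientGroup.eq] at h2
    have h3 : (g * x)⁻¹ * x = (x⁻¹ * g * x)⁻¹ := by group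
    rw [h3] at h2
    exact inv_mem_iff.mp h2

theorem hallpi_card_prime_pow {G : Type*} [Group G] [Finite G] (π : Set ℕ) (p : ℕ) (_hp : p.Prime)
    (hπ : ∀ q : ℕ, q.Prime → q ∈ π → q = p) (K : Subgroup G) (hK : Cfsg.IsPiSubgroup π K) :
    IsPGroup p K := by
  have hne : Nat.card K ≠ 0 := Nat.card_pos.ne'
  have h1 : ∀ q : ℕ, q.Prime → q ∣ Nat.card K → q = p := fun q hq hd => hπ q hq (hK q hq hd)
  refine IsPGroup.of_card (n := (Nat.card K).primeFactorsList.length) ?_
  exact Nat.eq_prime_pow_of_unique_prime_dvd hne (fun {q} hq hd => h1 q hq hd)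

theorem hallpi_E_of_le_one {G : Type*} [Group G] [Finite G] (π : Set ℕ)
    (hπ : ∀ p q : ℕ, p.Prime → q.Prime → p ∈ π → q ∈ π → p = q) : Cfsg.IsEPiGroup π G := by
  by_cases h : ∃ p : ℕ, p.Prime ∧ p ∈ π
  · obtain ⟨p, hp, hpπ⟩ := h
    haveI : Fact p.Prime := ⟨hp⟩
    obtain ⟨P⟩ : Nonempty (Sylow p G) := inferInstance
    refine ⟨P, ?_, ?_⟩
    · intro q hq hd
      obtain ⟨k, hk⟩ := IsPGroup.iff_card.mp P.isPGroup'
      have hk' : Nat.card (P : Subgroup G) = p ^ k := hk
      rw [hk'] at hd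
      have := (Nat.prime_dvd_prime_iff_eq hq hp).mp (hq.dvd_of_dvd_pow hd)
      rw [this]; exact hpπ
    · intro q hq hqπ
      have := hπ q p hq hp hqπ hpπ
      rw [this]
      exact P.not_dvd_index
  · push Not at h
    refine ⟨⊥, ?_, ?_⟩
    · intro q hq hd
      rw [Subgroup.card_bot] at hd
      exact absurd (Nat.dvd_one.mp hd) hq.one_lt.ne'
    · intro q hq hqπ
      exact absurd hqπ (h q hq)

theorem hallpi_E_of_all {G : Type*} [Group G] (π : Set ℕ)
    (hπ : ∀ p : ℕ, p.Prime → p ∈ π) : Cfsg.IsEPiGroup π G := by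
  refine ⟨⊤, fun q hq _ => hπ q hq, ?_⟩
  intro q hq _
  rw [Subgroup.index_top]
  exact fun h => absurd (Nat.dvd_one.mp h) hq.one_lt.ne'

theorem hallpi_D_of_le_one {G : Type*} [Group G] [Finite G] (π : Set ℕ)
    (hπ : ∀ p q : ℕ, p.Prime → q.Prime → p ∈ π → q ∈ π → p = q) : Cfsg.IsDPiGroup π G := by
  intro H K hH hK
  by_cases h : ∃ p : ℕ, p.Prime ∧ p ∈ π
  · obtain ⟨p, hp, hpπ⟩ := h
    haveI : Fact p.Prime := ⟨hp⟩
    have hπ' : ∀ q : ℕ, q.Prime → q ∈ π → q = p := fun q hq hqπ => hπ q p hq hp hqπ hpπ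
    have key : ∀ L : Subgroup G, Maximal (Cfsg.IsPiSubgroup π) L → ∃ P : Sylow p G, (P : Subgroup G) = L := by
      intro L hL
      have hLp := hallpi_card_prime_pow π p hp hπ' L hL.1
      obtain ⟨P, hP⟩ := hLp.exists_le_sylow
      refine ⟨P, le_antisymm ?_ hP⟩
      apply hL.2 _ hP
      intro q hq hd
      obtain ⟨k, hk⟩ := IsPGroup.iff_card.mp P.isPGroup'
      have hk' : Nat.card (P : Subgroup G) = p ^ k := hk
      rw [hk'] at hd
      have := (Nat.prime_dvd_prime_iff_eq hq hp).mp (hq.dvd_of_dvd_pow hd)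
      rw [this]; exact hpπ
    obtain ⟨P, hP⟩ := key H hH
    obtain ⟨Q, hQ⟩ := key K hK
    obtain ⟨g, hg⟩ := MulAction.exists_smul_eq G P Q
    refine ⟨g, ?_⟩
    rw [← hP, ← hQ, ← hg]
    rfl
  · push Not at h
    have key : ∀ L : Subgroup G, Cfsg.IsPiSubgroup π L → L = ⊥ := by
      intro L hL
      rw [← Subgroup.card_eq_one]
      by_contra hne
      obtain ⟨q, hq, hd⟩ := Nat.exists_prime_and_dvd hne
      exact h q hq (hL q hq hd)
    refine ⟨1, ?_⟩
    rw [key H hH.1, key K hK.1]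
    simp

theorem hallpi_D_of_all {G : Type*} [Group G] (π : Set ℕ)
    (hπ : ∀ p : ℕ, p.Prime → p ∈ π) : Cfsg.IsDPiGroup π G := by
  intro H K hH hK
  have key : ∀ L : Subgroup G, Maximal (Cfsg.IsPiSubgroup π) L → L = ⊤ := by
    intro L hL
    exact top_le_iff.mp (hL.2 (fun q hq _ => hπ q hq) le_top)
  refine ⟨1, ?_⟩
  rw [key H hH, key K hK]
  simp

theorem hallpi_E_of_D {G : Type*} [Group G] [Finite G] (π : Set ℕ) (hD : Cfsg.IsDPiGroup π G) :
    Cfsg.IsEPiGroup π G := by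
  have hbot : Cfsg.IsPiSubgroup π (⊥ : Subgroup G) := by
    intro q hq hd
    rw [Subgroup.card_bot] at hd
    exact absurd (Nat.dvd_one.mp hd) hq.one_lt.ne'
  obtain ⟨H, -, hH⟩ := Finite.exists_le_maximal hbot
  refine ⟨H, hH.1, ?_⟩
  intro p hp hpπ
  haveI : Fact p.Prime := ⟨hp⟩
  obtain ⟨P⟩ : Nonempty (Sylow p G) := inferInstance
  have hP : Cfsg.IsPiSubgroup π (P : Subgroup G) := by
    intro q hq hd
    obtain ⟨k, hk⟩ := IsPGroup.iff_card.mp P.isPGroup'
    have hk' : Nat.card (P : Subgroup G) = p ^ k := hk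
    rw [hk'] at hd
    have := (Nat.prime_dvd_prime_iff_eq hq hp).mp (hq.dvd_of_dvd_pow hd)
    rw [this]; exact hpπ
  obtain ⟨K, hPK, hK⟩ := Finite.exists_le_maximal hP
  obtain ⟨g, hg⟩ := hD H K hH hK
  have hcard : Nat.card K = Nat.card H := by
    rw [hg]
    exact Subgroup.card_map_of_injective (MulAut.conj g).injective
  have hidx : K.index = H.index := by
    have h1 := K.card_mul_index
    have h2 := H.card_mul_index
    rw [hcard] at h1
    have hpos : 0 < Nat.card H := Nat.card_pos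
    exact Nat.eq_of_mul_eq_mul_left hpos (h1.trans h2.symm)
  rw [← hidx]
  intro hd
  exact P.not_dvd_index (hd.trans (Subgroup.index_dvd_of_le hPK))





/-- a subgroup of `S_q` (`q` prime) of index prime to `q` is primitive -/
theorem hallpi_primitive (q : ℕ) (hq : q.Prime) (H : Subgroup (Perm (Fin q)))
    (hidx : ¬ q ∣ H.index) : MulAction.IsPreprimitive H (Fin q) := by
  haveI : Fact q.Prime := ⟨hq⟩
  obtain ⟨n, rfl⟩ : ∃ n, q = n + 2 := ⟨q - 2, by have := hq.two_le; omega⟩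
  have hc : IsCycle (finRotate (n + 2)) := isCycle_finRotate
  have hcs : (finRotate (n + 2)).support = Finset.univ := support_finRotate
  have hord : orderOf (finRotate (n + 2)) = (n + 2) ^ 1 := by
    rw [hc.orderOf, hcs, pow_one]; simp
  obtain ⟨x, hx⟩ := hallpi_conj_mem H (n + 2) hidx (finRotate (n + 2)) ⟨1, hord⟩
  set c := x⁻¹ * finRotate (n + 2) * x with hcdef
  have hc' : IsCycle c := by
    have := hc.conj (g := x⁻¹)
    rwa [inv_inv] at this
  have hsupp : ∀ a : Fin (n + 2), c a ≠ a := by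
    intro a h
    have h1 : finRotate (n + 2) (x a) = x a := by
      have : x (c a) = x a := by rw [h]
      simpa [hcdef] using this
    have : x a ∈ (finRotate (n + 2)).support := by rw [hcs]; exact Finset.mem_univ _
    exact (Equiv.Perm.mem_support.mp this) h1
  haveI : MulAction.IsPretransitive H (Fin (n + 2)) := by
    refine ⟨fun a b => ?_⟩
    obtain ⟨i, hi⟩ := hc'.exists_pow_eq (hsupp a) (hsupp b)
    exact ⟨⟨c ^ i, pow_mem hx i⟩, hi⟩
  apply MulAction.IsPreprimitive.of_prime_card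
  rw [Nat.card_eq_fintype_card, Fintype.card_fin]
  exact hq







/-- case (a): `2, q ∈ π`, `r ∉ π`, `r < q`: `S_q` has no Hall `π`-subgroup -/
theorem hallpi_case_swap (π : Set ℕ) (q r : ℕ) (hq : q.Prime) (hr : r.Prime) (h2 : 2 ∈ π)
    (hqπ : q ∈ π) (hrπ : r ∉ π) (hrq : r < q) : ¬ Cfsg.IsEPiGroup π (Perm (Fin q)) := by
  rintro ⟨H, hH1, hH2⟩
  haveI : Fact (Nat.Prime 2) := ⟨Nat.prime_two⟩
  have hprim := hallpi_primitive q hq H (hH2 q hq hqπ)
  have hq2 : 2 ≤ q := hq.two_le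
  obtain ⟨n, rfl⟩ : ∃ n, q = n + 2 := ⟨q - 2, by omega⟩
  have hsw : orderOf (swap (0 : Fin (n + 2)) 1) = 2 ^ 1 := by
    rw [pow_one]
    have hsw' : IsSwap (swap (0 : Fin (n + 2)) 1) := ⟨0, 1, by simp, rfl⟩
    exact hsw'.orderOf
  obtain ⟨x, hx⟩ := hallpi_conj_mem H 2 (hH2 2 Nat.prime_two h2) (swap (0 : Fin (n + 2)) 1) ⟨1, hsw⟩
  have hisw : IsSwap (x⁻¹ * swap (0 : Fin (n + 2)) 1 * x) := by
    rw [← card_support_eq_two]
    have := card_support_conj (σ := x⁻¹) (τ := swap (0 : Fin (n + 2)) 1)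
    rw [inv_inv] at this
    rw [this, card_support_swap (by simp)]
  have htop : H = ⊤ := subgroup_eq_top_of_isPreprimitive_of_isSwap_mem hprim _ hisw hx
  have hcard : Nat.card H = (n + 2).factorial := by
    rw [htop, Subgroup.card_top, Nat.card_perm, Nat.card_eq_fintype_card, Fintype.card_fin]
  apply hrπ
  apply hH1 r hr
  rw [hcard]
  exact Nat.dvd_factorial hr.pos hrq.le

/-- case (c): `2 ∉ π`, `p < q` odd primes in `π`: `S_q` has no Hall `π`-subgroup -/
theorem hallpi_case_odd (π : Set ℕ) (p q : ℕ) (hp : p.Prime) (hq : q.Prime) (h2 : 2 ∉ π)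
    (hpπ : p ∈ π) (hqπ : q ∈ π) (hpq : p < q) : ¬ Cfsg.IsEPiGroup π (Perm (Fin q)) := by
  rintro ⟨H, hH1, hH2⟩
  haveI : Fact p.Prime := ⟨hp⟩
  have hprim := hallpi_primitive q hq H (hH2 q hq hqπ)
  have hp2 : p ≠ 2 := fun h => h2 (h ▸ hpπ)
  have hq2 : q ≠ 2 := fun h => h2 (h ▸ hqπ)
  have hp3 : 3 ≤ p := by have := hp.two_le; omega
  have hqodd : ¬ 2 ∣ q := fun h => hq2 ((Nat.prime_dvd_prime_iff_eq Nat.prime_two hq).mp h).symm
  have hpodd : ¬ 2 ∣ p := fun h => hp2 ((Nat.prime_dvd_prime_iff_eq Nat.prime_two hp).mp h).symm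
  have hpq2 : p + 2 ≤ q := by omega
  obtain ⟨n, rfl⟩ : ∃ n, q = n + 1 := ⟨q - 1, by omega⟩
  -- a p-cycle
  set i : Fin (n + 1) := ⟨p - 1, by omega⟩ with hi
  have hi0 : i ≠ 0 := by
    intro h
    have := congrArg Fin.val h
    simp [hi] at this
    omega
  have hcyc : IsCycle (Fin.cycleRange i) := Fin.isCycle_cycleRange hi0
  have hct : (Fin.cycleRange i).cycleType = {p} := by
    rw [Fin.cycleType_cycleRange hi0]
    congr 1
    simp [hi]; omega
  have hord : orderOf (Fin.cycleRange i) = p ^ 1 := by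
    rw [← lcm_cycleType, hct]; simp
  obtain ⟨x, hx⟩ := hallpi_conj_mem H p (hH2 p hp hpπ) (Fin.cycleRange i) ⟨1, hord⟩
  set g := x⁻¹ * Fin.cycleRange i * x with hg
  have hgc : IsCycle g := by
    have := hcyc.conj (g := x⁻¹)
    rwa [inv_inv] at this
  have hgs : g.support.card = p := by
    have := card_support_conj (σ := x⁻¹) (τ := Fin.cycleRange i)
    rw [inv_inv] at this
    rw [hg, this, ← sum_cycleType, hct]; simp
  have htr := isPretransitive_of_isCycle_mem (G := H) hgc hx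
  have hsc : Set.ncard ((g.support : Set (Fin (n + 1)))ᶜ) = (n - p) + 1 := by
    have h1 := Set.ncard_add_ncard_compl (g.support : Set (Fin (n + 1)))
    rw [Set.ncard_coe_finset, hgs, Nat.card_eq_fintype_card, Fintype.card_fin] at h1
    omega
  have h2t : MulAction.IsMultiplyPretransitive H (Fin (n + 1)) 2 := by
    apply hprim.is_two_pretransitive hsc _ htr
    rw [Nat.card_eq_fintype_card, Fintype.card_fin]
    omega
  rw [MulAction.is_two_pretransitive_iff] at h2t
  have h01 : (0 : Fin (n + 1)) ≠ ⟨1, by omega⟩ := by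
    intro h
    have := congrArg Fin.val h
    simp at this
  obtain ⟨k, hk1, hk2⟩ := h2t h01 h01.symm
  -- k has even order
  have heven : 2 ∣ orderOf k := by
    by_contra hodd
    have hk0 : (k ^ 2) • (0 : Fin (n + 1)) = 0 := by
      rw [pow_two, mul_smul, hk1, hk2]
    have hpow : ∀ m : ℕ, (k ^ (2 * m)) • (0 : Fin (n + 1)) = 0 := by
      intro m
      induction m with
      | zero => simp
      | succ m ih => rw [show 2 * (m + 1) = 2 * m + 2 by ring, pow_add, mul_smul, hk0, ih]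
    obtain ⟨m, hm⟩ : ∃ m, orderOf k + 1 = 2 * m := ⟨(orderOf k + 1) / 2, by omega⟩
    have := hpow m
    rw [← hm, pow_succ, pow_orderOf_eq_one, one_mul, hk1] at this
    exact h01 this.symm
  apply h2
  apply hH1 2 Nat.prime_two
  exact heven.trans (orderOf_dvd_natCard k)



/-- case (b): all primes below `r ≥ 5` lie in `π`, `r ∉ π`: `A_{r+1}` has no Hall `π`-subgroup -/
theorem hallpi_case_alt (π : Set ℕ) (r : ℕ) (hr : r.Prime) (hrπ : r ∉ π)
    (hlt : ∀ s : ℕ, s.Prime → s < r → s ∈ π) (h5 : 5 ≤ r) :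
    ¬ Cfsg.IsEPiGroup π (alternatingGroup (Fin (r + 1))) := by
  rintro ⟨H, hH1, hH2⟩
  haveI : Nontrivial (Fin (r + 1)) := Fin.nontrivial_iff_two_le.mpr (by omega)
  have hcardG : 2 * Nat.card (alternatingGroup (Fin (r + 1))) = (r + 1).factorial := by
    rw [two_mul_nat_card_alternatingGroup, Nat.card_perm, Nat.card_eq_fintype_card,
      Fintype.card_fin]
  haveI : IsSimpleGroup (alternatingGroup (Fin (r + 1))) :=
    alternatingGroup.isSimpleGroup (by rw [Nat.card_eq_fintype_card, Fintype.card_fin]; omega)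
  have hrodd : ¬ 2 ∣ r := by
    intro h
    have := (Nat.prime_dvd_prime_iff_eq Nat.prime_two hr).mp h
    omega
  have hm_dvd : H.index ∣ (r + 1).factorial :=
    (H.index_dvd_card).trans ⟨2, by rw [mul_comm]; exact hcardG.symm⟩
  have hm_prime : ∀ s : ℕ, s.Prime → s ∣ H.index → s = r := by
    intro s hs hd
    have hsπ : s ∉ π := fun h => hH2 s hs h hd
    have hsle : s ≤ r + 1 := (hs.dvd_factorial).mp (hd.trans hm_dvd)
    by_contra hne
    have hrs : r ≤ s := by
      by_contra h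
      exact hsπ (hlt s hs (not_le.mp h))
    have hs1 : s = r + 1 := by omega
    have h2s : 2 ∣ s := by omega
    have := (Nat.prime_dvd_prime_iff_eq Nat.prime_two hs).mp h2s
    omega
  have hcop : Nat.Coprime H.index ((r + 1) * (r - 1).factorial) := by
    apply Nat.coprime_of_dvd
    intro s hs hd hd2
    have hsr := hm_prime s hs hd
    rw [hsr] at hd2
    rcases (Nat.Prime.dvd_mul hr).mp hd2 with h | h
    · have : r ∣ 1 := (Nat.dvd_add_right (dvd_refl r)).mp h
      have := Nat.dvd_one.mp this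
      omega
    · have := (hr.dvd_factorial).mp h
      omega
  have hfac : (r + 1).factorial = r * ((r + 1) * (r - 1).factorial) := by
    rw [Nat.factorial_succ]
    have : r.factorial = r * (r - 1).factorial := by
      obtain ⟨k, rfl⟩ : ∃ k, r = k + 1 := ⟨r - 1, by omega⟩
      simp [Nat.factorial_succ]
    rw [this]; ring
  have hmr : H.index ∣ r := by
    rw [hfac] at hm_dvd
    exact hcop.dvd_of_dvd_mul_right hm_dvd
  have hrG : r ∣ Nat.card (alternatingGroup (Fin (r + 1))) := by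
    have h1 : r ∣ 2 * Nat.card (alternatingGroup (Fin (r + 1))) := by
      rw [hcardG]
      exact (hr.dvd_factorial).mpr (by omega)
    rcases (Nat.Prime.dvd_mul hr).mp h1 with h | h
    · have := Nat.le_of_dvd (by norm_num) h
      omega
    · exact h
  rcases (Nat.dvd_prime hr).mp hmr with h1 | h1
  · -- index one
    rw [Subgroup.index_eq_one] at h1
    apply hrπ
    apply hH1 r hr
    rw [h1, Subgroup.card_top]
    exact hrG
  · -- index r
    have hHtop : H ≠ ⊤ := by
      intro h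
      rw [h, Subgroup.index_top] at h1
      omega
    have hcore : H.normalCore = ⊥ := by
      rcases (H.normalCore_normal).eq_bot_or_eq_top with h | h
      · exact h
      · exact absurd (top_le_iff.mp (h ▸ H.normalCore_le)) hHtop
    have hinj : Function.Injective (MulAction.toPermHom (alternatingGroup (Fin (r + 1)))
        ((alternatingGroup (Fin (r + 1))) ⧸ H)) := by
      rw [← MonoidHom.ker_eq_bot_iff, ← Subgroup.normalCore_eq_ker]
      exact hcore
    have hdvd := Subgroup.card_dvd_of_injective _ hinj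
    rw [Nat.card_perm] at hdvd
    have hidx : Nat.card ((alternatingGroup (Fin (r + 1))) ⧸ H) = r := h1
    rw [hidx] at hdvd
    obtain ⟨t, ht⟩ := hdvd
    rw [Nat.factorial_succ, ht] at hcardG
    have hpos : 0 < Nat.card (alternatingGroup (Fin (r + 1))) := Nat.card_pos
    have h2 : 2 = (r + 1) * t := by
      have : Nat.card (alternatingGroup (Fin (r + 1))) * 2
          = Nat.card (alternatingGroup (Fin (r + 1))) * ((r + 1) * t) := by
        rw [mul_comm _ 2, hcardG]; ring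
      exact Nat.eq_of_mul_eq_mul_left hpos this
    have ht0 : t ≠ 0 := by
      rintro rfl
      simp at h2
    have : r + 1 ≤ (r + 1) * t := Nat.le_mul_of_pos_right _ (Nat.pos_of_ne_zero ht0)
    omega


theorem hallpi_E_imp (π : Set ℕ)
    (hE : ∀ (G : Type) [Group G] [Finite G], Cfsg.IsEPiGroup π G) :
    (∀ p q : ℕ, p.Prime → q.Prime → p ∈ π → q ∈ π → p = q) ∨ ∀ p : ℕ, p.Prime → p ∈ π := by
  by_contra hcon
  push Not at hcon
  obtain ⟨⟨p, q, hp, hq, hpπ, hqπ, hpq⟩, ⟨r, hr, hrπ⟩⟩ := hcon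
  by_cases h2 : 2 ∈ π
  · by_cases hex : ∃ q' r' : ℕ, q'.Prime ∧ r'.Prime ∧ q' ∈ π ∧ r' ∉ π ∧ r' < q'
    · obtain ⟨q', r', hq', hr', hq'π, hr'π, hlt⟩ := hex
      exact hallpi_case_swap π q' r' hq' hr' h2 hq'π hr'π hlt (hE _)
    · push Not at hex
      have hexr : ∃ r : ℕ, r.Prime ∧ r ∉ π := ⟨r, hr, hrπ⟩
      classical
      obtain ⟨r₀, hr₀p, hr₀π, hmin⟩ : ∃ r₀ : ℕ, r₀.Prime ∧ r₀ ∉ π ∧
          ∀ s : ℕ, s.Prime → s < r₀ → s ∈ π :=
        ⟨Nat.find hexr, (Nat.find_spec hexr).1, (Nat.find_spec hexr).2, fun s hs hlt => by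
          by_contra hsπ
          exact Nat.find_min hexr hlt ⟨hs, hsπ⟩⟩
      have hbig : ∀ q' : ℕ, q'.Prime → q' ∈ π → q' < r₀ := by
        intro q' hq' hq'π
        have h1 := hex q' r₀ hq' hr₀p hq'π hr₀π
        have h2 : q' ≠ r₀ := fun h => hr₀π (by rw [← h]; exact hq'π)
        omega
      have h5 : 5 ≤ r₀ := by
        have hp' := hbig p hp hpπ
        have hq' := hbig q hq hqπ
        have hp2 := hp.two_le
        have hq2 := hq.two_le
        have h4 : 4 ≤ r₀ := by omega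
        have hne4 : r₀ ≠ 4 := by
          intro h
          rw [h] at hr₀p
          exact absurd hr₀p (by decide)
        omega
      exact hallpi_case_alt π r₀ hr₀p hr₀π hmin h5 (hE _)
  · rcases lt_or_gt_of_ne hpq with h | h
    · exact hallpi_case_odd π p q hp hq h2 hpπ hqπ h (hE _)
    · exact hallpi_case_odd π q p hq hp h2 hqπ hpπ h (hE _)

theorem hallpi_main (π : Set ℕ) :
    ((∀ (G : Type) [Group G] [Finite G], Cfsg.IsEPiGroup π G) ↔
      ((∀ p q : ℕ, p.Prime → q.Prime → p ∈ π → q ∈ π → p = q) ∨ ∀ p : ℕ, p.Prime → p ∈ π)) ∧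
    ((∀ (G : Type) [Group G] [Finite G], Cfsg.IsDPiGroup π G) ↔
      ((∀ p q : ℕ, p.Prime → q.Prime → p ∈ π → q ∈ π → p = q) ∨ ∀ p : ℕ, p.Prime → p ∈ π)) := by
  refine ⟨⟨hallpi_E_imp π, ?_⟩, ⟨?_, ?_⟩⟩
  · rintro (h | h) G _ _
    · exact hallpi_E_of_le_one π h
    · exact hallpi_E_of_all π h
  · intro hD
    exact hallpi_E_imp π (fun G _ _ => hallpi_E_of_D π (hD G))
  · rintro (h | h) G _ _
    · exact hallpi_D_of_le_one π h
    · exact hallpi_D_of_all π h

end Cfsg.Agent.Helper37
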