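import Mathlib
import Cfsg.Agent.Helper40.KGLDefs
import Cfsg.Agent.Helper40.KSLDefs
set_option autoImplicit false
namespace Cfsg.Agent.Helper37
open Polynomial Cfsg.Agent.Helper40.KGL Cfsg.Agent.Helper40.KSL
open scoped DirectSum
open Classical
universe u v

/-- PIECE B16 -/
theorem fiber_le_gamDat {F : Type u} [Field F] [Fintype F] {n : ℕ} (hn : 1 ≤ n)
    (hB1 : ∀ (g : Matrix.SpecialLinearGroup (Fin n) F) (D : Subgroup Fˣ),
      (∀ d ∈ D, ∃ c : GL (Fin n) F,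
        c * Matrix.SpecialLinearGroup.toGL g = Matrix.SpecialLinearGroup.toGL g * c ∧
        Matrix.GeneralLinearGroup.det c = d) →
      Nat.card {c : ConjClasses (Matrix.SpecialLinearGroup (Fin n) F) //
        ConjClasses.map Matrix.SpecialLinearGroup.toGL c =
          ConjClasses.mk (Matrix.SpecialLinearGroup.toGL g)} ≤ D.index)
    (hB2 : ∀ (s : Multiset ℕ) (D : Subgroup Fˣ), (∀ e ∈ s, ∀ z : Fˣ, z ^ e ∈ D) →
      D.index ≤ Nat.gcd (Fintype.card F - 1) s.gcd)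
    (hB4 : ∀ (g : GL (Fin n) F) (ι : Type u) [Fintype ι] (p : ι → F[X]) (e : ι → ℕ),
      (∀ i, (p i).Monic) →
      ∀ (_ψ : Module.AEval' (Matrix.toLin' (g : Matrix (Fin n) (Fin n) F)) ≃ₗ[F[X]]
        ⨁ i, F[X] ⧸ Submodule.span F[X] {p i ^ e i}) (i₀ : ι) (h : F[X]),
      IsCoprime h (p i₀ ^ e i₀) →
      ∃ c : GL (Fin n) F, c * g = g * c ∧
        ((Matrix.GeneralLinearGroup.det c : Fˣ) : F) = LinearMap.det (mulQ (p i₀ ^ e i₀) h))
    (hB5 : ∀ (p : F[X]), Irreducible p → p.Monic → ∀ e : ℕ, 1 ≤ e → ∀ z : Fˣ,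
      ∃ h : F[X], IsCoprime h (p ^ e) ∧ LinearMap.det (mulQ (p ^ e) h) = (z : F) ^ e)
    (g : Matrix.SpecialLinearGroup (Fin n) F) (M : Multiset (F[X] × ℕ)) (hM : IsDat n M)
    (hdec : HasDecomp (Matrix.toLin'
      ((Matrix.SpecialLinearGroup.toGL g : GL (Fin n) F) : Matrix (Fin n) (Fin n) F)) M) :
    Nat.card {c : ConjClasses (Matrix.SpecialLinearGroup (Fin n) F) //
      ConjClasses.map Matrix.SpecialLinearGroup.toGL c =
        ConjClasses.mk (Matrix.SpecialLinearGroup.toGL g)} ≤ gamDat (Fintype.card F) M := by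
  -- the subgroup of determinants of the centraliser
  have hD1 : ∀ d ∈ Subgroup.map Matrix.GeneralLinearGroup.det
      (Subgroup.centralizer ({Matrix.SpecialLinearGroup.toGL g} : Set (GL (Fin n) F))),
      ∃ c : GL (Fin n) F,
        c * Matrix.SpecialLinearGroup.toGL g = Matrix.SpecialLinearGroup.toGL g * c ∧
        Matrix.GeneralLinearGroup.det c = d := by
    rintro d ⟨c, hc, rfl⟩
    exact ⟨c, (Subgroup.mem_centralizer_iff.mp hc _ rfl).symm, rfl⟩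
  refine (hB1 g _ hD1).trans ?_
  refine hB2 (M.map Prod.snd) _ ?_
  intro e' he' z
  obtain ⟨ι, hι, p, e, hMeq, ⟨ψ⟩⟩ := hdec
  obtain ⟨x, hx, rfl⟩ := Multiset.mem_map.mp he'
  have hmem : ∀ i : ι, (p i, e i) ∈ M := by
    intro i
    rw [hMeq]
    exact Multiset.mem_map.mpr ⟨i, Finset.mem_univ_val i, rfl⟩
  obtain ⟨i, hi⟩ : ∃ i : ι, (p i, e i) = x := by
    rw [hMeq] at hx
    obtain ⟨i, -, hi⟩ := Multiset.mem_map.mp hx
    exact ⟨i, hi⟩
  subst hi
  obtain ⟨hirr, hmon, -, he1⟩ := hM.1 _ (hmem i)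
  obtain ⟨h, hcop, hdet⟩ := hB5 (p i) hirr hmon (e i) he1 z
  obtain ⟨c, hc, hcdet⟩ := @hB4 (Matrix.SpecialLinearGroup.toGL g) ι hι p e
    (fun j => (hM.1 _ (hmem j)).2.1) ψ i h hcop
  refine ⟨c, ?_, ?_⟩
  · rw [SetLike.mem_coe, Subgroup.mem_centralizer_iff]
    intro y hy
    rw [Set.mem_singleton_iff.mp hy]
    exact hc.symm
  · apply Units.ext
    rw [hcdet, hdet, Units.val_pow_eq_pow_val]

end Cfsg.Agent.Helper37
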