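import Mathlib
import Cfsg.Agent.Helper40.KGLDefs
import Cfsg.Agent.Helper40.KSLDefs
set_option autoImplicit false
namespace Cfsg.Agent.Helper37
open Polynomial Cfsg.Agent.Helper40.KGL Cfsg.Agent.Helper40.KSL
open scoped DirectSum
open Classical
universe u v

/-- PIECE B17 -/
theorem sum_gamSeq_sq_le {F : Type u} [Field F] [Fintype F] (n : ℕ) (hn : 1 ≤ n)
    (hP4 : ∀ m : ℕ, Finite {G : Fin m → F[X] // IsSeq m m G} ∧
      Nat.card {G : Fin m → F[X] // IsSeq m m G} ≤ cnt (Fintype.card F) m m)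
    (hB12 : ∀ (G : Fin n → F[X]), IsSeq n n G →
      gamSeq (Fintype.card F) G ^ 2 ≤
        1 + ∑ c ∈ (Nat.gcd n (Fintype.card F - 1)).divisors.filter (fun c => 2 ≤ c),
          (c ^ 2 - 1) * (if ∀ j : Fin n, G j ≠ 1 → c ∣ j.val + 1 then 1 else 0))
    (hB13 : ∀ c : ℕ, 1 ≤ c → c ∣ n → ∀ (S : Finset (Fin n → F[X])),
      (∀ G, G ∈ S ↔ IsSeq n n G) →
      (S.filter fun G => ∀ j : Fin n, G j ≠ 1 → c ∣ j.val + 1).card ≤
        Nat.card {G : Fin (n / c) → F[X] // IsSeq (n / c) (n / c) G})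
    (S : Finset (Fin n → F[X])) (hS : ∀ G, G ∈ S ↔ IsSeq n n G) :
    ∑ G ∈ S, gamSeq (Fintype.card F) G ^ 2 ≤ bnd (Fintype.card F) n := by
  have hScard : S.card = Nat.card {G : Fin n → F[X] // IsSeq n n G} := by
    letI : Fintype {G : Fin n → F[X] // IsSeq n n G} := Fintype.subtype S hS
    rw [Nat.card_eq_fintype_card, Fintype.subtype_card]
  calc ∑ G ∈ S, gamSeq (Fintype.card F) G ^ 2
      ≤ ∑ G ∈ S, (1 + ∑ c ∈ (Nat.gcd n (Fintype.card F - 1)).divisors.filter (fun c => 2 ≤ c),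
          (c ^ 2 - 1) * (if ∀ j : Fin n, G j ≠ 1 → c ∣ j.val + 1 then 1 else 0)) :=
        Finset.sum_le_sum (fun G hG => hB12 G ((hS G).mp hG))
    _ = S.card + ∑ c ∈ (Nat.gcd n (Fintype.card F - 1)).divisors.filter (fun c => 2 ≤ c),
          (c ^ 2 - 1) * (S.filter fun G => ∀ j : Fin n, G j ≠ 1 → c ∣ j.val + 1).card := by
        rw [Finset.sum_add_distrib, Finset.sum_const, smul_eq_mul, mul_one, Finset.sum_comm]
        congr 1
        refine Finset.sum_congr rfl (fun c _ => ?_)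
        rw [← Finset.mul_sum, Finset.sum_boole, Nat.cast_id]
    _ ≤ cnt (Fintype.card F) n n +
        ∑ c ∈ (Nat.gcd n (Fintype.card F - 1)).divisors.filter (fun c => 2 ≤ c),
          (c ^ 2 - 1) * cnt (Fintype.card F) (n / c) (n / c) := by
        refine Nat.add_le_add ?_ (Finset.sum_le_sum (fun c hc => Nat.mul_le_mul_left _ ?_))
        · rw [hScard]
          exact (hP4 n).2
        · have hc' := (Finset.mem_filter.mp hc)
          have hdvd : c ∣ n := (Nat.dvd_of_mem_divisors hc'.1).trans (Nat.gcd_dvd_left _ _)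
          exact (hB13 c (by omega) hdvd S hS).trans (hP4 (n / c)).2
    _ = bnd (Fintype.card F) n := rfl

end Cfsg.Agent.Helper37
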