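import Mathlib
import Cfsg.Agent.Helper40.KGLDefs
import Cfsg.Agent.Helper40.KSLDefs
set_option autoImplicit false
namespace Cfsg.Agent.Helper37
open Polynomial Cfsg.Agent.Helper40.KGL Cfsg.Agent.Helper40.KSL
open scoped DirectSum
open Classical
universe u v

/-- PIECE B8a -/
theorem det_mulQ_X {F : Type u} [Field F] (f : F[X]) (hf : f.Monic) :
    LinearMap.det (mulQ f X) = nu f := by
  have h1 : mulQ f X = Algebra.lmul F (AdjoinRoot f) (AdjoinRoot.root f) := by
    apply LinearMap.ext
    intro x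
    obtain ⟨g, rfl⟩ := AdjoinRoot.mk_surjective x
    rfl
  have h3 := Algebra.PowerBasis.norm_gen_eq_coeff_zero_minpoly (AdjoinRoot.powerBasis hf.ne_zero)
  rw [AdjoinRoot.minpoly_powerBasis_gen_of_monic hf] at h3
  have h4 : (AdjoinRoot.powerBasis hf.ne_zero).gen = AdjoinRoot.root f := rfl
  have h5 : (AdjoinRoot.powerBasis hf.ne_zero).dim = f.natDegree := rfl
  rw [h4, h5] at h3
  have h6 : LinearMap.det (mulQ f X) = Algebra.norm F (AdjoinRoot.root f) := by
    rw [h1]
    exact (Algebra.norm_apply F _).symm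
  rw [h6, h3]
  rfl

end Cfsg.Agent.Helper37
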