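import Mathlib
import Cfsg.Agent.Helper37.MaxSyl5

set_option autoImplicit false

namespace Cfsg.Agent.Helper37

open Nat
open scoped Pointwise

/-- if a Sylow 2-subgroup of the alternating group lies in a unique maximal subgroup, so does
a Sylow 2-subgroup of the symmetric group -/
theorem alt_unique_imp_sym_unique {α : Type} [Fintype α] [DecidableEq α] (h2 : 2 ≤ Nat.card α)
    (R : Sylow 2 (alternatingGroup α))
    (hun : ∃! M : Subgroup (alternatingGroup α),
      IsCoatom M ∧ (R : Subgroup (alternatingGroup α)) ≤ M) :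
    ∃ P : Sylow 2 (Equiv.Perm α), ∃! L : Subgroup (Equiv.Perm α),
      IsCoatom L ∧ (P : Subgroup (Equiv.Perm α)) ≤ L := by
  haveI : Fact (Nat.Prime 2) := ⟨Nat.prime_two⟩
  have hR' := fullA_of_sylow h2 R
  obtain ⟨P, hRP⟩ := hR'.1.exists_le_sylow
  have hP := full2_of_sylow P
  have hRe := fullA_eq_inf hR' hP hRP h2
  rw [altS_eq] at hRe
  obtain ⟨a, b, hab, ht⟩ := full2_swap_mem hP h2
  obtain ⟨M₀, hM₀, hRM₀, hle⟩ := le_of_unique_coatom _ hun
  obtain ⟨t, htdef⟩ : ∃ t, t = Equiv.swap a b := ⟨_, rfl⟩
  rw [← htdef] at ht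
  have htt : t * t = 1 := by
    rw [htdef]
    exact Equiv.swap_mul_self a b
  have htinv : t⁻¹ = t := inv_eq_of_mul_eq_one_left htt
  have hts : Equiv.Perm.sign t = -1 := by
    rw [htdef]
    exact Equiv.Perm.sign_swap hab
  have hPeven : ∀ p ∈ (P : Subgroup (Equiv.Perm α)), Equiv.Perm.sign p = 1 →
      p ∈ (M₀.map (alternatingGroup α).subtype) := by
    intro p hp hs
    have h1 : p ∈ (R : Subgroup (alternatingGroup α)).map (alternatingGroup α).subtype := by
      rw [hRe]
      exact ⟨hp, Equiv.Perm.mem_alternatingGroup.mpr hs⟩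
    exact Subgroup.map_mono hRM₀ h1
  have hN : ∀ m ∈ M₀.map (alternatingGroup α).subtype,
      t * m * t ∈ M₀.map (alternatingGroup α).subtype := by
    let cj : MulAut (alternatingGroup α) := MulAut.conjNormal t
    have h1 : M₀.map cj.toMonoidHom ≤ M₀ := by
      apply hle
      · intro r hr
        refine ⟨cj.symm r, hRM₀ ?_, by simp⟩
        have h3 : ((cj.symm r : alternatingGroup α) : Equiv.Perm α) ∈
            (R : Subgroup (alternatingGroup α)).map (alternatingGroup α).subtype := by
          rw [hRe]
          refine ⟨?_, (cj.symm r).2⟩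
          rw [MulAut.conjNormal_symm_apply]
          exact Subgroup.mul_mem _ (Subgroup.mul_mem _ (Subgroup.inv_mem _ ht)
            (hRP ⟨r, hr, rfl⟩)) ht
        obtain ⟨r₂, hr₂, h4⟩ := h3
        have h5 : r₂ = cj.symm r := Subtype.ext h4
        rw [← h5]
        exact hr₂
      · intro h
        apply hM₀.1
        rw [eq_top_iff]
        intro x _
        have h3 : cj x ∈ M₀.map cj.toMonoidHom := by
          rw [h]
          trivial
        obtain ⟨y, hy, h4⟩ := h3
        have h5 : y = x := cj.injective h4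
        rw [← h5]
        exact hy
    rintro _ ⟨y, hy, rfl⟩
    have h3 : cj y ∈ M₀ := h1 ⟨y, hy, rfl⟩
    refine ⟨cj y, h3, ?_⟩
    show ((cj y : alternatingGroup α) : Equiv.Perm α) = t * y.1 * t
    rw [MulAut.conjNormal_apply, htinv]
  let L : Subgroup (Equiv.Perm α) :=
    { carrier := {σ | σ ∈ M₀.map (alternatingGroup α).subtype ∨
        σ * t ∈ M₀.map (alternatingGroup α).subtype}
      mul_mem' := by
        rintro x y (hx | hx) (hy | hy)
        · left
          exact Subgroup.mul_mem _ hx hy
        · right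
          have e : x * y * t = x * (y * t) := by group
          rw [e]
          exact Subgroup.mul_mem _ hx hy
        · right
          have e : x * y * t = (x * t) * (t * y * t) := by
            calc x * y * t = x * (t * t) * y * t := by rw [htt, mul_one]
              _ = (x * t) * (t * y * t) := by group
          rw [e]
          exact Subgroup.mul_mem _ hx (hN y hy)
        · left
          have e : x * y = (x * t) * (t * (y * t) * t) := by
            calc x * y = x * (t * t) * y * (t * t) := by rw [htt, mul_one, mul_one]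
              _ = (x * t) * (t * (y * t) * t) := by group
          rw [e]
          exact Subgroup.mul_mem _ hx (hN _ hy)
      one_mem' := Or.inl (Subgroup.one_mem _)
      inv_mem' := by
        rintro x (hx | hx)
        · left
          exact Subgroup.inv_mem _ hx
        · right
          have h1 := hN _ (Subgroup.inv_mem _ hx)
          have e : x⁻¹ * t = t * (x * t)⁻¹ * t := by
            rw [mul_inv_rev, htinv]
            calc x⁻¹ * t = (t * t) * x⁻¹ * t := by rw [htt, one_mul]
              _ = t * (t * x⁻¹) * t := by group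
          rw [e]
          exact h1 }
  have hLdef : ∀ σ, σ ∈ L ↔ (σ ∈ M₀.map (alternatingGroup α).subtype ∨
      σ * t ∈ M₀.map (alternatingGroup α).subtype) := fun σ => Iff.rfl
  have hLtop : L ≠ ⊤ := by
    intro h
    apply hM₀.1
    rw [eq_top_iff]
    intro x _
    have h1 : x.1 ∈ L := by
      rw [h]
      trivial
    rcases (hLdef _).mp h1 with h3 | h3
    · obtain ⟨y, hy, h4⟩ := h3
      have h5 : y = x := Subtype.ext h4
      rw [← h5]
      exact hy
    · exfalso
      obtain ⟨y, hy, h4⟩ := h3
      have h5 : Equiv.Perm.sign (x.1 * t) = 1 := by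
        rw [← h4]
        exact Equiv.Perm.mem_alternatingGroup.mp y.2
      rw [map_mul, Equiv.Perm.mem_alternatingGroup.mp x.2, hts] at h5
      exact absurd h5 (by decide)
  have hPL : (P : Subgroup (Equiv.Perm α)) ≤ L := by
    intro p hp
    rw [hLdef]
    rcases Int.units_eq_one_or (Equiv.Perm.sign p) with hs | hs
    · left
      exact hPeven p hp hs
    · right
      apply hPeven _ (Subgroup.mul_mem _ hp ht)
      rw [map_mul, hs, hts]
      decide
  have hkey : ∀ L' : Subgroup (Equiv.Perm α), IsCoatom L' →
      (P : Subgroup (Equiv.Perm α)) ≤ L' → L' ≤ L := by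
    intro L' hL' hPL'
    have htL' : t ∈ L' := hPL' ht
    have hN' : L'.comap (alternatingGroup α).subtype ≤ M₀ := by
      apply hle
      · intro r hr
        show r.1 ∈ L'
        exact hPL' (hRP ⟨r, hr, rfl⟩)
      · intro h
        apply hL'.1
        rw [eq_top_iff]
        intro σ _
        have hA : ∀ τ : Equiv.Perm α, Equiv.Perm.sign τ = 1 → τ ∈ L' := by
          intro τ hτ
          have h1 : (⟨τ, Equiv.Perm.mem_alternatingGroup.mpr hτ⟩ : alternatingGroup α) ∈
              L'.comap (alternatingGroup α).subtype := by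
            rw [h]
            trivial
          exact h1
        rcases Int.units_eq_one_or (Equiv.Perm.sign σ) with hs | hs
        · exact hA σ hs
        · have h1 := hA (σ * t) (by rw [map_mul, hs, hts]; decide)
          have h3 := L'.mul_mem h1 htL'
          rwa [mul_assoc, htt, mul_one] at h3
    intro σ hσ
    rw [hLdef]
    rcases Int.units_eq_one_or (Equiv.Perm.sign σ) with hs | hs
    · left
      exact ⟨⟨σ, Equiv.Perm.mem_alternatingGroup.mpr hs⟩, hN' hσ, rfl⟩
    · right
      have hs' : Equiv.Perm.sign (σ * t) = 1 := by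
        rw [map_mul, hs, hts]
        decide
      exact ⟨⟨σ * t, Equiv.Perm.mem_alternatingGroup.mpr hs'⟩, hN' (L'.mul_mem hσ htL'), rfl⟩
  obtain ⟨L₀, hL₀, hLL₀⟩ := (eq_top_or_exists_le_coatom L).resolve_left hLtop
  have hL₀L : L₀ ≤ L := hkey L₀ hL₀ (hPL.trans hLL₀)
  have hLeq : L₀ = L := le_antisymm hL₀L hLL₀
  rw [hLeq] at hL₀
  refine ⟨P, L, ⟨hL₀, hPL⟩, ?_⟩
  rintro L' ⟨hL', hPL'⟩
  exact ((hL'.le_iff_eq hLtop).mp (hkey L' hL' hPL')).symm

/-- the converse for alternating groups -/
theorem alt_converse {α : Type} [Fintype α] [DecidableEq α] (h5 : 5 ≤ Nat.card α)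
    (R : Sylow 2 (alternatingGroup α))
    (hun : ∃! M : Subgroup (alternatingGroup α),
      IsCoatom M ∧ (R : Subgroup (alternatingGroup α)) ≤ M) :
    ∃ k : ℕ, 2 ≤ k ∧ Nat.card α = 2 ^ k + 1 := by
  obtain ⟨P, hP⟩ := alt_unique_imp_sym_unique (by omega) R hun
  exact sym_converse h5 P hP

end Cfsg.Agent.Helper37
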