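import Cfsg.Prelude.Def_Transfer
import Cfsg.Prelude.Def_Solvable
import Cfsg.Agent.Helper63.N15Defs

set_option autoImplicit false

namespace Cfsg.Agent.Helper37.N15

open Cfsg.Agent.Helper63.N15

variable {S : Type*} [Group S] [Finite S] {E : Type*} [AddCommGroup E] [Module (ZMod 3) E]
  [Finite E]

theorem p1b (B : Subgroup S) (b : S) (hb : Subgroup.zpowers b = B) (hB : Nat.card ↥B = 3)
    (Q : Subgroup S) (hQ : Cfsg.IsElementaryAbelian 2 Q) (hQ4 : Nat.card ↥Q = 4)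
    (hBQ : B ≤ Subgroup.normalizer (Q : Set S))
    (hBQ' : ¬ B ≤ Subgroup.centralizer (Q : Set S)) :
    b ^ 3 = 1 ∧ ∃ q₁ q₂ q₃ : S, q₁ ∈ Q ∧ q₂ ∈ Q ∧ q₃ ∈ Q ∧ q₁ ≠ 1 ∧ q₁ * q₁ = 1 ∧ q₂ * q₂ = 1 ∧
      q₃ * q₃ = 1 ∧ q₁ * q₂ = q₃ ∧ q₂ * q₁ = q₃ ∧ b * q₁ * b⁻¹ = q₂ ∧ b * q₂ * b⁻¹ = q₃ ∧
      b * q₃ * b⁻¹ = q₁ := by
  classical
  have hb3 : b ^ 3 = 1 := by
    have h1 : orderOf b = 3 := by
      rw [← Nat.card_zpowers, hb, hB]
    rw [← h1]; exact pow_orderOf_eq_one b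
  have hbB : b ∈ B := hb ▸ Subgroup.mem_zpowers b
  have hbN := hBQ hbB
  rw [Subgroup.mem_normalizer_iff] at hbN
  -- a non-fixed element
  obtain ⟨q₁, hq1, hne⟩ : ∃ q₁ ∈ Q, b * q₁ * b⁻¹ ≠ q₁ := by
    by_contra hall
    push Not at hall
    apply hBQ'
    rw [← hb, Subgroup.zpowers_le, Subgroup.mem_centralizer_iff]
    intro h hh
    have := hall h hh
    calc h * b = (b * h * b⁻¹) * b := by rw [this]
      _ = b * h := by rw [inv_mul_cancel_right]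
  obtain ⟨q₂, hq2def⟩ : ∃ q₂, q₂ = b * q₁ * b⁻¹ := ⟨_, rfl⟩
  obtain ⟨q₃, hq3def⟩ : ∃ q₃, q₃ = b * q₂ * b⁻¹ := ⟨_, rfl⟩
  have hq2 : q₂ ∈ Q := by rw [hq2def]; exact (hbN q₁).mp hq1
  have hq3 : q₃ ∈ Q := by rw [hq3def]; exact (hbN q₂).mp hq2
  have hb31 : b * q₃ * b⁻¹ = q₁ := by
    rw [hq3def, hq2def]
    have : b * (b * (b * q₁ * b⁻¹) * b⁻¹) * b⁻¹ = b ^ 3 * q₁ * (b ^ 3)⁻¹ := by
      simp only [pow_succ, pow_zero, one_mul, mul_inv_rev, mul_assoc]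
    rw [this, hb3]; simp
  have hsq : ∀ x ∈ Q, x * x = 1 := by
    intro x hx
    have := hQ.2 x hx
    rwa [pow_two] at this
  have hcomm : ∀ x ∈ Q, ∀ y ∈ Q, x * y = y * x := by
    intro x hx y hy
    have := hQ.1.is_comm.comm (⟨x, hx⟩ : Q) ⟨y, hy⟩
    exact congrArg Subtype.val this
  have hq1ne : q₁ ≠ 1 := by
    intro h
    apply hne
    rw [h]; simp
  have h12 : q₂ ≠ q₁ := by rw [hq2def]; exact hne
  have hq2ne : q₂ ≠ 1 := by
    intro h
    apply hq1ne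
    rw [hq2def] at h
    have : q₁ = b⁻¹ * (b * q₁ * b⁻¹) * b := by group
    rw [this, h]; simp
  have hq3ne : q₃ ≠ 1 := by
    intro h
    apply hq2ne
    rw [hq3def] at h
    have : q₂ = b⁻¹ * (b * q₂ * b⁻¹) * b := by group
    rw [this, h]; simp
  have h23 : q₃ ≠ q₂ := by
    intro h
    apply hne
    -- b q₂ b⁻¹ = q₂ means b (b q₁ b⁻¹) b⁻¹ = b q₁ b⁻¹
    rw [hq3def] at h
    have h' : b * q₂ * b⁻¹ = b * q₁ * b⁻¹ := by rw [h, hq2def]
    have h'' : q₂ = q₁ := by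
      have e1 : q₂ = b⁻¹ * (b * q₂ * b⁻¹) * b := by group
      have e2 : q₁ = b⁻¹ * (b * q₁ * b⁻¹) * b := by group
      rw [e1, h', ← e2]
    exact absurd h'' h12
  have h13 : q₃ ≠ q₁ := by
    intro h
    -- b q₃ b⁻¹ = q₁ = q₃ so q₃ fixed; then q₂ = b⁻¹ q₃ b = q₃
    have h1 : b * q₃ * b⁻¹ = q₃ := by rw [hb31, h]
    have h2 : b * q₃ * b⁻¹ = b * q₂ * b⁻¹ := by rw [h1, hq3def]
    have h3 : q₃ = q₂ := by
      have e1 : q₃ = b⁻¹ * (b * q₃ * b⁻¹) * b := by group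
      have e2 : q₂ = b⁻¹ * (b * q₂ * b⁻¹) * b := by group
      rw [e1, h2, ← e2]
    exact h23 h3
  -- the four elements exhaust Q
  have hT : ({1, q₁, q₂, q₃} : Finset S).card = 4 := by
    rw [Finset.card_insert_of_notMem, Finset.card_insert_of_notMem,
      Finset.card_insert_of_notMem, Finset.card_singleton]
    · simp only [Finset.mem_singleton]; exact fun h => h23 h.symm
    · simp only [Finset.mem_insert, Finset.mem_singleton, not_or]
      exact ⟨fun h => h12 h.symm, fun h => h13 h.symm⟩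
    · simp only [Finset.mem_insert, Finset.mem_singleton, not_or]
      exact ⟨fun h => hq1ne h.symm, fun h => hq2ne h.symm, fun h => hq3ne h.symm⟩
  have hsub : ((({1, q₁, q₂, q₃} : Finset S) : Set S)) ⊆ (Q : Set S) := by
    intro x hx
    simp only [Finset.coe_insert, Finset.coe_singleton, Set.mem_insert_iff,
      Set.mem_singleton_iff] at hx
    rcases hx with rfl | rfl | rfl | rfl
    · exact Q.one_mem
    · exact hq1
    · exact hq2
    · exact hq3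
  have heq : ((({1, q₁, q₂, q₃} : Finset S) : Set S)) = (Q : Set S) := by
    apply Set.eq_of_subset_of_ncard_le hsub _ (Set.toFinite _)
    rw [Set.ncard_coe_finset, hT]
    have : (Q : Set S).ncard = Nat.card Q := (Nat.card_coe_set_eq (Q : Set S)).symm
    rw [this]
    exact hQ4.le
  have hmem : ∀ x ∈ Q, x = 1 ∨ x = q₁ ∨ x = q₂ ∨ x = q₃ := by
    intro x hx
    have : x ∈ ((({1, q₁, q₂, q₃} : Finset S) : Set S)) := by rw [heq]; exact hx
    simpa using this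
  have hprod : q₁ * q₂ = q₃ := by
    rcases hmem (q₁ * q₂) (Q.mul_mem hq1 hq2) with h | h | h | h
    · exfalso
      apply h12
      have : q₂ = q₁ * (q₁ * q₂) := by rw [← mul_assoc, hsq q₁ hq1, one_mul]
      rw [this, h, mul_one]
    · exfalso
      apply hq2ne
      have : q₂ = q₁ * (q₁ * q₂) := by rw [← mul_assoc, hsq q₁ hq1, one_mul]
      rw [this, h, hsq q₁ hq1]
    · exfalso
      apply hq1ne
      have : q₁ = (q₁ * q₂) * q₂ := by rw [mul_assoc, hsq q₂ hq2, mul_one]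
      rw [this, h, hsq q₂ hq2]
    · exact h
  refine ⟨hb3, q₁, q₂, q₃, hq1, hq2, hq3, hq1ne, hsq q₁ hq1, hsq q₂ hq2, hsq q₃ hq3, hprod, ?_,
    hq2def.symm, hq3def.symm, hb31⟩
  rw [hcomm q₂ hq2 q₁ hq1]; exact hprod

end Cfsg.Agent.Helper37.N15
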