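import Cfsg.Prelude.Def_Transfer
import Cfsg.Prelude.Def_Solvable
import Cfsg.Agent.Helper63.N15Defs

set_option autoImplicit false

namespace Cfsg.Agent.Helper37.N15

open Cfsg.Agent.Helper63.N15

variable {S : Type*} [Group S] [Finite S] {E : Type*} [AddCommGroup E] [Module (ZMod 3) E]
  [Finite E]

theorem p1c (K B : Subgroup S) (b : S) (hbB : b ∈ B) (q₁ q₂ q₃ : S) (h11 : q₁ * q₁ = 1)
    (h22 : q₂ * q₂ = 1) (h33 : q₃ * q₃ = 1) (h12 : q₁ * q₂ = q₃) (h21 : q₂ * q₁ = q₃)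
    (hb1 : b * q₁ * b⁻¹ = q₂) (hb2 : b * q₂ * b⁻¹ = q₃) (hb3 : b * q₃ * b⁻¹ = q₁)
    (hK : ∀ h : S, h = q₁ ∨ h = q₂ ∨ h = q₃ → b * h * b⁻¹ * h⁻¹ ∈ K) :
    q₁ ∈ ⁅K, B⁆ ∧ q₂ ∈ ⁅K, B⁆ ∧ q₃ ∈ ⁅K, B⁆ := by
  have i1 : q₁⁻¹ = q₁ := inv_eq_of_mul_eq_one_right h11
  have i2 : q₂⁻¹ = q₂ := inv_eq_of_mul_eq_one_right h22
  have i3 : q₃⁻¹ = q₃ := inv_eq_of_mul_eq_one_right h33
  have e23 : q₂ * q₃ = q₁ := by rw [← h21, ← mul_assoc, h22, one_mul]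
  have e32 : q₃ * q₂ = q₁ := by rw [← h12, mul_assoc, h22, mul_one]
  have e13 : q₁ * q₃ = q₂ := by rw [← h12, ← mul_assoc, h11, one_mul]
  have e31 : q₃ * q₁ = q₂ := by rw [← h21, mul_assoc, h11, mul_one]
  have k3 : q₃ ∈ K := by
    have := hK q₁ (Or.inl rfl)
    rwa [hb1, i1, h21] at this
  have k1 : q₁ ∈ K := by
    have := hK q₂ (Or.inr (Or.inl rfl))
    rwa [hb2, i2, e32] at this
  have k2 : q₂ ∈ K := by
    have := hK q₃ (Or.inr (Or.inr rfl))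
    rwa [hb3, i3, e13] at this
  have c1 : q₁ * b * q₁⁻¹ * b⁻¹ = q₃ := by
    have : q₁ * b * q₁⁻¹ * b⁻¹ = q₁ * (b * q₁ * b⁻¹)⁻¹ := by group
    rw [this, hb1, i2, h12]
  have c2 : q₂ * b * q₂⁻¹ * b⁻¹ = q₁ := by
    have : q₂ * b * q₂⁻¹ * b⁻¹ = q₂ * (b * q₂ * b⁻¹)⁻¹ := by group
    rw [this, hb2, i3, e23]
  have c3 : q₃ * b * q₃⁻¹ * b⁻¹ = q₂ := by
    have : q₃ * b * q₃⁻¹ * b⁻¹ = q₃ * (b * q₃ * b⁻¹)⁻¹ := by group
    rw [this, hb3, i1, e31]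
  refine ⟨?_, ?_, ?_⟩
  · have h := Subgroup.commutator_mem_commutator k2 hbB
    rw [commutatorElement_def, c2] at h
    exact h
  · have h := Subgroup.commutator_mem_commutator k3 hbB
    rw [commutatorElement_def, c3] at h
    exact h
  · have h := Subgroup.commutator_mem_commutator k1 hbB
    rw [commutatorElement_def, c1] at h
    exact h

end Cfsg.Agent.Helper37.N15
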