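import Cfsg.Prelude.Def_Transfer
import Cfsg.Prelude.Def_Solvable
import Cfsg.Agent.Helper63.N15Defs

set_option autoImplicit false

namespace Cfsg.Agent.Helper37.N15

open Cfsg.Agent.Helper63.N15

variable {S : Type*} [Group S] [Finite S] {E : Type*} [AddCommGroup E] [Module (ZMod 3) E]
  [Finite E]

theorem p2b (ρ : Representation (ZMod 3) S E) (q₁ q₂ : S) (h11 : q₁ * q₁ = 1)
    (h22 : q₂ * q₂ = 1) (hc : q₁ * q₂ = q₂ * q₁) :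
    ∀ v : E, ∃ u a₁ a₂ a₃ : E, v = u + a₁ + a₂ + a₃ ∧ (ρ q₁ u = u ∧ ρ q₂ u = u) ∧
      (ρ q₁ a₁ = a₁ ∧ ρ q₂ a₁ = -a₁) ∧ (ρ q₁ a₂ = -a₂ ∧ ρ q₂ a₂ = a₂) ∧
      (ρ q₁ a₃ = -a₃ ∧ ρ q₂ a₃ = -a₃) := by
  intro v
  have hmul : ∀ (g h : S) (x : E), ρ g (ρ h x) = ρ (g * h) x := by
    intro g h x
    rw [map_mul]; rfl
  have hA : ∀ x, ρ q₁ (ρ q₁ x) = x := by
    intro x
    rw [hmul, h11, map_one]; rfl
  have hB : ∀ x, ρ q₂ (ρ q₂ x) = x := by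
    intro x
    rw [hmul, h22, map_one]; rfl
  have hAB : ∀ x, ρ q₂ (ρ q₁ x) = ρ q₁ (ρ q₂ x) := by
    intro x
    rw [hmul, hmul, hc]
  have h3 : v + v + v = 0 := by
    have h : (3 : ZMod 3) • v = 0 := by
      have : (3 : ZMod 3) = 0 := by decide
      rw [this, zero_smul]
    have : (3 : ZMod 3) • v = v + v + v := by
      rw [show (3 : ZMod 3) = 1 + 1 + 1 by norm_num, add_smul, add_smul, one_smul]
    rw [← this]; exact h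
  refine ⟨v + ρ q₂ v + ρ q₁ v + ρ q₁ (ρ q₂ v), v - ρ q₂ v + ρ q₁ v - ρ q₁ (ρ q₂ v),
    v + ρ q₂ v - ρ q₁ v - ρ q₁ (ρ q₂ v), v - ρ q₂ v - ρ q₁ v + ρ q₁ (ρ q₂ v), ?_,
    ⟨?_, ?_⟩, ⟨?_, ?_⟩, ⟨?_, ?_⟩, ⟨?_, ?_⟩⟩
  · have : (v + ρ q₂ v + ρ q₁ v + ρ q₁ (ρ q₂ v)) + (v - ρ q₂ v + ρ q₁ v - ρ q₁ (ρ q₂ v)) +
        (v + ρ q₂ v - ρ q₁ v - ρ q₁ (ρ q₂ v)) + (v - ρ q₂ v - ρ q₁ v + ρ q₁ (ρ q₂ v)) =
        v + (v + v + v) := by abel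
    rw [this, h3, add_zero]
  · simp only [map_add, map_sub, hA, hB, hAB]; abel
  · simp only [map_add, map_sub, hA, hB, hAB]; abel
  · simp only [map_add, map_sub, hA, hB, hAB]; abel
  · simp only [map_add, map_sub, hA, hB, hAB]; abel
  · simp only [map_add, map_sub, hA, hB, hAB]; abel
  · simp only [map_add, map_sub, hA, hB, hAB]; abel
  · simp only [map_add, map_sub, hA, hB, hAB]; abel
  · simp only [map_add, map_sub, hA, hB, hAB]; abel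

end Cfsg.Agent.Helper37.N15
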