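import Cfsg.Prelude.Def_Transfer
import Cfsg.Prelude.Def_Solvable
import Cfsg.Agent.Helper63.N15Defs

set_option autoImplicit false

namespace Cfsg.Agent.Helper37.N15

open Cfsg.Agent.Helper63.N15

variable {S : Type*} [Group S] [Finite S] {E : Type*} [AddCommGroup E] [Module (ZMod 3) E]
  [Finite E]

theorem p3c (ρ : Representation (ZMod 3) S E) (R B : Subgroup S)
    (hnorm : ∀ x ∈ B, ∀ r ∈ R, x * r * x⁻¹ ∈ R) (F₀ : Submodule (ZMod 3) E)
    (hgen : ∀ r ∈ R, ∀ v : E, ρ r v - v ∈ F₀)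
    (hmin : ∀ N : Submodule (ZMod 3) E, (∀ r ∈ R, ∀ v : E, ρ r v - v ∈ N) → F₀ ≤ N) :
    ∀ g ∈ R ⊔ B, ∀ v ∈ F₀, ρ g v ∈ F₀ := by
  have hN : R ⊔ B ≤ Subgroup.normalizer (R : Set S) := by
    apply sup_le
    · exact Subgroup.le_normalizer
    · intro x hx
      rw [Subgroup.mem_normalizer_iff]
      intro h
      constructor
      · exact hnorm x hx h
      · intro hh
        have := hnorm x⁻¹ (B.inv_mem hx) _ hh
        simpa [mul_assoc] using this
  intro g hg v hv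
  have hg' := hN hg
  rw [Subgroup.mem_normalizer_iff] at hg'
  have hle : F₀ ≤ F₀.comap (ρ g) := by
    apply hmin
    intro r hr w
    rw [Submodule.mem_comap, map_sub]
    have h1 : ρ g (ρ r w) = ρ (g * r * g⁻¹) (ρ g w) := by
      have e1 : ρ g (ρ r w) = ρ (g * r) w := by rw [map_mul]; rfl
      have e2 : ρ (g * r * g⁻¹) (ρ g w) = ρ (g * r * g⁻¹ * g) w := by
        rw [map_mul ρ (g * r * g⁻¹) g]; rfl
      rw [e1, e2, inv_mul_cancel_right]
    rw [h1]
    exact hgen _ ((hg' r).mp hr) _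
  exact hle hv

end Cfsg.Agent.Helper37.N15
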