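import Mathlib
import Cfsg.Agent.Helper60.NCDefs

set_option autoImplicit false
open Subgroup

namespace Cfsg.Agent.Helper37.NCS1LOC
open Cfsg.Agent.Helper60.NC

variable {G : Type*} [Group G] [Finite G] {r : ℕ} [Fact r.Prime] {N : Subgroup G} {m : ℕ}

omit [Finite G] in
theorem s1loc_pow (C : Subgroup G) (g : G) (hg : g ∈ normalizer (C : Set G)) (c : G)
    (hc : c ∈ C) (a k : ℕ) : ∃ c' ∈ C, (c * g ^ a) ^ k = c' * g ^ (a * k) := by
  induction k with
  | zero => exact ⟨1, C.one_mem, by simp⟩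
  | succ k ih =>
    obtain ⟨c', hc', h⟩ := ih
    have hn : g ^ (a * k) ∈ normalizer (C : Set G) := pow_mem hg _
    have h2 : g ^ (a * k) * c * (g ^ (a * k))⁻¹ ∈ C := (mem_normalizer_iff.1 hn c).1 hc
    refine ⟨c' * (g ^ (a * k) * c * (g ^ (a * k))⁻¹), C.mul_mem hc' h2, ?_⟩
    rw [pow_succ, h, Nat.mul_succ, pow_add]
    generalize g ^ (a * k) = X
    generalize g ^ a = Y
    group

/-- S1LOC -/
theorem s1_loc (hc : Ctx G r N m) {y w : G} (hM : Mix G r N y w) (R' : Sylow r G)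
    (g : G) (hgn : g ∈ normalizer (centralizer ({y} : Set G) : Set G))
    (hgC : g ∉ centralizer ({y} : Set G)) (hgr : g ^ r ∈ center G)
    (hcos : ∀ t ∈ (R' : Subgroup G), ∃ i < r, ∃ c ∈ centralizer ({y} : Set G), t = c * g ^ i) :
    ∀ u ∈ (R' : Subgroup G), u ∉ center G → ∀ s ∈ (R' : Subgroup G), Commute u s →
      centralizer ({u} : Set G) ≤ centralizer ({s} : Set G) := by
  intro u huR huZ s hsR hus
  have hRr : ∀ t ∈ (R' : Subgroup G), ∃ k : ℕ, t ^ r ^ k = 1 := by
    intro t ht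
    obtain ⟨k, hk⟩ := R'.isPGroup' ⟨t, ht⟩
    exact ⟨k, congrArg Subtype.val hk⟩
  have huN : u ∈ N := hc.hr u (hRr u huR)
  have hsN : s ∈ N := hc.hr s (hRr s hsR)
  have hgood := hM.good hc
  have hZC : ∀ z ∈ center G, z ∈ centralizer ({y} : Set G) :=
    fun z hz => Subgroup.center_le_centralizer _ hz
  by_cases huC : u ∈ centralizer ({y} : Set G)
  · have h1 : centralizer ({u} : Set G) = centralizer ({y} : Set G) := hM.cen hc huN huC huZ
    have hsC : s ∈ centralizer ({y} : Set G) := by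
      rw [← h1, mem_centralizer_singleton_iff]; exact hus.symm.eq
    intro d hd
    rw [h1] at hd
    rw [mem_centralizer_singleton_iff]
    exact (hgood s hsN hsC d hd).symm
  · obtain ⟨i₀, hi₀, c₀, hc₀, hu⟩ := hcos u huR
    obtain ⟨i, hi, c, hcC, hs⟩ := hcos s hsR
    have hi₀0 : i₀ ≠ 0 := by
      rintro rfl
      apply huC; rw [hu]; simpa using hc₀
    have hr : r.Prime := Fact.out
    obtain ⟨j, hj⟩ : ∃ j, i₀ * j % r = i := by
      have hcop : Nat.Coprime i₀ r :=
        Nat.Coprime.symm ((Nat.Prime.coprime_iff_not_dvd hr).2 (fun h => by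
          have := Nat.le_of_dvd (by omega) h; omega))
      obtain ⟨j, -, hj⟩ := Nat.exists_mul_mod_eq_of_coprime i hcop hr.ne_zero
      exact ⟨j, by rw [hj, Nat.mod_eq_of_lt hi]⟩
    obtain ⟨c', hc', hpow⟩ := s1loc_pow (centralizer ({y} : Set G)) g hgn c₀ hc₀ i₀ j
    obtain ⟨t, ht⟩ : ∃ t, i₀ * j = i + r * t :=
      ⟨i₀ * j / r, by have := Nat.div_add_mod (i₀ * j) r; omega⟩
    obtain ⟨z, hzdef⟩ : ∃ z, z = (g ^ r) ^ t := ⟨_, rfl⟩
    have hz : z ∈ center G := by rw [hzdef]; exact pow_mem hgr t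
    have hgij : g ^ (i₀ * j) = g ^ i * z := by rw [ht, pow_add, pow_mul, hzdef]
    have huj : u ^ j = c' * (g ^ i * z) := by rw [hu, hpow, hgij]
    obtain ⟨e, hedef⟩ : ∃ e, e = c * z⁻¹ * c'⁻¹ := ⟨_, rfl⟩
    have heC : e ∈ centralizer ({y} : Set G) := by
      rw [hedef]; exact mul_mem (mul_mem hcC (inv_mem (hZC z hz))) (inv_mem hc')
    have hzc : ∀ x : G, x * z = z * x := fun x => mem_center_iff.1 hz x
    have hse : s = e * u ^ j := by
      rw [hedef, huj, hs]
      have h1 : c * z⁻¹ * c'⁻¹ * (c' * (g ^ i * z)) = c * (z⁻¹ * (g ^ i * z)) := by group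
      rw [h1, hzc (g ^ i), inv_mul_cancel_left]
    have hes : e = s * (u ^ j)⁻¹ := by rw [hse, mul_inv_cancel_right]
    have heR : e ∈ (R' : Subgroup G) := by
      rw [hes]; exact mul_mem hsR (inv_mem (pow_mem huR j))
    have heN : e ∈ N := hc.hr e (hRr e heR)
    have heu : Commute e u := by
      rw [hes]
      exact (hus.symm).mul_left ((Commute.refl u).pow_left j).inv_left
    have heZ : e ∈ center G := by
      by_contra heZ
      have h1 := hM.cen hc heN heC heZ
      apply huC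
      rw [← h1, mem_centralizer_singleton_iff]
      exact heu.symm.eq
    intro d hd
    rw [mem_centralizer_singleton_iff] at hd ⊢
    have hdu : Commute d u := hd
    have hde : Commute d e := mem_center_iff.1 heZ d
    rw [hse]
    exact (hde.mul_right (hdu.pow_right j)).eq

end Cfsg.Agent.Helper37.NCS1LOC
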