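import Mathlib
import Cfsg.Agent.Helper95.OSylDefs
set_option autoImplicit false
open Matrix Cfsg
open Cfsg.Agent.Helper95.OSyl
universe u
namespace Cfsg.Agent.Helper37
variable {F : Type u} [Field F] {k r : ℕ}

/-- the matrix of `Phi g * Psi σ * Eps e` -/
theorem osylc_coe (c : Fin r → F) (g : Fin k → ↥(O2 F)) (σ : Equiv.Perm (Fin k))
    (e : Fin r → ℤˣ) :
    (((Phi k c g * Psi k c σ * Eps k c e : ↥(isometryGroup F ⇑(mQ k c))) : GL (MI k r) F) :
        Matrix (MI k r) (MI k r) F) =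
      Matrix.fromBlocks
        ((Matrix.blockDiagonal fun i =>
          (((g i : ↥(O2 F)) : GL (Fin 2) F) : Matrix (Fin 2) (Fin 2) F)).submatrix id (pmE σ).symm)
        0 0 (Matrix.diagonal fun l => (((e l : ℤˣ) : ℤ) : F)) := by
  rw [Subgroup.coe_mul, Subgroup.coe_mul, Units.val_mul, Units.val_mul, Phi_coe, Psi_coe, Eps_coe,
    Matrix.fromBlocks_multiply, Matrix.fromBlocks_multiply, PEquiv.mul_toMatrix_toPEquiv]
  simp

theorem osylc_unit_ne (M : GL (Fin 2) F) :
    ∃ i j, (M : Matrix (Fin 2) (Fin 2) F) i j ≠ 0 := by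
  by_contra hcon
  simp only [not_exists, not_not] at hcon
  have h0 : (M : Matrix (Fin 2) (Fin 2) F) = 0 := by
    ext i j
    exact hcon i j
  have h1 : (M : Matrix (Fin 2) (Fin 2) F) * ((M⁻¹ : GL (Fin 2) F) : Matrix (Fin 2) (Fin 2) F) = 1 := by
    rw [← Units.val_mul, mul_inv_cancel, Units.val_one]
  rw [h0, Matrix.zero_mul] at h1
  have h2 := congrFun (congrFun h1 0) 0
  simp at h2

theorem osylc_inj (h2 : (2 : F) ≠ 0) (c : Fin r → F) (g g' : Fin k → ↥(O2 F))
    (σ σ' : Equiv.Perm (Fin k)) (e e' : Fin r → ℤˣ)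
    (h : Phi k c g * Psi k c σ * Eps k c e = Phi k c g' * Psi k c σ' * Eps k c e') :
    g = g' ∧ σ = σ' ∧ e = e' := by
  have h1 := congrArg (fun x : ↥(isometryGroup F ⇑(mQ k c)) =>
    ((x : GL (MI k r) F) : Matrix (MI k r) (MI k r) F)) h
  rw [osylc_coe, osylc_coe] at h1
  obtain ⟨hA, -, -, hD⟩ := Matrix.fromBlocks_inj.mp h1
  have hent : ∀ (i j : Fin 2) (a b : Fin k),
      (if a = σ b then (((g a : ↥(O2 F)) : GL (Fin 2) F) : Matrix (Fin 2) (Fin 2) F) i j else 0)
        = (if a = σ' b then (((g' a : ↥(O2 F)) : GL (Fin 2) F) : Matrix (Fin 2) (Fin 2) F) i j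
            else 0) := by
    intro i j a b
    have h3 := congrFun (congrFun hA (i, a)) (j, b)
    have h4 : (if a = σ⁻¹.symm b then
          (((g a : ↥(O2 F)) : GL (Fin 2) F) : Matrix (Fin 2) (Fin 2) F) i j else 0)
        = (if a = σ'⁻¹.symm b then
          (((g' a : ↥(O2 F)) : GL (Fin 2) F) : Matrix (Fin 2) (Fin 2) F) i j else 0) := by
      simpa [Matrix.submatrix_apply, Matrix.blockDiagonal_apply, pmE] using h3
    exact h4
  have hσ : σ = σ' := by
    ext b
    obtain ⟨i, j, hij⟩ := osylc_unit_ne ((g (σ b) : ↥(O2 F)) : GL (Fin 2) F)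
    have h3 := hent i j (σ b) b
    rw [if_pos rfl] at h3
    by_contra hne
    rw [if_neg (fun hh => hne (by rw [hh]))] at h3
    exact hij h3
  subst hσ
  refine ⟨?_, rfl, ?_⟩
  · funext a
    apply Subtype.ext
    apply Units.ext
    ext i j
    have h3 := hent i j a (σ⁻¹ a)
    rw [if_pos (by simp), if_pos (by simp)] at h3
    exact h3
  · funext l
    have h3 := congrFun (congrFun hD l) l
    rw [Matrix.diagonal_apply_eq, Matrix.diagonal_apply_eq] at h3
    rcases Int.units_eq_one_or (e l) with h4 | h4 <;>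
      rcases Int.units_eq_one_or (e' l) with h5 | h5
    · rw [h4, h5]
    · exfalso
      rw [h4, h5] at h3
      apply h2
      have : (1 : F) = -1 := by simpa using h3
      calc (2 : F) = 1 + 1 := by norm_num
        _ = 1 + -1 := by rw [← this]
        _ = 0 := by ring
    · exfalso
      rw [h4, h5] at h3
      apply h2
      have : (-1 : F) = 1 := by simpa using h3
      calc (2 : F) = 1 + 1 := by norm_num
        _ = 1 + -1 := by rw [this]
        _ = 0 := by ring
    · rw [h4, h5]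

theorem osyl_card_ge [Finite F] (h2 : (2 : F) ≠ 0) (c : Fin r → F) (D : Subgroup ↥(O2 F))
    (T : Subgroup (Equiv.Perm (Fin k))) :
    Nat.card D ^ k * Nat.card T * 2 ^ r ≤
      Nat.card ↥((Subgroup.pi Set.univ (fun _ : Fin k => D)).map (Phi k c) ⊔ T.map (Psi k c) ⊔
        (Eps k c).range) := by
  let f : (Fin k → D) × T × (Fin r → ℤˣ) →
      ↥((Subgroup.pi Set.univ (fun _ : Fin k => D)).map (Phi k c) ⊔ T.map (Psi k c) ⊔
        (Eps k c).range) := fun x =>
    ⟨Phi k c (fun i => (x.1 i : ↥(O2 F))) * Psi k c x.2.1.1 * Eps k c x.2.2,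
      mul_mem (mul_mem
        (Subgroup.mem_sup_left (Subgroup.mem_sup_left
          (Subgroup.mem_map_of_mem _ (fun i _ => (x.1 i).2))))
        (Subgroup.mem_sup_left (Subgroup.mem_sup_right (Subgroup.mem_map_of_mem _ x.2.1.2))))
        (Subgroup.mem_sup_right ⟨x.2.2, rfl⟩)⟩
  have hf : Function.Injective f := by
    rintro ⟨g, σ, e⟩ ⟨g', σ', e'⟩ h
    have h1 : Phi k c (fun i => (g i : ↥(O2 F))) * Psi k c σ.1 * Eps k c e
        = Phi k c (fun i => (g' i : ↥(O2 F))) * Psi k c σ'.1 * Eps k c e' :=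
      congrArg Subtype.val h
    obtain ⟨hg, hσ, he⟩ := osylc_inj h2 c _ _ _ _ _ _ h1
    have hg' : g = g' := by
      funext i
      exact Subtype.ext (congrFun hg i)
    rw [hg', Subtype.ext hσ, he]
  have h1 := Nat.card_le_card_of_injective f hf
  rw [Nat.card_prod, Nat.card_prod, Nat.card_fun, Nat.card_fun, Nat.card_fin, Nat.card_fin,
    Nat.card_eq_fintype_card (α := ℤˣ), Fintype.card_units_int, ← mul_assoc] at h1
  exact h1

end Cfsg.Agent.Helper37
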