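import Mathlib
import Cfsg.Agent.Helper95.OSylDefs
set_option autoImplicit false
open Matrix Cfsg
open Cfsg.Agent.Helper95.OSyl
universe u
namespace Cfsg.Agent.Helper37
variable {F : Type u} [Field F] {k r : ℕ}

/-- transport of "squares of elements of Sylow 2-subgroups of the commutator subgroup lie in
the derived subgroup" along a group isomorphism -/
theorem osylt_sylow_transfer {A B : Type*} [Group A] [Group B] (e : A ≃* B)
    (h : ∀ (S : Sylow 2 ↥(commutator A)) (x : ↥(S : Subgroup ↥(commutator A))),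
      x ^ 2 ∈ commutator ↥(S : Subgroup ↥(commutator A))) :
    ∀ (S : Sylow 2 ↥(commutator B)) (x : ↥(S : Subgroup ↥(commutator B))),
      x ^ 2 ∈ commutator ↥(S : Subgroup ↥(commutator B)) := by
  have hmap : (commutator A).map (e : A →* B) = commutator B := by
    rw [commutator_def, Subgroup.map_commutator, ← MonoidHom.range_eq_map,
      MonoidHom.range_eq_top.mpr e.surjective]
    rfl
  let e' : ↥(commutator A) ≃* ↥(commutator B) :=
    (e.subgroupMap (commutator A)).trans (MulEquiv.subgroupCongr hmap)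
  intro S
  rw [sq_mem_comm_iff]
  have hsurj : Function.Surjective (e' : ↥(commutator A) →* ↥(commutator B)) := e'.surjective
  let S' : Sylow 2 ↥(commutator A) :=
    S.comapOfInjective (e' : ↥(commutator A) →* ↥(commutator B)) e'.injective
      (by rw [MonoidHom.range_eq_top.mpr hsurj]; exact le_top)
  have hS' := (sq_mem_comm_iff (S' : Subgroup ↥(commutator A))).mp (h S')
  have hS'coe : (S' : Subgroup ↥(commutator A))
      = (S : Subgroup ↥(commutator B)).comap (e' : ↥(commutator A) →* ↥(commutator B)) := rfl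
  have hmapS : (S' : Subgroup ↥(commutator A)).map (e' : ↥(commutator A) →* ↥(commutator B))
      = (S : Subgroup ↥(commutator B)) := by
    rw [hS'coe]
    exact Subgroup.map_comap_eq_self_of_surjective hsurj _
  intro t ht
  have hy : e'.symm t ∈ (S' : Subgroup ↥(commutator A)) := by
    rw [hS'coe, Subgroup.mem_comap]
    simpa using ht
  have h1 := hS' _ hy
  have h2 : (e' : ↥(commutator A) →* ↥(commutator B)) ((e'.symm t) ^ 2) ∈
      (⁅(S' : Subgroup ↥(commutator A)), (S' : Subgroup ↥(commutator A))⁆).map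
        (e' : ↥(commutator A) →* ↥(commutator B)) := Subgroup.mem_map_of_mem _ h1
  rw [Subgroup.map_commutator, hmapS] at h2
  simpa using h2

section Conj

variable {ι κ : Type} [Fintype ι] [DecidableEq ι] [Fintype κ] [DecidableEq κ]

/-- conjugation `g ↦ P g P'` of invertible matrices -/
def osyltGL (P : Matrix ι κ F) (P' : Matrix κ ι F) (h1 : P * P' = 1) (h2 : P' * P = 1) :
    GL κ F → GL ι F := fun g =>
  ⟨P * (g : Matrix κ κ F) * P', P * ((g⁻¹ : GL κ F) : Matrix κ κ F) * P',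
    by
      calc P * (g : Matrix κ κ F) * P' * (P * ((g⁻¹ : GL κ F) : Matrix κ κ F) * P')
          = P * ((g : Matrix κ κ F) * (P' * P) * ((g⁻¹ : GL κ F) : Matrix κ κ F)) * P' := by
            simp only [Matrix.mul_assoc]
        _ = 1 := by
            rw [h2, Matrix.mul_one, ← Units.val_mul, mul_inv_cancel, Units.val_one, Matrix.mul_one,
              h1],
    by
      calc P * ((g⁻¹ : GL κ F) : Matrix κ κ F) * P' * (P * (g : Matrix κ κ F) * P')
          = P * (((g⁻¹ : GL κ F) : Matrix κ κ F) * (P' * P) * (g : Matrix κ κ F)) * P' := by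
            simp only [Matrix.mul_assoc]
        _ = 1 := by
            rw [h2, Matrix.mul_one, ← Units.val_mul, inv_mul_cancel, Units.val_one, Matrix.mul_one,
              h1]⟩

theorem osyltGL_val (P : Matrix ι κ F) (P' : Matrix κ ι F) (h1 : P * P' = 1) (h2 : P' * P = 1)
    (g : GL κ F) :
    ((osyltGL P P' h1 h2 g : GL ι F) : Matrix ι ι F) = P * (g : Matrix κ κ F) * P' := rfl

theorem osyltGL_mem (P : Matrix ι κ F) (P' : Matrix κ ι F) (h1 : P * P' = 1) (h2 : P' * P = 1)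
    (Q : (ι → F) → F) (Q₀ : (κ → F) → F) (d : F) (hQ : ∀ w, Q (P *ᵥ w) = d * Q₀ w)
    (g : GL κ F) (hg : g ∈ isometryGroup F Q₀) : osyltGL P P' h1 h2 g ∈ isometryGroup F Q := by
  rw [Cfsg.Agent.Helper45.mem_iso_iff] at hg ⊢
  intro x
  have hx : P *ᵥ (P' *ᵥ x) = x := by
    rw [Matrix.mulVec_mulVec, h1, Matrix.one_mulVec]
  have h3 : ((osyltGL P P' h1 h2 g : GL ι F) : Matrix ι ι F) *ᵥ x
      = P *ᵥ ((g : Matrix κ κ F) *ᵥ (P' *ᵥ x)) := by
    rw [osyltGL_val, Matrix.mulVec_mulVec, Matrix.mulVec_mulVec]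
  rw [h3, hQ, hg]
  nth_rewrite 2 [← hx]
  rw [hQ]

theorem osyltGL_mul (P : Matrix ι κ F) (P' : Matrix κ ι F) (h1 : P * P' = 1) (h2 : P' * P = 1)
    (g g' : GL κ F) :
    osyltGL P P' h1 h2 (g * g') = osyltGL P P' h1 h2 g * osyltGL P P' h1 h2 g' := by
  apply Units.ext
  rw [Units.val_mul, osyltGL_val, osyltGL_val, osyltGL_val, Units.val_mul]
  calc P * ((g : Matrix κ κ F) * (g' : Matrix κ κ F)) * P'
      = P * ((g : Matrix κ κ F) * 1 * (g' : Matrix κ κ F)) * P' := by rw [Matrix.mul_one]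
    _ = P * (g : Matrix κ κ F) * P' * (P * (g' : Matrix κ κ F) * P') := by
        rw [← h2]; simp only [Matrix.mul_assoc]

theorem osyltGL_inv (P : Matrix ι κ F) (P' : Matrix κ ι F) (h1 : P * P' = 1) (h2 : P' * P = 1)
    (g : GL κ F) : osyltGL P' P h2 h1 (osyltGL P P' h1 h2 g) = g := by
  apply Units.ext
  rw [osyltGL_val, osyltGL_val]
  calc P' * (P * (g : Matrix κ κ F) * P') * P
      = (P' * P) * (g : Matrix κ κ F) * (P' * P) := by simp only [Matrix.mul_assoc]
    _ = (g : Matrix κ κ F) := by rw [h2, Matrix.one_mul, Matrix.mul_one]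

/-- the isomorphism of isometry groups induced by a similarity of forms -/
def osyltIso (P : Matrix ι κ F) (P' : Matrix κ ι F) (h1 : P * P' = 1) (h2 : P' * P = 1)
    (Q : (ι → F) → F) (Q₀ : (κ → F) → F) (d : F) (hd : d ≠ 0)
    (hQ : ∀ w, Q (P *ᵥ w) = d * Q₀ w) :
    ↥(isometryGroup F Q₀) ≃* ↥(isometryGroup F Q) where
  toFun g := ⟨osyltGL P P' h1 h2 g.1, osyltGL_mem P P' h1 h2 Q Q₀ d hQ g.1 g.2⟩
  invFun g := ⟨osyltGL P' P h2 h1 g.1, osyltGL_mem P' P h2 h1 Q₀ Q d⁻¹ (by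
    intro x
    have hx : P *ᵥ (P' *ᵥ x) = x := by
      rw [Matrix.mulVec_mulVec, h1, Matrix.one_mulVec]
    have h3 := hQ (P' *ᵥ x)
    rw [hx] at h3
    rw [h3, ← mul_assoc, inv_mul_cancel₀ hd, one_mul]) g.1 g.2⟩
  left_inv g := Subtype.ext (osyltGL_inv P P' h1 h2 g.1)
  right_inv g := Subtype.ext (osyltGL_inv P' P h2 h1 g.1)
  map_mul' g g' := Subtype.ext (osyltGL_mul P P' h1 h2 g.1 g'.1)

theorem osyl_transfer {ι κ : Type} [Fintype ι] [DecidableEq ι] [Fintype κ] [DecidableEq κ]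
    (Q : (ι → F) → F) (Q₀ : (κ → F) → F) (P : Matrix ι κ F) (P' : Matrix κ ι F)
    (h1 : P * P' = 1) (h2 : P' * P = 1) (d : F) (hd : d ≠ 0) (hQ : ∀ w, Q (P *ᵥ w) = d * Q₀ w) :
    Nat.card ↥(isometryGroup F Q) = Nat.card ↥(isometryGroup F Q₀) ∧
      ((∀ (S : Sylow 2 ↥(Omega F Q₀)) (x : ↥(S : Subgroup ↥(Omega F Q₀))),
          x ^ 2 ∈ commutator ↥(S : Subgroup ↥(Omega F Q₀))) →
        ∀ (S : Sylow 2 ↥(Omega F Q)) (x : ↥(S : Subgroup ↥(Omega F Q))),
          x ^ 2 ∈ commutator ↥(S : Subgroup ↥(Omega F Q))) :=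
  ⟨(Nat.card_congr (osyltIso P P' h1 h2 Q Q₀ d hd hQ).toEquiv).symm,
    osylt_sylow_transfer (osyltIso P P' h1 h2 Q Q₀ d hd hQ)⟩

end Conj

end Cfsg.Agent.Helper37
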