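import Mathlib
import Cfsg.Prelude.Def_LocalStructure

namespace Cfsg.Agent.Helper37

open Equiv Equiv.Perm

/-- in a `p`-closed finite group a product of two `p`-elements is a `p`-element -/
theorem pclosed_mul {H : Type*} [Group H] [Finite H] (p : ℕ) [Fact p.Prime]
    (hH : Cfsg.IsPClosed p H) (x y : H) (hx : ∃ k, orderOf x = p ^ k) (hy : ∃ k, orderOf y = p ^ k) :
    ∃ k, orderOf (x * y) = p ^ k := by
  have hxP : IsPGroup p (Subgroup.zpowers x) := by
    obtain ⟨k, hk⟩ := hx
    exact IsPGroup.of_card (n := k) (by rw [Nat.card_zpowers, hk])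
  have hyP : IsPGroup p (Subgroup.zpowers y) := by
    obtain ⟨k, hk⟩ := hy
    exact IsPGroup.of_card (n := k) (by rw [Nat.card_zpowers, hk])
  obtain ⟨Q₁, h1⟩ := hxP.exists_le_sylow
  obtain ⟨Q₂, h2⟩ := hyP.exists_le_sylow
  haveI := hH Q₁
  obtain ⟨g, hg⟩ := MulAction.exists_smul_eq H Q₁ Q₂
  rw [Sylow.smul_eq_of_normal] at hg
  subst hg
  have hxy : x * y ∈ (Q₁ : Subgroup H) :=
    mul_mem (h1 (Subgroup.mem_zpowers x)) (h2 (Subgroup.mem_zpowers y))
  obtain ⟨k, hk⟩ := Q₁.isPGroup' ⟨x * y, hxy⟩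
  have hk' : (x * y) ^ (p ^ k) = 1 := by
    have := congrArg Subtype.val hk
    simpa using this
  obtain ⟨j, -, hj⟩ := (Nat.dvd_prime_pow (Fact.out : p.Prime)).mp (orderOf_dvd_of_pow_eq_one hk')
  exact ⟨j, hj⟩

theorem pclosed_alt (n p : ℕ) (hn : 5 ≤ n) [Fact p.Prime] (hp : p ≠ 2) (hpn : p ≤ n)
    (h : ∀ H : Subgroup ↥(alternatingGroup (Fin n)), H ≠ ⊤ → p ∣ Nat.card ↥H →
      Cfsg.IsPClosed p ↥H) : n = p := by
  have hpp : p.Prime := Fact.out
  by_contra hne
  have hlt : p < n := by omega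
  have hp3 : 3 ≤ p := by have := hpp.two_le; omega
  obtain ⟨m, rfl⟩ : ∃ m, n = m + 1 := ⟨n - 1, by omega⟩
  -- points
  set a0 : Fin (m + 1) := ⟨0, by omega⟩ with ha0
  set a1 : Fin (m + 1) := ⟨1, by omega⟩ with ha1
  set a2 : Fin (m + 1) := ⟨2, by omega⟩ with ha2
  set a3 : Fin (m + 1) := ⟨3, by omega⟩ with ha3
  set z : Fin (m + 1) := ⟨m, by omega⟩ with hz
  have h01 : a0 ≠ a1 := by simp [ha0, ha1, Fin.ext_iff]
  have h02 : a0 ≠ a2 := by simp [ha0, ha2, Fin.ext_iff]
  have h03 : a0 ≠ a3 := by simp [ha0, ha3, Fin.ext_iff]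
  have h12 : a1 ≠ a2 := by simp [ha1, ha2, Fin.ext_iff]
  have h13 : a1 ≠ a3 := by simp [ha1, ha3, Fin.ext_iff]
  have h23 : a2 ≠ a3 := by simp [ha2, ha3, Fin.ext_iff]
  have h0z : a0 ≠ z := by simp [ha0, hz, Fin.ext_iff]; omega
  have h1z : a1 ≠ z := by simp [ha1, hz, Fin.ext_iff]; omega
  have h2z : a2 ≠ z := by simp [ha2, hz, Fin.ext_iff]; omega
  have h3z : a3 ≠ z := by simp [ha3, hz, Fin.ext_iff]; omega
  set H : Subgroup ↥(alternatingGroup (Fin (m + 1))) :=
    MulAction.stabilizer ↥(alternatingGroup (Fin (m + 1))) z with hH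
  have hHtop : H ≠ ⊤ := by
    intro htop
    have hmem : swap a0 z * swap a0 a1 ∈ alternatingGroup (Fin (m + 1)) := by
      rw [mem_alternatingGroup, map_mul, sign_swap h0z, sign_swap h01]; rfl
    have : (⟨swap a0 z * swap a0 a1, hmem⟩ : ↥(alternatingGroup (Fin (m + 1)))) ∈ H := by
      rw [htop]; trivial
    rw [hH, MulAction.mem_stabilizer_iff] at this
    have h2 : (swap a0 z * swap a0 a1) z = z := this
    rw [Perm.mul_apply, swap_apply_of_ne_of_ne h0z.symm h1z.symm, swap_apply_right] at h2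
    exact h0z h2
  -- membership helper
  have hmemH : ∀ (σ : Perm (Fin (m + 1))) (hσ : σ ∈ alternatingGroup (Fin (m + 1))),
      σ z = z → (⟨σ, hσ⟩ : ↥(alternatingGroup (Fin (m + 1)))) ∈ H := by
    intro σ hσ hfix
    rw [hH, MulAction.mem_stabilizer_iff]
    exact hfix
  -- a pair of p-elements of H whose product is not a p-element
  have key : ∃ (x y : Perm (Fin (m + 1))) (hx : x ∈ alternatingGroup (Fin (m + 1)))
      (hy : y ∈ alternatingGroup (Fin (m + 1))), x z = z ∧ y z = z ∧ orderOf x = p ∧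
      orderOf y = p ∧ ¬ ∃ k, orderOf (x * y) = p ^ k := by
    by_cases hp3' : p = 3
    · refine ⟨swap a0 a1 * swap a1 a2, swap a1 a2 * swap a2 a3, ?_, ?_, ?_, ?_, ?_, ?_, ?_⟩
      · rw [mem_alternatingGroup, map_mul, sign_swap h01, sign_swap h12]; rfl
      · rw [mem_alternatingGroup, map_mul, sign_swap h12, sign_swap h23]; rfl
      · rw [Perm.mul_apply, swap_apply_of_ne_of_ne h1z.symm h2z.symm,
          swap_apply_of_ne_of_ne h0z.symm h1z.symm]
      · rw [Perm.mul_apply, swap_apply_of_ne_of_ne h2z.symm h3z.symm,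
          swap_apply_of_ne_of_ne h1z.symm h2z.symm]
      · rw [hp3']
        have : IsThreeCycle (swap a1 a0 * swap a1 a2) :=
          isThreeCycle_swap_mul_swap_same h01.symm h12 h02
        rw [swap_comm a1 a0] at this
        exact this.orderOf
      · rw [hp3']
        have : IsThreeCycle (swap a2 a1 * swap a2 a3) :=
          isThreeCycle_swap_mul_swap_same h12.symm h23 h13
        rw [swap_comm a2 a1] at this
        exact this.orderOf
      · have hprod : swap a0 a1 * swap a1 a2 * (swap a1 a2 * swap a2 a3)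
            = swap a0 a1 * swap a2 a3 := by
          rw [mul_assoc, ← mul_assoc (swap a1 a2), swap_mul_self, one_mul]
        rw [hprod]
        have hdis : Disjoint (swap a0 a1) (swap a2 a3) := by
          rw [disjoint_iff_disjoint_support, support_swap h01, support_swap h23]
          simp [Finset.disjoint_left, h02, h03, h12, h13]
        have hord : orderOf (swap a0 a1 * swap a2 a3) = 2 := by
          have hs1 : IsSwap (swap a0 a1) := ⟨a0, a1, h01, rfl⟩
          have hs2 : IsSwap (swap a2 a3) := ⟨a2, a3, h23, rfl⟩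
          rw [hdis.orderOf, hs1.orderOf, hs2.orderOf]
          rfl
        rw [hord, hp3']
        rintro ⟨k, hk⟩
        rcases k with _ | k
        · simp at hk
        · have : 3 ∣ 2 := by rw [hk]; exact dvd_pow_self 3 (by omega)
          omega
    · have hp5 : 5 ≤ p := by
        rcases Nat.lt_or_ge p 5 with h4 | h5
        · exfalso
          have : p = 4 := by omega
          rw [this] at hpp
          exact absurd hpp (by decide)
        · exact h5
      set i : Fin (m + 1) := ⟨p - 1, by omega⟩ with hi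
      have hi0 : i ≠ 0 := by
        intro h0
        have := congrArg Fin.val h0
        simp [hi] at this
        omega
      set c := Fin.cycleRange i with hc
      have hct : c.cycleType = {p} := by
        rw [hc, Fin.cycleType_cycleRange hi0]
        congr 1
        simp [hi]; omega
      have hcord : orderOf c = p := by
        rw [← lcm_cycleType, hct]; simp
      have hcA : c ∈ alternatingGroup (Fin (m + 1)) := by
        rw [mem_alternatingGroup, hc, Fin.sign_cycleRange]
        have : Even (i : ℕ) := by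
          have hodd : Odd p := hpp.odd_of_ne_two hp
          simp only [hi]
          obtain ⟨t, ht⟩ := hodd
          exact ⟨t, by omega⟩
        exact this.neg_one_pow
      have hcz : c z = z := by
        rw [hc]
        apply Fin.cycleRange_of_gt
        rw [Fin.lt_def]; simp [hi, hz]; omega
      have hc0 : c a0 = a1 := by
        apply Fin.ext
        rw [hc, Fin.coe_cycleRange_of_lt (by rw [Fin.lt_def]; simp [hi, ha0]; omega)]
      have hc1 : c a1 = a2 := by
        apply Fin.ext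
        rw [hc, Fin.coe_cycleRange_of_lt (by rw [Fin.lt_def]; simp [hi, ha1]; omega)]
      set s := swap a0 a1 with hs
      have hss : s⁻¹ = s := swap_inv a0 a1
      refine ⟨s * c * s⁻¹, c⁻¹, ?_, ?_, ?_, ?_, ?_, ?_, ?_⟩
      · rw [mem_alternatingGroup, map_mul, map_mul, map_inv, mul_right_comm, mul_inv_cancel,
          one_mul]
        exact hcA
      · exact inv_mem hcA
      · rw [hss, Perm.mul_apply, Perm.mul_apply, hs, swap_apply_of_ne_of_ne h0z.symm h1z.symm,
          hcz, swap_apply_of_ne_of_ne h0z.symm h1z.symm]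
      · rw [Perm.inv_eq_iff_eq]; exact hcz.symm
      · have e : s * c * s⁻¹ = MulAut.conj s c := by rw [MulAut.conj_apply]
        rw [e, MulEquiv.orderOf_eq]; exact hcord
      · rw [orderOf_inv]; exact hcord
      · have hprod : s * c * s⁻¹ * c⁻¹ = swap a1 a0 * swap a1 a2 := by
          rw [hss, mul_assoc s c s, Equiv.mul_swap_eq_swap_mul c a0 a1, hc0, hc1, ← mul_assoc,
            mul_assoc (s * swap a1 a2), mul_inv_cancel, mul_one, hs, swap_comm a0 a1]
        rw [hprod]
        have h3c : IsThreeCycle (swap a1 a0 * swap a1 a2) :=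
          isThreeCycle_swap_mul_swap_same h01.symm h12 h02
        rw [h3c.orderOf]
        rintro ⟨k, hk⟩
        rcases k with _ | k
        · simp at hk
        · have : p ∣ 3 := by rw [hk]; exact dvd_pow_self p (by omega)
          have := Nat.le_of_dvd (by omega) this
          omega
  obtain ⟨x, y, hx, hy, hxz, hyz, hxo, hyo, hxy⟩ := key
  have hdvd : p ∣ Nat.card ↥H := by
    have h1 := orderOf_dvd_natCard (⟨⟨x, hx⟩, hmemH x hx hxz⟩ : ↥H)
    rw [Subgroup.orderOf_mk, Subgroup.orderOf_mk, hxo] at h1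
    exact h1
  have hcl := h H hHtop hdvd
  have := pclosed_mul p hcl ⟨⟨x, hx⟩, hmemH x hx hxz⟩ ⟨⟨y, hy⟩, hmemH y hy hyz⟩
    ⟨1, by rw [Subgroup.orderOf_mk, Subgroup.orderOf_mk, hxo, pow_one]⟩
    ⟨1, by rw [Subgroup.orderOf_mk, Subgroup.orderOf_mk, hyo, pow_one]⟩
  apply hxy
  obtain ⟨k, hk⟩ := this
  refine ⟨k, ?_⟩
  rw [← hk]
  have e : ((⟨⟨x, hx⟩, hmemH x hx hxz⟩ : ↥H) * ⟨⟨y, hy⟩, hmemH y hy hyz⟩)
      = ⟨⟨x * y, mul_mem hx hy⟩, mul_mem (hmemH x hx hxz) (hmemH y hy hyz)⟩ := rfl
  rw [e, Subgroup.orderOf_mk, Subgroup.orderOf_mk]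

end Cfsg.Agent.Helper37
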