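import Mathlib

set_option autoImplicit false

namespace Cfsg.Agent.Helper37

open scoped commutatorElement

/-- derived series of a subgroup, inside the ambient group -/
def dser {G : Type*} [Group G] (H : Subgroup G) : ℕ → Subgroup G
  | 0 => H
  | (j + 1) => ⁅dser H j, dser H j⁆

theorem dser_zero {G : Type*} [Group G] (H : Subgroup G) : dser H 0 = H := rfl

theorem dser_succ {G : Type*} [Group G] (H : Subgroup G) (j : ℕ) :
    dser H (j + 1) = ⁅dser H j, dser H j⁆ := rfl

theorem dser_mono {G : Type*} [Group G] {H K : Subgroup G} (h : H ≤ K) (j : ℕ) :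
    dser H j ≤ dser K j := by
  induction j with
  | zero => exact h
  | succ j ih => exact Subgroup.commutator_mono ih ih

theorem comm_self_le {G : Type*} [Group G] (H : Subgroup G) : ⁅H, H⁆ ≤ H := by
  rw [Subgroup.commutator_le]
  intro a ha b hb
  rw [commutatorElement_def]
  exact mul_mem (mul_mem (mul_mem ha hb) (inv_mem ha)) (inv_mem hb)

theorem dser_le {G : Type*} [Group G] (H : Subgroup G) (j : ℕ) : dser H j ≤ H := by
  induction j with
  | zero => exact le_rfl
  | succ j ih => exact (comm_self_le _).trans ih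

theorem dser_map {G G' : Type*} [Group G] [Group G'] (f : G →* G') (H : Subgroup G) (j : ℕ) :
    (dser H j).map f = dser (H.map f) j := by
  induction j with
  | zero => rfl
  | succ j ih => rw [dser_succ, Subgroup.map_commutator, ih]; rfl

theorem dser_add {G : Type*} [Group G] (H : Subgroup G) (a b : ℕ) :
    dser H (a + b) = dser (dser H a) b := by
  induction b with
  | zero => rfl
  | succ b ih => rw [← add_assoc, dser_succ, ih]; rfl

theorem dser_subtype {G : Type*} [Group G] (H : Subgroup G) (j : ℕ) :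
    (derivedSeries H j).map H.subtype = dser H j := by
  induction j with
  | zero => rw [derivedSeries_zero, ← MonoidHom.range_eq_map, Subgroup.range_subtype]; rfl
  | succ j ih => rw [derivedSeries_succ, Subgroup.map_commutator, ih]; rfl

theorem dser_eq_bot_iff {G : Type*} [Group G] (H : Subgroup G) (j : ℕ) :
    derivedSeries H j = ⊥ ↔ dser H j = ⊥ := by
  rw [← dser_subtype, Subgroup.map_eq_bot_iff_of_injective _ H.subtype_injective]

theorem derived_eq_bot_of_injective {G H : Type*} [Group G] [Group H] (f : G →* H)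
    (hf : Function.Injective f) (j : ℕ) (h : derivedSeries H j = ⊥) : derivedSeries G j = ⊥ := by
  have := map_derivedSeries_le_derivedSeries f j
  rw [h, le_bot_iff, Subgroup.map_eq_bot_iff_of_injective _ hf] at this
  exact this

/-- the doubling lemma: adjoining an element `t` moving `X` to a commuting disjoint copy
increases the derived length -/
theorem dser_double {G : Type*} [Group G] (X : Subgroup G) (t : G)
    (hcomm : ∀ x ∈ X, ∀ y ∈ X, Commute x (t * y * t⁻¹))
    (hint : ∀ x ∈ X, ∀ y ∈ X, x = t * y * t⁻¹ → x = 1) (j : ℕ)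
    (h : dser X j ≠ ⊥) : dser (X ⊔ Subgroup.zpowers t) (j + 1) ≠ ⊥ := by
  set Y := X ⊔ Subgroup.zpowers t with hY
  let f₂ : X →* G := (MulAut.conj t).toMonoidHom.comp X.subtype
  let F : X × X →* G := MonoidHom.noncommCoprod X.subtype f₂ (fun x y => hcomm x.1 x.2 y.1 y.2)
  have hF : ∀ p : X × X, F p = p.1.1 * (t * p.2.1 * t⁻¹) := fun p => rfl
  let π : X × X →* G := X.subtype.comp (MonoidHom.fst X X)
  have key : ∀ j, dser X j ≤ ((dser Y (j + 1)).comap F).map π := by
    intro j
    induction j with
    | zero =>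
      intro d hd
      have hd' : d ∈ X := hd
      refine ⟨(⟨d, hd'⟩, ⟨d, hd'⟩⁻¹), ?_, rfl⟩
      rw [SetLike.mem_coe, Subgroup.mem_comap, hF]
      have e : d * (t * d⁻¹ * t⁻¹) = ⁅d, t⁆ := by rw [commutatorElement_def]; group
      show d * (t * d⁻¹ * t⁻¹) ∈ _
      rw [e]
      exact Subgroup.commutator_mem_commutator (Subgroup.mem_sup_left hd')
        (Subgroup.mem_sup_right (Subgroup.mem_zpowers t))
    | succ j ih =>
      rw [dser_succ]
      have h1 : ⁅dser X j, dser X j⁆ ≤
          ⁅((dser Y (j + 1)).comap F).map π, ((dser Y (j + 1)).comap F).map π⁆ :=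
        Subgroup.commutator_mono ih ih
      rw [← Subgroup.map_commutator] at h1
      refine h1.trans (Subgroup.map_mono ?_)
      rw [Subgroup.commutator_le]
      intro p hp q hq
      rw [Subgroup.mem_comap, map_commutatorElement]
      exact Subgroup.commutator_mem_commutator hp hq
  intro hbot
  apply h
  rw [eq_bot_iff]
  intro d hd
  obtain ⟨p, hp, rfl⟩ := key j hd
  rw [SetLike.mem_coe, Subgroup.mem_comap, hbot, Subgroup.mem_bot, hF] at hp
  rw [Subgroup.mem_bot]
  show p.1.1 = 1
  apply hint p.1.1 p.1.2 (p.2⁻¹).1 (p.2⁻¹).2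
  have e : p.1.1 = (t * p.2.1 * t⁻¹)⁻¹ := eq_inv_of_mul_eq_one_left hp
  rw [e]
  show (t * p.2.1 * t⁻¹)⁻¹ = t * (p.2.1)⁻¹ * t⁻¹
  group

/-- adjoining an involution swapping two commuting copies of a `p`-group gives a `p`-group -/
theorem pgroup_double {G : Type*} [Group G] [Finite G] {p : ℕ} [Fact p.Prime] (X : Subgroup G)
    (t : G) (hX : IsPGroup p X) (ht : IsPGroup p (Subgroup.zpowers t)) (ht2 : t * t = 1)
    (hcomm : ∀ x ∈ X, ∀ y ∈ X, Commute x (t * y * t⁻¹)) :
    IsPGroup p (X ⊔ Subgroup.zpowers t : Subgroup G) := by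
  let X' : Subgroup G := X.map (MulAut.conj t).toMonoidHom
  have hX' : IsPGroup p X' := hX.map _
  have h1 : IsPGroup p (X ⊔ X' : Subgroup G) := by
    refine IsPGroup.to_sup_of_normal_left' hX hX' ?_
    rintro y ⟨y0, hy0, rfl⟩
    apply Subgroup.mem_normalizer_fintype
    intro x hx
    have hc := hcomm x hx y0 hy0
    have e : (MulAut.conj t).toMonoidHom y0 * x * ((MulAut.conj t).toMonoidHom y0)⁻¹ = x := by
      show t * y0 * t⁻¹ * x * (t * y0 * t⁻¹)⁻¹ = x
      rw [← hc.eq, mul_inv_cancel_right]
    rw [e]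
    exact hx
  have h2 : IsPGroup p ((X ⊔ X') ⊔ Subgroup.zpowers t : Subgroup G) := by
    refine IsPGroup.to_sup_of_normal_left' h1 ht ?_
    rw [Subgroup.zpowers_le]
    apply Subgroup.mem_normalizer_fintype
    intro z hz
    have hmap : (X ⊔ X').map (MulAut.conj t).toMonoidHom ≤ X ⊔ X' := by
      rw [Subgroup.map_sup]
      apply sup_le
      · exact le_sup_right
      · rintro w ⟨w1, ⟨w0, hw0, rfl⟩, rfl⟩
        apply Subgroup.mem_sup_left
        have e : (MulAut.conj t).toMonoidHom ((MulAut.conj t).toMonoidHom w0) = w0 := by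
          show t * (t * w0 * t⁻¹) * t⁻¹ = w0
          have e1 : t * (t * w0 * t⁻¹) * t⁻¹ = (t * t) * w0 * (t * t)⁻¹ := by group
          rw [e1, ht2, one_mul, inv_one, mul_one]
        rw [e]
        exact hw0
    exact hmap ⟨z, hz, rfl⟩
  exact h2.to_le (sup_le (le_sup_left.trans le_sup_left) le_sup_right)

end Cfsg.Agent.Helper37
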