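import Mathlib
import Cfsg.Agent.Helper37.Sp2D

set_option autoImplicit false

namespace Cfsg.Agent.Helper37

open scoped commutatorElement

/-- permutation of coordinates as automorphisms -/
def permAut (D : Type*) [Group D] (n : ℕ) : Equiv.Perm (Fin n) →* MulAut (Fin n → D) where
  toFun σ :=
    { toFun := fun g => g ∘ ⇑σ⁻¹
      invFun := fun g => g ∘ ⇑σ
      left_inv := fun g => by funext i; simp
      right_inv := fun g => by funext i; simp
      map_mul' := fun _ _ => rfl }
  map_one' := by ext g i; rfl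
  map_mul' σ τ := by ext g i; simp [mul_inv_rev]

theorem permAut_apply {D : Type*} [Group D] {n : ℕ} (σ : Equiv.Perm (Fin n)) (g : Fin n → D)
    (i : Fin n) : permAut D n σ g i = g (σ⁻¹ i) := rfl

/-- the wreath product `D ≀ S_n` -/
abbrev Wr (D : Type*) [Group D] (n : ℕ) := (Fin n → D) ⋊[permAut D n] Equiv.Perm (Fin n)

variable {D : Type*} [Group D] {n : ℕ}

theorem wr_mul_left (w w' : Wr D n) (i : Fin n) :
    (w * w').left i = w.left i * w'.left (w.right⁻¹ i) := by
  rw [SemidirectProduct.mul_left]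
  rfl

theorem wr_inv_left (w : Wr D n) (i : Fin n) : (w⁻¹).left i = (w.left (w.right i))⁻¹ := by
  rw [SemidirectProduct.inv_left, permAut_apply, inv_inv]
  rfl

/-- elements supported on a set of coordinates -/
def wrSupp (D : Type*) [Group D] (n : ℕ) (C : Set (Fin n)) : Subgroup (Wr D n) where
  carrier := {w | (∀ i, i ∉ C → w.left i = 1) ∧ (∀ i, i ∉ C → w.right i = i)}
  mul_mem' := by
    rintro w w' ⟨h1, h2⟩ ⟨h1', h2'⟩
    refine ⟨fun i hi => ?_, fun i hi => ?_⟩
    · rw [wr_mul_left, h1 i hi]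
      have e : w.right⁻¹ i = i := by
        rw [Equiv.Perm.inv_eq_iff_eq]; exact (h2 i hi).symm
      rw [e, h1' i hi, mul_one]
    · rw [SemidirectProduct.mul_right, Equiv.Perm.mul_apply, h2' i hi, h2 i hi]
  one_mem' := ⟨fun i _ => rfl, fun i _ => rfl⟩
  inv_mem' := by
    rintro w ⟨h1, h2⟩
    refine ⟨fun i hi => ?_, fun i hi => ?_⟩
    · rw [wr_inv_left, h2 i hi, h1 i hi, inv_one]
    · rw [SemidirectProduct.inv_right, Equiv.Perm.inv_eq_iff_eq]; exact (h2 i hi).symm

theorem wrSupp_mono {C C' : Set (Fin n)} (h : C ⊆ C') : wrSupp D n C ≤ wrSupp D n C' :=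
  fun _ hw => ⟨fun i hi => hw.1 i (fun hc => hi (h hc)), fun i hi => hw.2 i (fun hc => hi (h hc))⟩

theorem wrSupp_commute {C C' : Set (Fin n)} (hd : ∀ i, i ∈ C → i ∉ C') (w w' : Wr D n)
    (hw : w ∈ wrSupp D n C) (hw' : w' ∈ wrSupp D n C') : Commute w w' := by
  obtain ⟨h1, h2⟩ := hw
  obtain ⟨h1', h2'⟩ := hw'
  have hr : ∀ i, i ∉ C → w.right⁻¹ i = i := fun i hi => by
    rw [Equiv.Perm.inv_eq_iff_eq]; exact (h2 i hi).symm
  have hr' : ∀ i, i ∉ C' → w'.right⁻¹ i = i := fun i hi => by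
    rw [Equiv.Perm.inv_eq_iff_eq]; exact (h2' i hi).symm
  have hC : ∀ i, i ∈ C → w.right⁻¹ i ∈ C := by
    intro i hi
    by_contra hn
    have e : w.right⁻¹ i = i := (w.right⁻¹).injective (hr _ hn)
    rw [e] at hn
    exact hn hi
  have hC' : ∀ i, i ∈ C' → w'.right⁻¹ i ∈ C' := by
    intro i hi
    by_contra hn
    have e : w'.right⁻¹ i = i := (w'.right⁻¹).injective (hr' _ hn)
    rw [e] at hn
    exact hn hi
  show w * w' = w' * w
  apply SemidirectProduct.ext
  · funext i
    rw [wr_mul_left, wr_mul_left]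
    by_cases hi : i ∈ C
    · have hi' := hd i hi
      rw [h1' i hi', hr' i hi', one_mul, h1' _ (hd _ (hC i hi)), mul_one]
    · rw [h1 i hi, hr i hi, one_mul]
      by_cases hi' : i ∈ C'
      · have hn : w'.right⁻¹ i ∉ C := fun hc => hd _ hc (hC' i hi')
        rw [h1 _ hn, mul_one]
      · rw [hr' i hi', h1 i hi, mul_one]
  · rw [SemidirectProduct.mul_right, SemidirectProduct.mul_right]
    apply Equiv.Perm.Disjoint.commute
    intro i
    by_cases hi : i ∈ C
    · right; exact h2' i (hd i hi)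
    · left; exact h2 i hi

theorem wrSupp_inter {C C' : Set (Fin n)} (hd : ∀ i, i ∈ C → i ∉ C') (w : Wr D n)
    (hw : w ∈ wrSupp D n C) (hw' : w ∈ wrSupp D n C') : w = 1 := by
  apply SemidirectProduct.ext
  · funext i
    by_cases hi : i ∈ C
    · exact hw'.1 i (hd i hi)
    · exact hw.1 i hi
  · ext i
    by_cases hi : i ∈ C
    · rw [hw'.2 i (hd i hi)]; rfl
    · rw [hw.2 i hi]; rfl

theorem wrSupp_conj {C C' : Set (Fin n)} (τ : Equiv.Perm (Fin n))
    (hτ : ∀ i, i ∉ C' → τ⁻¹ i ∉ C) (w : Wr D n) (hw : w ∈ wrSupp D n C) :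
    (SemidirectProduct.inr τ : Wr D n) * w * (SemidirectProduct.inr τ : Wr D n)⁻¹ ∈
      wrSupp D n C' := by
  obtain ⟨h1, h2⟩ := hw
  refine ⟨fun i hi => ?_, fun i hi => ?_⟩
  · rw [wr_mul_left, wr_mul_left, wr_inv_left]
    simp only [SemidirectProduct.left_inr, SemidirectProduct.right_inr, Pi.one_apply, one_mul,
      inv_one, mul_one]
    exact h1 _ (hτ i hi)
  · simp only [SemidirectProduct.mul_right, SemidirectProduct.inv_right,
      SemidirectProduct.right_inr, Equiv.Perm.mul_apply]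
    rw [h2 _ (hτ i hi)]
    simp

/-- the block swap `x ↔ x + m` for `x < m` -/
def towF (n m : ℕ) (i : Fin n) : Fin n :=
  if h : 2 * m ≤ n then
    (if h1 : i.val < m then ⟨i.val + m, by omega⟩
     else if h2 : i.val < 2 * m then ⟨i.val - m, by omega⟩ else i)
  else i

theorem towF_invol (n m : ℕ) (i : Fin n) : towF n m (towF n m i) = i := by
  by_cases h : 2 * m ≤ n
  · by_cases h1 : i.val < m
    · have e1 : towF n m i = ⟨i.val + m, by omega⟩ := by
        unfold towF; rw [dif_pos h, dif_pos h1]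
      rw [e1]
      unfold towF
      rw [dif_pos h, dif_neg (by show ¬ (i.val + m < m); omega),
        dif_pos (by show i.val + m < 2 * m; omega)]
      apply Fin.ext
      show i.val + m - m = i.val
      omega
    · by_cases h2 : i.val < 2 * m
      · have e1 : towF n m i = ⟨i.val - m, by omega⟩ := by
          unfold towF; rw [dif_pos h, dif_neg h1, dif_pos h2]
        rw [e1]
        unfold towF
        rw [dif_pos h, dif_pos (by show i.val - m < m; omega)]
        apply Fin.ext
        show i.val - m + m = i.val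
        omega
      · have e1 : towF n m i = i := by
          unfold towF; rw [dif_pos h, dif_neg h1, dif_neg h2]
        rw [e1, e1]
  · have e1 : ∀ k, towF n m k = k := by
      intro k
      unfold towF
      rw [dif_neg h]
    rw [e1, e1]

/-- the block swap as a permutation -/
def towPerm (n m : ℕ) : Equiv.Perm (Fin n) :=
  Function.Involutive.toPerm (towF n m) (towF_invol n m)

theorem towPerm_apply (n m : ℕ) (i : Fin n) : towPerm n m i = towF n m i := rfl

theorem towPerm_sq (n m : ℕ) : towPerm n m * towPerm n m = 1 := by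
  ext i
  rw [Equiv.Perm.mul_apply, towPerm_apply, towPerm_apply, towF_invol]
  rfl

theorem towPerm_inv (n m : ℕ) : (towPerm n m)⁻¹ = towPerm n m :=
  inv_eq_of_mul_eq_one_left (towPerm_sq n m)

theorem towPerm_fix (n m : ℕ) (i : Fin n) (hi : 2 * m ≤ i.val) : towPerm n m i = i := by
  rw [towPerm_apply]
  unfold towF
  split_ifs <;> first | rfl | omega

theorem towPerm_move (n m : ℕ) (h : 2 * m ≤ n) (i : Fin n) (hi : i.val < m) :
    m ≤ (towPerm n m i).val ∧ (towPerm n m i).val < 2 * m := by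
  rw [towPerm_apply]
  unfold towF
  rw [dif_pos h, dif_pos hi]
  simp only
  omega

/-- the tower of iterated wreath products -/
def towX (T₀ : Subgroup D) (n : ℕ) (hn : 0 < n) : ℕ → Subgroup (Wr D n)
  | 0 => (T₀.map (MonoidHom.mulSingle (fun _ : Fin n => D) ⟨0, hn⟩)).map SemidirectProduct.inl
  | (j + 1) => towX T₀ n hn j ⊔
      Subgroup.zpowers (SemidirectProduct.inr (towPerm n (2 ^ j)) : Wr D n)

theorem towX_supp (T₀ : Subgroup D) (n : ℕ) (hn : 0 < n) (j : ℕ) :
    towX T₀ n hn j ≤ wrSupp D n {i | i.val < 2 ^ j} := by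
  induction j with
  | zero =>
    rintro w ⟨g, ⟨t, -, rfl⟩, rfl⟩
    refine ⟨fun i hi => ?_, fun i _ => rfl⟩
    rw [SemidirectProduct.left_inl]
    have hne : i ≠ ⟨0, hn⟩ := by
      intro e
      apply hi
      rw [e]
      show 0 < 2 ^ 0
      norm_num
    exact Pi.mulSingle_eq_of_ne (M := fun _ : Fin n => D) hne t
  | succ j ih =>
    have hpow : 2 ^ (j + 1) = 2 * 2 ^ j := by ring
    refine sup_le (ih.trans (wrSupp_mono ?_)) ?_
    · intro i hi
      have hi' : i.val < 2 ^ j := hi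
      show i.val < 2 ^ (j + 1)
      omega
    · rw [Subgroup.zpowers_le]
      refine ⟨fun i _ => rfl, fun i hi => ?_⟩
      rw [SemidirectProduct.right_inr]
      apply towPerm_fix
      have hi' : ¬ i.val < 2 ^ (j + 1) := hi
      omega

theorem towX_main [Finite D] (T₀ : Subgroup D) (hT₀ : IsPGroup 2 T₀) (u v : D) (hu : u ∈ T₀)
    (hv : v ∈ T₀) (huv : u * v ≠ v * u) (n : ℕ) (hn : 0 < n) (j : ℕ) (hj : 2 ^ j ≤ n) :
    IsPGroup 2 (towX T₀ n hn j) ∧ dser (towX T₀ n hn j) (j + 1) ≠ ⊥ := by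
  haveI : Fact (Nat.Prime 2) := ⟨Nat.prime_two⟩
  haveI : Finite (Wr D n) := Finite.of_equiv _ SemidirectProduct.equivProd.symm
  induction j with
  | zero =>
    constructor
    · exact (hT₀.map _).map _
    · intro hbot
      apply huv
      let ι : D →* Wr D n := (SemidirectProduct.inl : (Fin n → D) →* Wr D n).comp
        (MonoidHom.mulSingle (fun _ : Fin n => D) ⟨0, hn⟩)
      have hι : Function.Injective ι := by
        have hs : Function.Injective (Pi.mulSingle (M := fun _ : Fin n => D) (⟨0, hn⟩ : Fin n)) :=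
          Pi.mulSingle_injective (⟨0, hn⟩ : Fin n)
        exact SemidirectProduct.inl_injective.comp hs
      have h1 : ∀ t ∈ T₀, ι t ∈ towX T₀ n hn 0 := fun t ht => ⟨_, ⟨t, ht, rfl⟩, rfl⟩
      have h2 : ⁅ι u, ι v⁆ ∈ dser (towX T₀ n hn 0) (0 + 1) :=
        Subgroup.commutator_mem_commutator (h1 u hu) (h1 v hv)
      rw [hbot, Subgroup.mem_bot, ← map_commutatorElement] at h2
      have h5 : ⁅u, v⁆ = 1 := hι (h2.trans (map_one ι).symm)
      rw [commutatorElement_def] at h5
      have h6 : u * v = (u * v * u⁻¹ * v⁻¹) * (v * u) := by group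
      rw [h6, h5, one_mul]
  | succ j ih =>
    have hpow : 2 ^ (j + 1) = 2 * 2 ^ j := by ring
    have hj' : 2 ^ j ≤ n := by omega
    obtain ⟨ihP, ihD⟩ := ih hj'
    have hsupp := towX_supp T₀ n hn j
    set t : Wr D n := SemidirectProduct.inr (towPerm n (2 ^ j)) with ht
    have hconj : ∀ y ∈ towX T₀ n hn j, t * y * t⁻¹ ∈
        wrSupp D n {i | 2 ^ j ≤ i.val ∧ i.val < 2 * 2 ^ j} := by
      intro y hy
      apply wrSupp_conj (C := {i | i.val < 2 ^ j}) _ _ y (hsupp hy)
      intro i hi hc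
      apply hi
      rw [towPerm_inv] at hc
      have hc' : (towPerm n (2 ^ j) i).val < 2 ^ j := hc
      have h7 := towPerm_move n (2 ^ j) (by omega) _ hc'
      rw [← Equiv.Perm.mul_apply, towPerm_sq] at h7
      exact h7
    have hdisj : ∀ i : Fin n, i ∈ {i : Fin n | i.val < 2 ^ j} →
        i ∉ {i : Fin n | 2 ^ j ≤ i.val ∧ i.val < 2 * 2 ^ j} := by
      intro i hi hc
      have h8 : i.val < 2 ^ j := hi
      have h9 : 2 ^ j ≤ i.val := hc.1
      omega
    have hcomm : ∀ x ∈ towX T₀ n hn j, ∀ y ∈ towX T₀ n hn j, Commute x (t * y * t⁻¹) :=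
      fun x hx y hy => wrSupp_commute hdisj x _ (hsupp hx) (hconj y hy)
    have hint : ∀ x ∈ towX T₀ n hn j, ∀ y ∈ towX T₀ n hn j, x = t * y * t⁻¹ → x = 1 := by
      intro x hx y hy e
      exact wrSupp_inter hdisj x (hsupp hx) (e ▸ hconj y hy)
    have ht2 : t * t = 1 := by
      rw [ht, ← map_mul, towPerm_sq, map_one]
    have htp : IsPGroup 2 (Subgroup.zpowers t) := by
      rintro ⟨g, hg⟩
      obtain ⟨m, rfl⟩ := Subgroup.mem_zpowers_iff.mp hg
      refine ⟨1, Subtype.ext ?_⟩
      show (t ^ m) ^ 2 ^ 1 = 1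
      rw [pow_one, ← zpow_natCast, ← zpow_mul, mul_comm, zpow_mul, zpow_natCast, pow_two, ht2,
        one_zpow]
    constructor
    · exact pgroup_double _ t ihP htp ht2 hcomm
    · exact dser_double _ t hcomm hint (j + 1) ihD

end Cfsg.Agent.Helper37
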